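import Mathlib

/-! Interface for S4181 / S3580 (fixed points of Sylow subgroups); paper proofs in notes/FP_h1.md. -/

set_option autoImplicit false

namespace H1.FP
open MulAction
universe u v

/-- `x` has prime order `p`, `p²` does not divide `|K|`, and `K` is generated by its elements of order `p`. -/
structure St (p : ℕ) {K : Type u} [Group K] (x : K) : Prop where
  hp : p.Prime
  sq : ¬ p ^ 2 ∣ Nat.card K
  ord : orderOf x = p
  gen : Subgroup.closure {y : K | orderOf y = p} = ⊤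

/-- number of fixed points of `x` -/
noncomputable def fx {K : Type u} [Group K] (x : K) (Δ : Type u) [MulAction K Δ] : ℕ :=
  Nat.card (fixedBy Δ x)

/-- number of `p`-cycles of `x` -/
noncomputable def lx (p : ℕ) {K : Type u} [Group K] (x : K) (Δ : Type u) [MulAction K Δ] : ℕ :=
  (Nat.card Δ - fx x Δ) / p

/-- the subgroup generated by the elements of order `p` of `H` -/
def Op (p : ℕ) {K : Type u} [Group K] (H : Subgroup K) : Subgroup K :=
  Subgroup.closure {y : K | y ∈ H ∧ orderOf y = p}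

/-- `x` is a `p`-cycle on the transitive `K`-set `A` with at least 3 fixed points (2 if `p = 3`) -/
def Al (p : ℕ) {K : Type u} [Group K] (x : K) (A : Type u) [MulAction K A] : Prop :=
  IsPretransitive K A ∧ lx p x A = 1 ∧ (3 ≤ fx x A ∨ (p = 3 ∧ fx x A = 2))

/-- kernel of an action -/
abbrev kr (K : Type u) [Group K] (A : Type u) [MulAction K A] : Subgroup K := (toPermHom K A).ker

/-- number of fixed points of a subgroup -/
noncomputable def fP {G : Type u} [Group G] (P : Subgroup G) (Δ : Type v) [MulAction G Δ] : ℕ :=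
  Nat.card (fixedPoints P Δ)

/-- generated by `p`-elements -/
def PG (p : ℕ) (G : Type u) [Group G] : Prop :=
  Subgroup.closure {g : G | ∃ k : ℕ, orderOf g = p ^ k} = ⊤

def Q0 : Prop := ∀ (K : Type u) [Group K] [Finite K] (Θ : Type u) [Finite Θ] [MulAction K Θ],
  IsPretransitive K Θ → 2 ≤ Nat.card Θ →
  ∃ (A : Type u) (_ : Finite A) (_ : MulAction K A) (π : Θ → A) (β : ℕ),
    IsPreprimitive K A ∧ 2 ≤ Nat.card A ∧ (∀ (g : K) (u : Θ), π (g • u) = g • π u) ∧ 1 ≤ β ∧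
    (∀ S : Set A, (π ⁻¹' S).ncard = β * S.ncard) ∧ (β = 1 → IsPreprimitive K Θ)

def QT : Prop := ∀ (p : ℕ) (K : Type u) [Group K] [Finite K] (x : K)
  (Θ : Type u) [Finite Θ] [MulAction K Θ],
  St p x → IsPretransitive K Θ → 2 ≤ Nat.card Θ →
  ∃ (A : Type u) (_ : Finite A) (_ : MulAction K A) (π : Θ → A) (β ε : ℕ),
    IsPreprimitive K A ∧ 2 ≤ Nat.card A ∧ (∀ (g : K) (u : Θ), π (g • u) = g • π u) ∧ 1 ≤ β ∧
    Nat.card Θ = β * Nat.card A ∧ fx x Θ + p * ε = β * fx x A ∧ lx p x Θ = β * lx p x A + ε ∧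
    (ε = 0 → ∀ u : Θ, x • π u = π u → x • u = u) ∧ (β = 1 → IsPreprimitive K Θ)

def L1 : Prop := ∀ (p : ℕ) (K : Type u) [Group K] [Finite K] (x : K)
  (A : Type u) [Finite A] [MulAction K A],
  St p x → IsPretransitive K A → lx p x A = 1 → IsPreprimitive K A ∧ fx x A < p

def AL : Prop := ∀ (p : ℕ) (K : Type u) [Group K] [Finite K] (x : K)
  (A : Type u) [Fintype A] [DecidableEq A] [MulAction K A],
  St p x → 3 ≤ p → Al p x A → (toPermHom K A).range = alternatingGroup A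

def CD : Prop := ∀ (G : Type u) [Group G] [Finite G] (N H : Subgroup G) (y : G) (q : ℕ),
  q.Prime → y ^ q = 1 → ¬ q ∣ Nat.card N → H ≤ N →
  y ∈ Subgroup.normalizer (N : Set G) → y ∈ Subgroup.normalizer (H : Set G) →
  (Subgroup.centralizer ({y} : Set G)).relIndex H ∣ (Subgroup.centralizer ({y} : Set G)).relIndex N

def PS : Prop := ∀ (G : Type u) [Group G] [Finite G] (Δ : Type u) [Finite Δ] [MulAction G Δ]
  (N : Subgroup G) (y : G) (q : ℕ),
  q.Prime → y ∈ Subgroup.normalizer (N : Set G) → ¬ q ∣ Nat.card (N.map (toPermHom G Δ)) →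
  (∀ u : Δ, y ^ q • u = u) → (∃ u : Δ, y • u ≠ u) → IsPretransitive N Δ →
  (q + 1) * fx y Δ ≤ Nat.card Δ

def TR : Prop := ∀ (p : ℕ) (K : Type u) [Group K] [Finite K] (x : K)
  (A : Type u) [Finite A] [MulAction K A] (Θ : Type u) [Finite Θ] [MulAction K Θ],
  St p x → IsPretransitive K A → 2 ≤ Nat.card A → 2 ≤ Nat.card Θ →
  IsPretransitive (kr K A) Θ → fx x Θ ≤ lx p x Θ

def KR : Prop := ∀ (p : ℕ) (K : Type u) [Group K] [Finite K] (x : K)
  (A : Type u) [Finite A] [MulAction K A] (Θ : Type u) [Finite Θ] [MulAction K Θ],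
  St p x → IsPreprimitive K A → lx p x A < fx x A → IsPretransitive K Θ → 2 ≤ Nat.card Θ →
  kr K Θ ≤ kr K A

def UN : Prop := ∀ (p : ℕ) (K : Type u) [Group K] [Finite K] (x : K)
  (A : Type u) [Finite A] [MulAction K A] (Θ : Type u) [Finite Θ] [MulAction K Θ],
  St p x → 3 ≤ p → Al p x A → IsPreprimitive K Θ → 2 ≤ Nat.card Θ → 1 ≤ fx x Θ →
  IsPretransitive (kr K A) Θ ∨ (∃ e : Θ ≃ A, ∀ (g : K) (u : Θ), e (g • u) = g • e u) ∨
    ∃ k : ℕ, 2 ≤ k ∧ k ≤ fx x A ∧ fx x Θ = (fx x A).choose k ∧ Nat.card Θ = (p + fx x A).choose k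

def NU : Prop := ∀ p φ k l : ℕ, p.Prime → 3 ≤ p → φ < p → 2 ≤ k → k ≤ φ →
  (p + φ).choose k = φ.choose k + p * l → φ.choose k + p + φ ≤ (p - 1) * l + 1

def CE : Prop := ∀ (K : Type u) [Group K] (Δ : Type u) [Finite Δ] [MulAction K Δ] (x y : K)
  (p r j : ℕ), p.Prime → r.Prime → r ≠ p → orderOf x = p → y ^ (r ^ j) = 1 → Commute x y →
  (lx p x Δ < r → ∀ u : Δ, x • u ≠ u → y • u = u) ∧ (fx x Δ < r → ∀ u : Δ, x • u = u → y • u = u)

def WT : Prop := ∀ (p : ℕ) (K : Type u) [Group K] [Finite K] (x : K)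
  (Δ : Type u) [MulAction K Δ] (a b : Δ),
  St p x → IsPretransitive K Δ → x • a = a → x • b = b →
  ∃ g ∈ Subgroup.normalizer ((Subgroup.zpowers x : Subgroup K) : Set K), g • a = b

def PR : Prop := ∀ (p : ℕ) (K : Type u) [Group K] [Finite K] (x : K)
  (Δ : Type u) [Finite Δ] [MulAction K Δ] (q : ℕ),
  St p x → 3 ≤ p → IsPreprimitive K Δ → q.Prime → fx x Δ = q → q ≠ p → ¬ q ∣ p - 1 →
  2 ≤ lx p x Δ → lx p x Δ < q → False

def KA : Prop := ∀ (p : ℕ) (K : Type u) [Group K] [Finite K] (x : K)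
  (A : Type u) [Finite A] [MulAction K A] (Θ : Type u) [Finite Θ] [MulAction K Θ],
  St p x → 5 ≤ p → Al p x A → IsPretransitive K Θ → lx p x Θ = 2 → fx x Θ ≤ 2 → False

def KB : Prop := ∀ (K : Type u) [Group K] [Finite K] (x : K)
  (A : Type u) [Finite A] [MulAction K A] (Θ : Type u) [Finite Θ] [MulAction K Θ],
  St 3 x → Al 3 x A → fx x A = 2 → IsPretransitive (kr K A) Θ →
  (Nat.card Θ = 7 ∨ Nat.card Θ = 8) → False

def OC : Prop := ∀ (p : ℕ) (K : Type u) [Group K] [Finite K] (x : K)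
  (A : Type u) [Finite A] [MulAction K A] (Θ : Type u) [Finite Θ] [MulAction K Θ],
  St p x → 3 ≤ p → Al p x A → IsPretransitive K Θ → 2 ≤ Nat.card Θ → Nat.card Θ ≤ p + 1 → False

def LS : Prop := ∀ (p : ℕ) (K : Type u) [Group K] [Finite K] (x : K)
  (Δ : Type u) [Finite Δ] [MulAction K Δ] (a : Δ) (hx : x ∈ Op p (stabilizer K a))
  (A : Type u) [Finite A] [MulAction (Op p (stabilizer K a)) A],
  St p x → 3 ≤ p → IsPretransitive K Δ → 2 ≤ lx p x Δ →
  Al p (⟨x, hx⟩ : Op p (stabilizer K a)) A →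
  (∀ b : Δ, b ≠ a → ∃ μ : orbit (Op p (stabilizer K a)) b → A,
    (∀ (g : Op p (stabilizer K a)) u, μ (g • u) = g • μ u) ∧
    ∀ u, (⟨x, hx⟩ : Op p (stabilizer K a)) • μ u = μ u → x • (u : Δ) = u) → False

def GR : Prop := ∀ (p : ℕ) (K : Type u) [Group K] [Finite K] (x : K)
  (Δ : Type u) [Finite Δ] [MulAction K Δ] (a b c : Δ) (φ : ℕ),
  St p x → 3 ≤ p → IsPreprimitive K Δ → x • a = a → b ≠ a →
  (∀ u : Δ, u = a ∨ u ∈ orbit (Op p (stabilizer K a)) b ∨ u ∈ orbit (Op p (stabilizer K a)) c) →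
  φ ≤ 2 → (orbit (Op p (stabilizer K a)) b).ncard = p + φ →
  (orbit (Op p (stabilizer K a)) b ∩ fixedBy Δ x).ncard = φ →
  2 * p + 1 ≤ (orbit (Op p (stabilizer K a)) c).ncard →
  φ * (φ - 1) < (orbit (Op p (stabilizer K a)) c ∩ fixedBy Δ x).ncard → False

/-- the main lemma for odd `p` -/
def W3 : Prop := ∀ (p : ℕ) (K : Type u) [Group K] [Finite K] (x : K)
  (Δ : Type u) [Finite Δ] [MulAction K Δ],
  St p x → 3 ≤ p → IsPretransitive K Δ → 2 ≤ Nat.card Δ → fx x Δ ≤ (p - 1) * lx p x Δ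

def W2 : Prop := ∀ (K : Type u) [Group K] [Finite K] (x : K)
  (Δ : Type u) [Finite Δ] [MulAction K Δ],
  St 2 x → IsPretransitive K Δ → 2 ≤ Nat.card Δ → fx x Δ ≤ lx 2 x Δ

def WQ : Prop := ∀ (p : ℕ) [Fact p.Prime] (G : Type u) [Group G] [Finite G] (P : Sylow p G)
  (Θ : Type u) [Finite Θ] [MulAction G Θ] (Q : Subgroup G),
  PG p G → IsPretransitive G Θ → 2 ≤ Nat.card Θ → Q ≤ P → Q.relIndex P = p → Q ≤ kr G Θ →
  p * fP (P : Subgroup G) Θ ≤ (p - 1) * (Nat.card Θ - fP (P : Subgroup G) Θ)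

def YQ : Prop := ∀ (p : ℕ) [Fact p.Prime] (G : Type u) [Group G] [Finite G] (P : Sylow p G)
  (Δ : Type u) [Finite Δ] [MulAction G Δ],
  IsPretransitive G Δ → (∃ u : Δ, (orbit (P : Subgroup G) u).ncard = p) →
  p * fP (P : Subgroup G) Δ ≤ (p - 1) * (Nat.card Δ - fP (P : Subgroup G) Δ)

def TG : Prop := ∀ (p : ℕ) [Fact p.Prime] (G : Type u) [Group G] [Finite G] (P : Sylow p G)
  (Δ : Type u) [Finite Δ] [MulAction G Δ],
  PG p G → IsPretransitive G Δ → 2 ≤ Nat.card Δ →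
  p * fP (P : Subgroup G) Δ ≤ (p - 1) * (Nat.card Δ - fP (P : Subgroup G) Δ)

def FN : Prop := ∀ (p : ℕ) [Fact p.Prime] (G : Type u) [Group G] [Finite G] (P : Sylow p G)
  (Δ : Type v) [Finite Δ] [MulAction G Δ] (a : Δ),
  IsPretransitive G Δ → (P : Subgroup G) ≤ stabilizer G a →
  fP (P : Subgroup G) Δ * Nat.card (Sylow p G) = Nat.card Δ * Nat.card (Sylow p (stabilizer G a))

/-- S4181 -/
def R1 : Prop := ∀ {G : Type u} [Group G] [Finite G] (p : ℕ) [Fact p.Prime]
  (_ : Subgroup.closure {g : G | ∃ k : ℕ, orderOf g = p ^ k} = ⊤)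
  (H : Subgroup G) (_ : H ≠ ⊤) (P : Sylow p G) (_ : (P : Subgroup G) ≤ H),
  (2 * p - 1) * Nat.card (Sylow p ↥H) ≤ (p - 1) * Nat.card (Sylow p G)

/-- S3580 -/
def R2 : Prop := ∀ {G : Type u} {Ω : Type v} [Group G] [Finite G] [MulAction G Ω] [FaithfulSMul G Ω]
  [Finite Ω] (_ : IsPretransitive G Ω) (p : ℕ) [Fact p.Prime] (_ : p ≠ 2) (_ : p ∣ Nat.card G)
  (P : Sylow p G),
  (2 * p - 1) * Nat.card (orbitRel.Quotient ↥(P : Subgroup G) Ω) ≤ p * Nat.card Ω

section basic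
variable {p : ℕ} {K : Type u} [Group K] {x : K} {Δ : Type u} [MulAction K Δ]

theorem fix_zpow {u : Δ} (h : x • u = u) {y : K} (hy : y ∈ Subgroup.zpowers x) : y • u = u :=
  (Subgroup.zpowers_le (H := stabilizer K u)).2 h hy

theorem fx_le [Finite Δ] : fx x Δ ≤ Nat.card Δ := Nat.card_le_card_of_injective _ Subtype.val_injective

theorem fx_eq : fx x Δ = (fixedBy Δ x).ncard := by rw [fx, Nat.card_coe_set_eq]

theorem card_eq [Finite Δ] (hp : p.Prime) (ho : orderOf x = p) :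
    Nat.card Δ = fx x Δ + p * lx p x Δ := by
  haveI := Fact.mk hp
  have hP : IsPGroup p (Subgroup.zpowers x) :=
    IsPGroup.of_card (n := 1) (by rw [Nat.card_zpowers, ho, pow_one])
  have h := hP.card_modEq_card_fixedPoints Δ
  have e : fixedPoints (Subgroup.zpowers x) Δ = fixedBy Δ x := by
    ext u
    constructor
    · intro h; exact h ⟨x, Subgroup.mem_zpowers x⟩
    · intro h g; exact fix_zpow h g.2
  rw [e] at h
  have hd : p ∣ Nat.card Δ - fx x Δ := (Nat.modEq_iff_dvd' fx_le).1 h.symm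
  rw [lx, Nat.mul_div_cancel' hd]
  have := fx_le (x := x) (Δ := Δ)
  omega

theorem Op_le (H : Subgroup K) : Op p H ≤ H := (Subgroup.closure_le _).2 fun _ h => h.1

theorem mem_Op {H : Subgroup K} {y : K} (h : y ∈ H) (ho : orderOf y = p) : y ∈ Op p H :=
  Subgroup.subset_closure ⟨h, ho⟩

theorem St.sub [Finite K] (s : St p x) {H : Subgroup K} (hx : x ∈ Op p H) :
    St p (⟨x, hx⟩ : Op p H) where
  hp := s.hp
  sq := fun h => s.sq (h.trans (Subgroup.card_subgroup_dvd_card _))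
  ord := by rw [← Subgroup.orderOf_coe]; exact s.ord
  gen := by
    apply Subgroup.map_injective (Op p H).subtype_injective
    rw [MonoidHom.map_closure, ← MonoidHom.range_eq_map, Subgroup.range_subtype]
    apply le_antisymm
    · exact (Subgroup.closure_le _).2 (by rintro _ ⟨y, -, rfl⟩; exact y.2)
    · refine (Subgroup.closure_le _).2 fun y hy => Subgroup.subset_closure ⟨⟨y, mem_Op hy.1 hy.2⟩, ?_, rfl⟩
      show orderOf _ = p
      rw [← Subgroup.orderOf_coe]; exact hy.2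

/-- Sylow: every element of order `p` generates a conjugate of `⟨x⟩`. -/
theorem St.conj [Finite K] (s : St p x) {y : K} (hy : orderOf y = p) :
    ∃ g : K, Subgroup.zpowers y = Subgroup.zpowers (g * x * g⁻¹) := by
  haveI := Fact.mk s.hp
  have key : ∀ z : K, orderOf z = p → ∃ S : Sylow p K, (S : Subgroup K) = Subgroup.zpowers z := by
    intro z hz
    have hP : IsPGroup p (Subgroup.zpowers z) :=
      IsPGroup.of_card (n := 1) (by rw [Nat.card_zpowers, hz, pow_one])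
    refine ⟨hP.toSylow fun h => s.sq ?_, rfl⟩
    rw [← Subgroup.card_mul_index (Subgroup.zpowers z), Nat.card_zpowers, hz, pow_two]
    exact Nat.mul_dvd_mul_left _ h
  obtain ⟨S, hS⟩ := key x s.ord
  obtain ⟨T, hT⟩ := key y hy
  obtain ⟨g, hg⟩ := exists_smul_eq K S T
  refine ⟨g, ?_⟩
  rw [← hT, ← hg, Sylow.coe_subgroup_smul, hS]
  exact MonoidHom.map_zpowers (MulAut.conj g).toMonoidHom x

/-- an element of order `p` has the fixed points of a conjugate of `x` (in every `K`-set at once) -/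
theorem St.conj_fix [Finite K] (s : St p x) {y : K} (hy : orderOf y = p) :
    ∃ g : K, ∀ (Θ : Type u) [MulAction K Θ] (u : Θ), y • u = u ↔ x • (g⁻¹ • u) = g⁻¹ • u := by
  obtain ⟨g, hg⟩ := s.conj hy
  refine ⟨g, fun Θ _ u => ?_⟩
  have h1 : (g * x * g⁻¹) • u = u ↔ x • (g⁻¹ • u) = g⁻¹ • u := by
    rw [mul_smul, mul_smul, smul_eq_iff_eq_inv_smul]
  rw [← h1]
  constructor
  · intro h; exact fix_zpow h (hg ▸ Subgroup.mem_zpowers _)
  · intro h; exact fix_zpow h (hg ▸ Subgroup.mem_zpowers y)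

theorem St.moves [Finite K] [Finite Δ] (s : St p x) (ht : IsPretransitive K Δ) (h2 : 2 ≤ Nat.card Δ) :
    ∃ u : Δ, x • u ≠ u := by
  by_contra hc
  push Not at hc
  have hk : (⊤ : Subgroup K) ≤ kr K Δ := by
    rw [← s.gen]
    refine (Subgroup.closure_le _).2 fun y hy => ?_
    obtain ⟨g, hg⟩ := s.conj_fix hy
    ext u
    exact (hg Δ u).2 (hc _)
  have : Nontrivial Δ := Finite.one_lt_card_iff_nontrivial.1 h2
  obtain ⟨a, b, hab⟩ := exists_pair_ne Δ
  obtain ⟨g, rfl⟩ := ht.exists_smul_eq a b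
  exact hab (congrArg (fun σ : Equiv.Perm Δ => σ a) (hk (Subgroup.mem_top g))).symm

theorem St.lpos [Finite K] [Finite Δ] (s : St p x) (ht : IsPretransitive K Δ) (h2 : 2 ≤ Nat.card Δ) :
    1 ≤ lx p x Δ := by
  obtain ⟨u, hu⟩ := s.moves ht h2
  have h := card_eq (Δ := Δ) s.hp s.ord
  have : fx x Δ < Nat.card Δ := by
    rw [fx_eq, ← Set.ncard_univ]
    exact Set.ncard_lt_ncard ⟨Set.subset_univ _, fun h => hu (h (Set.mem_univ u))⟩
  rcases Nat.eq_zero_or_pos (lx p x Δ) with h0 | h0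
  · rw [h0] at h; omega
  · exact h0

theorem St.nd [Finite K] [Finite Δ] (s : St p x) (ht : IsPretransitive K Δ) (h1 : 1 ≤ fx x Δ) :
    ¬ p ∣ fx x Δ := by
  intro hd
  obtain ⟨⟨a, ha⟩⟩ : Nonempty (fixedBy Δ x) := (Nat.card_pos_iff.1 h1).1
  have hn : p ∣ Nat.card Δ := by
    rw [card_eq (Δ := Δ) s.hp s.ord]; exact hd.add (Dvd.intro _ rfl)
  have hs : p ∣ Nat.card (stabilizer K a) := by
    rw [← s.ord, ← Nat.card_zpowers]
    exact Subgroup.card_dvd_of_le ((Subgroup.zpowers_le (H := stabilizer K a)).2 ha)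
  apply s.sq
  rw [← Subgroup.card_mul_index (stabilizer K a), index_stabilizer_of_transitive, pow_two]
  exact Nat.mul_dvd_mul hs hn

theorem Op_conj {a : Δ} {g y : K} (hy : y ∈ Op p (stabilizer K a)) :
    g * y * g⁻¹ ∈ Op p (stabilizer K (g • a)) := by
  have : (Op p (stabilizer K a)).map (MulAut.conj g).toMonoidHom ≤ Op p (stabilizer K (g • a)) := by
    rw [Op, MonoidHom.map_closure]
    refine (Subgroup.closure_le _).2 ?_
    rintro _ ⟨z, hz, rfl⟩
    refine mem_Op ?_ ?_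
    · show (g * z * g⁻¹) • g • a = g • a
      rw [mul_smul, inv_smul_smul, mul_smul, hz.1]
    · rw [← hz.2]; exact (MulAut.conj g).orderOf_eq z
  exact this ⟨y, hy, rfl⟩

/-- in a primitive action, `Op p (stabilizer a)` fixes only `a` -/
theorem St.fix_op [Finite K] [Finite Δ] (s : St p x) (hpr : IsPreprimitive K Δ) (h2 : 2 ≤ Nat.card Δ)
    {a b : Δ} (ha : x • a = a) (hb : ∀ y ∈ Op p (stabilizer K a), y • b = b) : b = a := by
  have hcard : ∀ c d : Δ, Nat.card (Op p (stabilizer K c)) ≤ Nat.card (Op p (stabilizer K d)) := by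
    intro c d
    obtain ⟨g, rfl⟩ := hpr.toIsPretransitive.exists_smul_eq c d
    refine Nat.card_le_card_of_injective (fun y => ⟨g * y * g⁻¹, Op_conj y.2⟩) fun y z h => ?_
    have := congrArg Subtype.val h
    exact Subtype.ext (by simpa using this)
  have heq : ∀ c d : Δ, (∀ y ∈ Op p (stabilizer K c), y • d = d) →
      Op p (stabilizer K c) = Op p (stabilizer K d) := by
    intro c d h
    refine Subgroup.eq_of_le_of_card_ge ?_ (hcard d c)
    exact (Subgroup.closure_le _).2 fun y hy => mem_Op (h y (mem_Op hy.1 hy.2)) hy.2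
  have hB : IsBlock K {c : Δ | Op p (stabilizer K c) = Op p (stabilizer K a)} := by
    rw [isBlock_iff_smul_eq_of_mem]
    intro g c hc hgc
    have hg : ∀ d : Δ, Op p (stabilizer K d) = Op p (stabilizer K a) →
        Op p (stabilizer K (g • d)) = Op p (stabilizer K a) := by
      intro d hd
      have hc' : Op p (stabilizer K c) = Op p (stabilizer K a) := hc
      have hgc' : Op p (stabilizer K (g • c)) = Op p (stabilizer K a) := hgc
      rw [← hgc']
      refine (heq _ _ fun y hy => ?_).symm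
      have h1 : g⁻¹ * y * g⁻¹⁻¹ ∈ Op p (stabilizer K (g⁻¹ • g • c)) := Op_conj hy
      rw [inv_smul_smul, hc', ← hd] at h1
      have h3 : (g⁻¹ * y * g⁻¹⁻¹) • d = d := Op_le _ h1
      rw [inv_inv, mul_smul, mul_smul, inv_smul_eq_iff] at h3
      exact h3
    refine Set.eq_of_subset_of_ncard_le ?_ (by rw [Set.ncard_smul_set])
    rintro _ ⟨d, hd, rfl⟩
    exact hg d hd
  rcases hpr.isTrivialBlock_of_isBlock hB with h | h
  · exact h (heq a b hb).symm rfl
  · obtain ⟨u, hu⟩ := s.moves hpr.toIsPretransitive h2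
    have hu' : Op p (stabilizer K u) = Op p (stabilizer K a) := (Set.eq_univ_iff_forall.1 h) u
    have hx : x ∈ Op p (stabilizer K u) := by rw [hu']; exact mem_Op ha s.ord
    exact absurd (Op_le (p := p) _ hx) hu

end basic

end H1.FP
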