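import Cfsg.Agent.H1.FP0

/-! Set-level counting and the easy parts of the main induction for `W3`. -/

set_option autoImplicit false

namespace H1.FP
open MulAction
universe u

section sets
variable {p : ℕ} {K : Type u} [Group K] {x : K} {Δ : Type u} [MulAction K Δ] {J : Subgroup K}

noncomputable def fs (x : K) (S : Set Δ) : ℕ := (S ∩ fixedBy Δ x).ncard

noncomputable def ls (p : ℕ) (x : K) (S : Set Δ) : ℕ := (S.ncard - fs x S) / p

def Iv (J : Subgroup K) (S : Set Δ) : Prop := ∀ g ∈ J, ∀ u ∈ S, g • u ∈ S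

theorem br {L : Type u} [Group L] {y : L} {Θ : Type u} [MulAction L Θ] (ι : Θ → Δ)
    (hi : Function.Injective ι) (he : ∀ u, ι (y • u) = x • ι u) :
    Nat.card Θ = (Set.range ι).ncard ∧ fx y Θ = fs x (Set.range ι) ∧
      lx p y Θ = ls p x (Set.range ι) := by
  have h1 : Nat.card Θ = (Set.range ι).ncard := by
    rw [← Set.image_univ, Set.ncard_image_of_injective _ hi, Set.ncard_univ]
  have h2 : fx y Θ = fs x (Set.range ι) := by
    rw [fx_eq, fs, ← Set.ncard_image_of_injective _ hi]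
    congr 1
    ext v
    constructor
    · rintro ⟨u, hu, rfl⟩
      exact ⟨⟨u, rfl⟩, (he u).symm.trans (congrArg ι hu)⟩
    · rintro ⟨⟨u, rfl⟩, hu⟩
      exact ⟨u, hi ((he u).trans hu), rfl⟩
  exact ⟨h1, h2, by rw [lx, ls, h1, h2]⟩

theorem br_orb (hx : x ∈ J) (b : Δ) :
    Nat.card (orbit J b) = (orbit J b).ncard ∧ fx (⟨x, hx⟩ : J) (orbit J b) = fs x (orbit J b) ∧
      lx p (⟨x, hx⟩ : J) (orbit J b) = ls p x (orbit J b) := by
  have := br (p := p) (x := x) (y := (⟨x, hx⟩ : J)) (Subtype.val : orbit J b → Δ)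
    Subtype.val_injective fun _ => rfl
  rwa [Subtype.range_coe] at this

theorem Iv.card [Finite Δ] (hp : p.Prime) (ho : orderOf x = p) (hx : x ∈ J) {S : Set Δ}
    (hS : Iv J S) : S.ncard = fs x S + p * ls p x S := by
  let T : SubMulAction J Δ := ⟨S, fun g _ hu => hS g g.2 _ hu⟩
  have h := br (p := p) (x := x) (y := (⟨x, hx⟩ : J)) (Subtype.val : T → Δ)
    Subtype.val_injective fun _ => rfl
  have e : Set.range (Subtype.val : T → Δ) = S := Subtype.range_coe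
  rw [e] at h
  rw [← h.1, ← h.2.1, ← h.2.2]
  exact card_eq hp (by rw [← Subgroup.orderOf_coe]; exact ho)

theorem Iv.diff {S T : Set Δ} (hS : Iv J S) (hT : Iv J T) : Iv J (S \ T) := fun g hg u hu =>
  ⟨hS g hg u hu.1, fun h => hu.2 (by simpa using hT g⁻¹ (J.inv_mem hg) _ h)⟩

theorem Iv.union {S T : Set Δ} (hS : Iv J S) (hT : Iv J T) : Iv J (S ∪ T) := fun g hg u hu =>
  hu.imp (hS g hg u) (hT g hg u)

theorem iv_orb (b : Δ) : Iv J (orbit J b) := fun g hg _ hu =>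
  mem_orbit_of_mem_orbit (⟨g, hg⟩ : J) hu

theorem Iv.orb_sub {S : Set Δ} (hS : Iv J S) {b : Δ} (hb : b ∈ S) : orbit J b ⊆ S := by
  rintro _ ⟨g, rfl⟩; exact hS g g.2 b hb

theorem Iv.add [Finite Δ] (hp : p.Prime) (ho : orderOf x = p) (hx : x ∈ J) {S T : Set Δ}
    (hS : Iv J S) (hT : Iv J T) (hd : Disjoint S T) :
    fs x (S ∪ T) = fs x S + fs x T ∧ ls p x (S ∪ T) = ls p x S + ls p x T := by
  have h1 : fs x (S ∪ T) = fs x S + fs x T := by
    rw [fs, fs, fs, Set.union_inter_distrib_right, Set.ncard_union_eq]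
    exact hd.mono Set.inter_subset_left Set.inter_subset_left
  refine ⟨h1, ?_⟩
  have h2 := (hS.union hT).card hp ho hx
  rw [Set.ncard_union_eq hd, hS.card hp ho hx, hT.card hp ho hx, h1] at h2
  apply Nat.eq_of_mul_eq_mul_left hp.pos
  rw [mul_add]; omega

theorem Iv.split [Finite Δ] (hp : p.Prime) (ho : orderOf x = p) (hx : x ∈ J) {S T : Set Δ}
    (hS : Iv J S) (hT : Iv J T) (hs : T ⊆ S) :
    fs x S = fs x T + fs x (S \ T) ∧ ls p x S = ls p x T + ls p x (S \ T) := by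
  have := hT.add hp ho hx (hS.diff hT) Set.disjoint_sdiff_right
  rwa [Set.union_diff_cancel hs] at this

theorem Iv.sum [Finite Δ] (hp : p.Prime) (ho : orderOf x = p) (hx : x ∈ J) (γ : ℕ) (S : Set Δ)
    (hS : Iv J S) (h : ∀ b ∈ S, fs x (orbit J b) ≤ γ * ls p x (orbit J b)) :
    fs x S ≤ γ * ls p x S := by
  induction hn : S.ncard using Nat.strong_induction_on generalizing S with
  | _ n ih =>
    rcases S.eq_empty_or_nonempty with rfl | ⟨b, hb⟩
    · simp [fs]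
    · obtain ⟨h1, h2⟩ := hS.split hp ho hx (iv_orb b) (hS.orb_sub hb)
      have h3 := ih (S \ orbit J b).ncard (by
        rw [← hn]
        exact Set.ncard_lt_ncard ⟨Set.diff_subset, fun h => (h hb).2 (mem_orbit_self b)⟩)
        _ (hS.diff (iv_orb b)) (fun c hc => h c hc.1) rfl
      have h4 := h b hb
      rw [h1, h2, mul_add]; omega

theorem orb_disj {b c : Δ} (h : c ∉ orbit J b) : Disjoint (orbit J b) (orbit J c) := by
  rw [Set.disjoint_left]
  intro u hb hc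
  exact h ((orbit_eq_iff.2 hb) ▸ (orbit_eq_iff.2 hc) ▸ mem_orbit_self c)

theorem lx_equiv {Θ A : Type u} [MulAction K Θ] [MulAction K A] (e : Θ ≃ A)
    (he : ∀ (g : K) (u : Θ), e (g • u) = g • e u) : lx p x Θ = lx p x A := by
  have h1 := (br (p := p) (x := x) (y := x) e e.injective (he x)).2.2
  have h2 := (br (p := p) (x := x) (y := x) (id : A → A) Function.injective_id fun _ => rfl).2.2
  rw [h1, h2, e.surjective.range_eq, Set.range_id]

end sets

/-- the statement proved by induction on the degree -/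
def C3 (n : ℕ) : Prop := ∀ (p : ℕ) (K : Type u) [Group K] [Finite K] (x : K)
  (Δ : Type u) [Finite Δ] [MulAction K Δ], Nat.card Δ ≤ n →
  St p x → 3 ≤ p → IsPreprimitive K Δ → 2 ≤ lx p x Δ → p ≤ fx x Δ →
  (p - 1) * lx p x Δ + fx x Δ % p + 3 ≤ fx x Δ + 2 * p →
  (p = 3 ∧ lx p x Δ = 3 ∧ fx x Δ = 4) ∨ (p = 5 ∧ lx p x Δ = 3 ∧ fx x Δ = 6)

section cons
variable {n p : ℕ} {K : Type u} [Group K] [Finite K] {x : K} {Δ : Type u} [Finite Δ] [MulAction K Δ]

theorem c2 (h : C3.{u} n) (hn : Nat.card Δ ≤ n) (s : St p x) (p3 : 3 ≤ p)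
    (hpr : IsPreprimitive K Δ) (hl : 2 ≤ lx p x Δ) : fx x Δ + (p - 1) ≤ (p - 1) * lx p x Δ := by
  by_contra hc
  have h1 : (p - 1) * 2 ≤ (p - 1) * lx p x Δ := Nat.mul_le_mul_left _ hl
  have h2 : fx x Δ % p < p := Nat.mod_lt _ s.hp.pos
  rcases h p K x Δ hn s p3 hpr hl (by omega) (by omega) with ⟨rfl, h3, h4⟩ | ⟨rfl, h3, h4⟩ <;>
    rw [h3, h4] at hc <;> omega

theorem c1p (l1 : L1.{u}) (h : C3.{u} n) (hn : Nat.card Δ ≤ n) (s : St p x) (p3 : 3 ≤ p)
    (hpr : IsPreprimitive K Δ) (h2 : 2 ≤ Nat.card Δ) : fx x Δ ≤ (p - 1) * lx p x Δ := by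
  have h1 := s.lpos hpr.toIsPretransitive h2
  rcases h1.eq_or_lt with h1 | h1
  · have := (l1 p K x Δ s hpr.toIsPretransitive h1.symm).2
    rw [← h1]; omega
  · have := c2 h hn s p3 hpr h1
    omega

theorem c1 (qt : QT.{u}) (l1 : L1.{u}) (h : C3.{u} n) (hn : Nat.card Δ ≤ n) (s : St p x) (p3 : 3 ≤ p)
    (ht : IsPretransitive K Δ) (h2 : 2 ≤ Nat.card Δ) : fx x Δ ≤ (p - 1) * lx p x Δ := by
  obtain ⟨A, _, _, π, β, ε, hA, hA2, -, hβ, e1, e2, e3, -, -⟩ := qt p K x Δ s ht h2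
  have h3 : Nat.card A ≤ n := le_trans (by rw [e1]; exact Nat.le_mul_of_pos_left _ hβ) hn
  have h4 := Nat.mul_le_mul_left β (c1p l1 h h3 s p3 hA hA2)
  rw [e3, mul_add, mul_left_comm]
  omega

/-- a transitive set of the second kind: `x` is a `p`-cycle on a primitive quotient -/
def Sm (p : ℕ) {K : Type u} [Group K] (x : K) (Θ : Type u) [MulAction K Θ] (φ β : ℕ) : Prop :=
  ∃ (A : Type u) (_ : Finite A) (_ : MulAction K A) (π : Θ → A),
    IsPreprimitive K A ∧ 2 ≤ Nat.card A ∧ (∀ (g : K) (u : Θ), π (g • u) = g • π u) ∧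
    lx p x A = 1 ∧ fx x A = φ ∧ φ < p ∧ 1 ≤ β ∧ lx p x Θ = β ∧ fx x Θ = β * φ ∧
    ∀ u : Θ, x • π u = π u → x • u = u

theorem ob (qt : QT.{u}) (l1 : L1.{u}) (h : C3.{u} n) (hn : Nat.card Δ ≤ n) (s : St p x)
    (p3 : 3 ≤ p) (ht : IsPretransitive K Δ) (h2 : 2 ≤ Nat.card Δ)
    (hd : (p - 1) * lx p x Δ + 1 ≤ fx x Δ + 2 * (p - 1)) :
    (IsPreprimitive K Δ ∧ 2 ≤ lx p x Δ ∧ fx x Δ + (p - 1) ≤ (p - 1) * lx p x Δ) ∨
      ∃ φ β, Sm p x Δ φ β := by
  obtain ⟨A, _, _, π, β, ε, hA, hA2, he, hβ, e1, e2, e3, e4, e5⟩ := qt p K x Δ s ht h2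
  have h3 : Nat.card A ≤ n := le_trans (by rw [e1]; exact Nat.le_mul_of_pos_left _ hβ) hn
  have h4 := Nat.mul_le_mul_left β (c1p l1 h h3 s p3 hA hA2)
  have hε : ε = 0 := by
    by_contra hc
    have a1 : p * 1 ≤ p * ε := Nat.mul_le_mul_left _ (by omega)
    have a2 : (p - 1) * 1 ≤ (p - 1) * ε := Nat.mul_le_mul_left _ (by omega)
    rw [e3, mul_add, mul_left_comm] at hd
    omega
  subst hε
  rw [mul_zero, add_zero] at e2
  rw [add_zero] at e3
  have h1 := s.lpos hA.toIsPretransitive hA2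
  rcases h1.eq_or_lt with h1 | h1
  · right
    exact ⟨fx x A, β, A, inferInstance, inferInstance, π, hA, hA2, he, h1.symm, rfl,
      (l1 p K x A s hA.toIsPretransitive h1.symm).2, hβ, by rw [e3, ← h1, mul_one], e2, e4 rfl⟩
  · left
    have h5 := c2 h h3 s p3 hA h1
    have hβ1 : β = 1 := by
      by_contra hc
      have a1 : 2 * (p - 1) ≤ β * (p - 1) := Nat.mul_le_mul_right _ (by omega)
      have a2 := Nat.mul_le_mul_left β h5
      rw [e3, mul_left_comm, e2] at hd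
      rw [mul_add] at a2
      omega
    subst hβ1
    rw [one_mul] at e2 e3
    rw [e2, e3]
    exact ⟨e5 rfl, h1, h5⟩

end cons

end H1.FP
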