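import Cfsg.Agent.H1.FP1

/-! The main induction `W3`. -/

set_option autoImplicit false

namespace H1.FP
open MulAction
universe u

theorem step (qt : QT.{u}) (l1 : L1.{u}) (tr : TR.{u}) (un : UN.{u}) (nu : NU) (pr : PR.{u})
    (ka : KA.{u}) (kb : KB.{u}) (oc : OC.{u}) (lsp : LS.{u}) (gr : GR.{u}) (n : ℕ)
    (ih : C3.{u} n) : C3.{u} (n + 1) := by
  intro p K _ _ x Δ _ _ hn s p3 hpr hl hf hd
  have hp := s.hp
  have ho := s.ord
  have ht := hpr.toIsPretransitive
  have hnd := s.nd ht (by omega : 1 ≤ fx x Δ)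
  have hr1 : 1 ≤ fx x Δ % p := Nat.pos_of_ne_zero fun h => hnd (Nat.dvd_of_mod_eq_zero h)
  have hr2 : fx x Δ % p < p := Nat.mod_lt _ hp.pos
  have h2 : 2 ≤ Nat.card Δ := le_trans (by omega) (fx_le (x := x))
  have p35 : p = 3 ∨ 5 ≤ p := by
    rcases hp.eq_two_or_odd with h | h <;> omega
  obtain ⟨⟨a, ha⟩⟩ : Nonempty (fixedBy Δ x) := (Nat.card_pos_iff.1 (by omega : 0 < fx x Δ)).1
  have ha : x • a = a := ha
  have hx : x ∈ Op p (stabilizer K a) := mem_Op ha ho
  have s' := s.sub hx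
  generalize hJ : Op p (stabilizer K a) = J at hx s'
  have hJa : ∀ g ∈ J, g • a = a := fun g hg => Op_le (p := p) _ (hJ ▸ hg)
  have hA : Iv J ({a} : Set Δ) := fun g hg u hu => by rw [hu]; exact hJa g hg
  have hall : Iv J (Set.univ : Set Δ) := fun _ _ _ _ => Set.mem_univ _
  have hU : Iv J ({a}ᶜ : Set Δ) := by rw [Set.compl_eq_univ_diff]; exact hall.diff hA
  obtain ⟨eU1, eU2⟩ := hall.split hp ho hx hA (Set.subset_univ _)
  rw [← Set.compl_eq_univ_diff] at eU1 eU2
  have ea : fs x ({a} : Set Δ) = 1 := by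
    rw [fs, Set.inter_eq_left.2 (Set.singleton_subset_iff.2 (show a ∈ fixedBy Δ x from ha)), Set.ncard_singleton]
  have ea2 : ls p x ({a} : Set Δ) = 0 := by rw [ls, ea, Set.ncard_singleton]; simp
  obtain ⟨-, eT1, eT2⟩ := br (p := p) (x := x) (y := x) (id : Δ → Δ) Function.injective_id fun _ => rfl
  rw [Set.range_id] at eT1 eT2
  rw [← eT1, ea] at eU1
  rw [← eT2, ea2, zero_add] at eU2
  have hsub : ∀ b, b ≠ a → orbit J b ⊆ {a}ᶜ := fun b hb => hU.orb_sub hb
  have hc2 : ∀ b, b ≠ a → 2 ≤ Nat.card (orbit J b) := by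
    intro b hb
    by_contra hc
    refine hb (s.fix_op hpr h2 ha fun y hy => ?_)
    have : Subsingleton (orbit J b) := Finite.card_le_one_iff_subsingleton.1 (by omega)
    exact congrArg Subtype.val (Subsingleton.elim
      (⟨y • b, mem_orbit b (⟨y, hJ ▸ hy⟩ : J)⟩ : orbit J b) ⟨b, mem_orbit_self b⟩)
  have hcn : ∀ b, b ≠ a → Nat.card (orbit J b) ≤ n := by
    intro b hb
    have : (orbit J b).ncard < (Set.univ : Set Δ).ncard :=
      Set.ncard_lt_ncard ⟨Set.subset_univ _, fun h => hsub b hb (h (Set.mem_univ a)) rfl⟩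
    rw [Set.ncard_univ] at this
    rw [Nat.card_coe_set_eq]; omega
  have hW : ∀ S, Iv J S → S ⊆ {a}ᶜ → fs x S ≤ (p - 1) * ls p x S := by
    intro S hS hs
    refine hS.sum hp ho hx _ _ fun b hb => ?_
    obtain ⟨-, e1, e2⟩ := br_orb (p := p) hx b
    rw [← e1, ← e2]
    exact c1 qt l1 ih (hcn b (hs hb)) s' p3 inferInstance (hc2 b (hs hb))
  have hT : ∀ T, Iv J T → T ⊆ {a}ᶜ → (p - 1) * ls p x T + fx x Δ % p ≤ fs x T + 2 * (p - 1) := by
    intro T hT hs
    obtain ⟨e1, e2⟩ := hU.split hp ho hx hT hs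
    have := hW _ (hU.diff hT) Set.sdiff_subset
    rw [eU2, e2, mul_add] at hd
    omega
  have hT2 : ∀ b c, b ≠ a → c ≠ a → c ∉ orbit J b →
      (p - 1) * ls p x (orbit J b) + (p - 1) * ls p x (orbit J c) + fx x Δ % p ≤
        fs x (orbit J b) + fs x (orbit J c) + 2 * (p - 1) := by
    intro b c hb hc hbc
    obtain ⟨e1, e2⟩ := (iv_orb b).add hp ho hx (iv_orb c) (orb_disj hbc)
    have := hT _ ((iv_orb b).union (iv_orb c)) (Set.union_subset (hsub b hb) (hsub c hc))
    rwa [e1, e2, mul_add] at this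
  have hob : ∀ b, b ≠ a → (IsPreprimitive J (orbit J b) ∧ 2 ≤ ls p x (orbit J b) ∧
      fs x (orbit J b) + (p - 1) ≤ (p - 1) * ls p x (orbit J b)) ∨
      ∃ φ β, Sm p (⟨x, hx⟩ : J) (orbit J b) φ β := by
    intro b hb
    obtain ⟨-, e1, e2⟩ := br_orb (p := p) hx b
    have := hT _ (iv_orb b) (hsub b hb)
    rw [← e1, ← e2] at this ⊢
    exact ob qt l1 ih (hcn b hb) s' p3 inferInstance (hc2 b hb) (by omega)
  have hsm : ∀ (b : Δ) φ β, Sm p (⟨x, hx⟩ : J) (orbit J b) φ β → φ < p ∧ 1 ≤ β ∧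
      ls p x (orbit J b) = β ∧ fs x (orbit J b) = β * φ := by
    rintro b φ β ⟨A, _, _, π, -, -, -, -, -, h1, h2, h3, h4, -⟩
    obtain ⟨-, e1, e2⟩ := br_orb (p := p) hx b
    exact ⟨h1, h2, e2 ▸ h3, e1 ▸ h4⟩
  have hmul : ∀ φ β : ℕ, φ < p → 1 ≤ β → β * φ + (p - 1) ≤ (p - 1) * β + φ := by
    intro φ β h1 h2
    obtain ⟨β, rfl⟩ := Nat.exists_eq_add_of_le' h2
    have : β * φ ≤ β * (p - 1) := Nat.mul_le_mul_left _ (by omega)
    rw [add_mul, mul_add, mul_comm (p - 1) β]; omega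
  by_cases hbig : ∃ c, c ≠ a ∧ IsPreprimitive J (orbit J c) ∧ 2 ≤ ls p x (orbit J c) ∧
      fs x (orbit J c) + (p - 1) ≤ (p - 1) * ls p x (orbit J c)
  · obtain ⟨c, hc, hcp, hcl, hcd⟩ := hbig
    obtain ⟨ec0, ec1, ec2⟩ := br_orb (p := p) hx c
    have hcl2 : (p - 1) * 2 ≤ (p - 1) * ls p x (orbit J c) := Nat.mul_le_mul_left _ hcl
    have hcT := hT _ (iv_orb c) (hsub c hc)
    exfalso
    by_cases hone : ∀ b, b ≠ a → b ∈ orbit J c
    · have eO : orbit J c = {a}ᶜ := (hsub c hc).antisymm hone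
      have f1 : fx (⟨x, hx⟩ : J) (orbit J c) + 1 = fx x Δ := by rw [ec1, eO]; omega
      have f2 : lx p (⟨x, hx⟩ : J) (orbit J c) = lx p x Δ := by rw [ec2, eO, eU2]
      have hnd' := s'.nd (Δ := orbit J c) inferInstance (by omega)
      have hdiv := Nat.div_add_mod (fx x Δ) p
      have hr3 : fx x Δ % p ≠ 1 := fun h => hnd' ⟨fx x Δ / p, by omega⟩
      have hq1 : p * 1 ≤ p * (fx x Δ / p) := Nat.mul_le_mul_left _ (Nat.div_pos hf hp.pos)
      have hmod : fx (⟨x, hx⟩ : J) (orbit J c) % p = fx x Δ % p - 1 := by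
        have : fx (⟨x, hx⟩ : J) (orbit J c) = fx x Δ % p - 1 + p * (fx x Δ / p) := by omega
        rw [this, Nat.add_mul_mod_self_left, Nat.mod_eq_of_lt (by omega)]
      rcases ih p J ⟨x, hx⟩ (orbit J c) (hcn c hc) s' p3 hcp (by omega) (by omega)
        (by rw [hmod, f2]; omega) with ⟨h1, h3, h4⟩ | ⟨h1, h3, h4⟩
      · exact pr p K x Δ 5 s p3 hpr (by norm_num) (by omega) (by omega) (by rw [h1]; decide) hl
          (by omega)
      · exact pr p K x Δ 7 s p3 hpr (by norm_num) (by omega) (by omega) (by rw [h1]; decide) hl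
          (by omega)
    · have hsm2 : ∀ b, b ≠ a → b ∉ orbit J c → ∃ φ β, Sm p (⟨x, hx⟩ : J) (orbit J b) φ β := by
        intro b hb hbc
        rcases hob b hb with ⟨-, -, h⟩ | h
        · have := hT2 c b hc hb hbc; omega
        · exact h
      by_cases halt : ∃ b φ β, b ≠ a ∧ b ∉ orbit J c ∧ Sm p (⟨x, hx⟩ : J) (orbit J b) φ β ∧
          (3 ≤ φ ∨ (p = 3 ∧ φ = 2))
      · obtain ⟨b, φ, β, hb, hbc, hS, hφ⟩ := halt
        obtain ⟨g1, g2, g3, g4⟩ := hsm b φ β hS
        have g5 := hT2 c b hc hb hbc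
        have g6 := hmul φ β g1 g2
        rw [g3, g4] at g5
        obtain ⟨A, _, _, π, hA, hA2, -, hl1, rfl, -⟩ := hS
        have hAl : Al p (⟨x, hx⟩ : J) A := ⟨hA.toIsPretransitive, hl1, hφ⟩
        rw [← ec1, ← ec2] at hcT g5 hcd
        rw [← ec2] at hcl hcl2
        have hf1 : 1 ≤ fx (⟨x, hx⟩ : J) (orbit J c) := by omega
        have hcard := card_eq (Δ := orbit J c) hp s'.ord
        rcases un p J ⟨x, hx⟩ A (orbit J c) s' p3 hAl hcp (hc2 c hc) hf1 with
          h | ⟨e, he⟩ | ⟨k, k2, kφ, e1, e2⟩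
        · have h3 := tr p J ⟨x, hx⟩ A (orbit J c) s' hA.toIsPretransitive hA2 (hc2 c hc) h
          rcases p35 with rfl | p5
          · have hnd' := s'.nd (Δ := orbit J c) inferInstance hf1
            exact kb J ⟨x, hx⟩ A (orbit J c) s' hAl (by omega) h (by omega)
          · have hl2 : lx p (⟨x, hx⟩ : J) (orbit J c) = 2 := by
              by_contra hne
              obtain ⟨l, hl'⟩ := Nat.exists_eq_add_of_le (by omega : 3 ≤ lx p (⟨x, hx⟩ : J) (orbit J c))
              have : 1 * l ≤ (p - 1) * l := Nat.mul_le_mul_right _ (by omega)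
              rw [hl'] at g5 h3
              rw [mul_add] at g5
              omega
            exact ka p J ⟨x, hx⟩ A (orbit J c) s' p5 hAl inferInstance hl2 (by omega)
        · have := lx_equiv (p := p) (x := (⟨x, hx⟩ : J)) e he
          omega
        · have := nu p _ k (lx p (⟨x, hx⟩ : J) (orbit J c)) hp p3 g1 k2 kφ (by rw [← e2, ← e1, hcard])
          rw [← e1] at this
          omega
      · push Not at halt hone
        obtain ⟨b, hb, hbc⟩ := hone
        have key : ∀ b φ β, b ≠ a → b ∉ orbit J c → Sm p (⟨x, hx⟩ : J) (orbit J b) φ β →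
            φ ≤ 2 ∧ (p = 3 → φ ≤ 1) ∧ β = 1 := by
          intro b φ β hb hbc hS
          obtain ⟨g1, g2, g3, g4⟩ := hsm b φ β hS
          obtain ⟨k1, k2⟩ := halt b φ β hb hbc hS
          have g5 := hT2 c b hc hb hbc
          rw [g3, g4] at g5
          refine ⟨by omega, by omega, ?_⟩
          by_contra hne
          obtain ⟨β, rfl⟩ := Nat.exists_eq_add_of_le (by omega : 2 ≤ β)
          have : β * φ ≤ β * (p - 1) := Nat.mul_le_mul_left _ (by omega)
          rw [add_mul, mul_add, mul_comm (p - 1) β] at g5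
          omega
        obtain ⟨φ, β, hS⟩ := hsm2 b hb hbc
        obtain ⟨k1, k2, rfl⟩ := key b φ β hb hbc hS
        obtain ⟨g1, -, g3, g4⟩ := hsm b φ 1 hS
        have g5 := hT2 c b hc hb hbc
        rw [g3, g4] at g5
        have hcov : ∀ u : Δ, u = a ∨ u ∈ orbit J b ∨ u ∈ orbit J c := by
          intro u
          by_contra hu
          push Not at hu
          obtain ⟨φ', β', hS'⟩ := hsm2 u hu.1 hu.2.2
          obtain ⟨k1', k2', rfl⟩ := key u φ' β' hu.1 hu.2.2 hS'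
          obtain ⟨-, -, g3', g4'⟩ := hsm u φ' 1 hS'
          obtain ⟨e1, e2⟩ := (iv_orb c).add hp ho hx (iv_orb b) (orb_disj hbc)
          obtain ⟨e3, e4⟩ := ((iv_orb c).union (iv_orb b)).add hp ho hx (iv_orb u)
            (Set.disjoint_union_left.2 ⟨orb_disj hu.2.2, orb_disj hu.2.1⟩)
          have := hT _ (((iv_orb c).union (iv_orb b)).union (iv_orb u))
            (Set.union_subset (Set.union_subset (hsub c hc) (hsub b hb)) (hsub u hu.1))
          rw [e3, e4, e1, e2, g3, g4, g3', g4', mul_add, mul_add] at this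
          omega
        have cb := (iv_orb b).card hp ho hx
        have cc := (iv_orb c).card hp ho hx
        have : p * 2 ≤ p * ls p x (orbit J c) := Nat.mul_le_mul_left _ hcl
        rw [g3, g4] at cb
        subst hJ
        refine gr p K x Δ a b c φ s p3 hpr ha hb hcov k1 (by omega) (by rw [← one_mul φ]; exact g4)
          (by omega) ?_
        show _ < fs x _
        interval_cases φ <;> omega
  · have hsm2 : ∀ b, b ≠ a → ∃ φ β, Sm p (⟨x, hx⟩ : J) (orbit J b) φ β := fun b hb =>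
      (hob b hb).resolve_left fun h => hbig ⟨b, hb, h⟩
    by_cases halt : ∃ (b : Δ) (φ β : ℕ), Sm p (⟨x, hx⟩ : J) (orbit J b) φ β ∧ (3 ≤ φ ∨ (p = 3 ∧ φ = 2))
    · exfalso
      obtain ⟨b, φ, β, ⟨A, _, _, π, hA, hA2, -, hl1, rfl, -⟩, hφ⟩ := halt
      have hAl : Al p (⟨x, hx⟩ : J) A := ⟨hA.toIsPretransitive, hl1, hφ⟩
      have hμ : ∀ b : Δ, b ≠ a → ∃ μ : orbit J b → A, (∀ (g : J) u, μ (g • u) = g • μ u) ∧
          ∀ u, (⟨x, hx⟩ : J) • μ u = μ u → x • (u : Δ) = u := by
        intro b' hb'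
        obtain ⟨φ', β', A', _, _, π', hA', hA2', he', hl1', rfl, g1, -, -, -, hrf⟩ := hsm2 b' hb'
        have hcard := card_eq (Δ := A') hp s'.ord
        rw [hl1'] at hcard
        have hf2 : 2 ≤ fx (⟨x, hx⟩ : J) A' := by
          by_contra hc
          exact oc p J ⟨x, hx⟩ A A' s' p3 hAl hA'.toIsPretransitive hA2' (by omega)
        rcases un p J ⟨x, hx⟩ A A' s' p3 hAl hA' hA2' (by omega) with
          h | ⟨e, he⟩ | ⟨k, k2, kφ, e1, e2⟩
        · have := tr p J ⟨x, hx⟩ A A' s' hA.toIsPretransitive hA2 hA2' h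
          omega
        · refine ⟨fun u => e (π' u), fun g u => (congrArg e (he' g u)).trans (he _ _), fun u hu => ?_⟩
          exact congrArg Subtype.val (hrf u (e.injective ((he _ _).trans hu)))
        · have := nu p _ k 1 hp p3 (l1 p J ⟨x, hx⟩ A s' hA.toIsPretransitive hl1).2 k2 kφ
            (by rw [← e2, ← e1, hcard])
          omega
      subst hJ
      exact lsp p K x Δ a hx A s p3 ht hl hAl hμ
    · push Not at halt
      have hγ : ∀ γ : ℕ, (∀ φ : ℕ, φ < 3 → (p = 3 → φ ≠ 2) → φ ≤ γ) → fx x Δ ≤ 1 + γ * lx p x Δ := by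
        intro γ hγ
        have := hU.sum hp ho hx γ _ fun b hb => by
          obtain ⟨φ, β, hS⟩ := hsm2 b hb
          obtain ⟨-, -, g3, g4⟩ := hsm b φ β hS
          obtain ⟨k1, k2⟩ := halt b φ β hS
          rw [g3, g4, mul_comm]
          exact Nat.mul_le_mul_right _ (hγ φ k1 k2)
        rw [eU2]; omega
      have hγ2 := hγ 2 fun φ h _ => by omega
      rcases p35 with rfl | p5
      · have hγ1 := hγ 1 fun φ h h' => by have := h' rfl; omega
        left; omega
      · have p57 : p = 5 ∨ 7 ≤ p := by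
          rcases hp.eq_two_or_odd with h | h <;> omega
        rcases p57 with rfl | p7
        · by_cases h7 : fx x Δ = 7
          · exact (pr 5 K x Δ 7 s p3 hpr (by norm_num) h7 (by omega) (by decide) hl (by omega)).elim
          · right; omega
        · exfalso
          obtain ⟨l, hl'⟩ := Nat.exists_eq_add_of_le (by omega : 3 ≤ lx p x Δ)
          have : 2 * l ≤ (p - 1) * l := Nat.mul_le_mul_right _ (by omega)
          rw [hl'] at hd hγ2
          rw [mul_add] at hd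
          omega

theorem w3 (qt : QT.{u}) (l1 : L1.{u}) (tr : TR.{u}) (un : UN.{u}) (nu : NU) (pr : PR.{u})
    (ka : KA.{u}) (kb : KB.{u}) (oc : OC.{u}) (lsp : LS.{u}) (gr : GR.{u}) : W3.{u} := by
  have h : ∀ n, C3.{u} n := by
    intro n
    induction n with
    | zero =>
      intro p K _ _ x Δ _ _ hn s p3 _ _ hf _
      have := fx_le (x := x) (Δ := Δ)
      omega
    | succ n ih => exact step qt l1 tr un nu pr ka kb oc lsp gr n ih
  intro p K _ _ x Δ _ _ s p3 ht h2
  exact c1 qt l1 (h _) le_rfl s p3 ht h2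

end H1.FP
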