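import Cfsg.Agent.H1.FP2
import Cfsg.Agent.H28.FP1
import Cfsg.Agent.H8.FQ1
import Cfsg.Agent.H29.FP1
import Cfsg.Agent.H7.FP1
import Cfsg.Agent.H23.FP1
import Cfsg.Agent.H5.FX1
import Cfsg.Agent.H10.FP.A
import Cfsg.Agent.H4.FP1
import Cfsg.Agent.H18.FP1
import Cfsg.Agent.H26.FP1

/-! Glue for S4181 / S3580. -/

set_option autoImplicit false

namespace H1.FP
universe u v

theorem w3' (qt : QT.{u}) : W3.{u} := by
  have l1 := H29.FP.l1 qt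
  have al := H29.FP.al l1
  have ps : PS.{u} := H8.FQ.ps
  have kr := H28.FP.krr ps
  have wt : WT.{u} := H28.FP.wt
  have ce : CE.{u} := H28.FP.ce
  exact w3 qt l1 (H28.FP.tr ps) (H10.FP.un l1 al) H10.FP.nu (H7.FP.pr wt ce)
    (H18.FP.ka l1 al kr ce) (H18.FP.kb l1 al kr ps) (H29.FP.oc l1 al kr) (H5.FX.ls al) (H23.FP.gr wt)

theorem tg' (q0 : Q0.{u}) (qt : QT.{u}) : TG.{u} :=
  H4.FP.tg q0 (H4.FP.yq (H26.FP.wq (w3' qt) H8.FQ.w2))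

theorem r1' (q0 : Q0.{u}) (qt : QT.{u}) : R1.{u} := H26.FP.f1 (tg' q0 qt) H10.FP.fn

theorem r2' (q0 : Q0.{u}) (qt : QT.{u}) : R2.{u, v} := H26.FP.f2 (r1' q0 qt) H10.FP.fn

end H1.FP
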