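import Cfsg.Agent.H1.FP1

/-! Primitive quotients of transitive actions. -/

set_option autoImplicit false

namespace H1.FP
open MulAction
universe u

theorem q0 : Q0.{u} := by
  intro K _ _ Θ _ _ ht h2
  have : Nontrivial Θ := Finite.one_lt_card_iff_nontrivial.1 h2
  obtain ⟨a, b, hab⟩ := exists_pair_ne Θ
  have hne : stabilizer K a ≠ ⊤ := by
    intro h
    obtain ⟨g, rfl⟩ := ht.exists_smul_eq a b
    exact hab (show g ∈ stabilizer K a from h ▸ Subgroup.mem_top g).symm
  obtain ⟨M, hM, hle⟩ := (eq_top_or_exists_le_coatom (stabilizer K a)).resolve_left hne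
  choose r hr using fun u => ht.exists_smul_eq a u
  let π : Θ → K ⧸ M := fun u => (r u : K ⧸ M)
  have he : ∀ (g : K) (u : Θ), π (g • u) = g • π u := by
    intro g u
    show ((r (g • u) : K) : K ⧸ M) = ((g * r u : K) : K ⧸ M)
    rw [QuotientGroup.eq]
    apply hle
    show ((r (g • u))⁻¹ * (g * r u)) • a = a
    rw [mul_smul, mul_smul, hr, inv_smul_eq_iff, hr]
  have hnt : Nontrivial (K ⧸ M) := by
    obtain ⟨g, hg⟩ : ∃ g, g ∉ M := by
      by_contra hc
      push Not at hc
      exact hM.1 ((Subgroup.eq_top_iff' M).2 hc)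
    exact ⟨⟨((1 : K) : K ⧸ M), (g : K ⧸ M), fun h => hg (by simpa using QuotientGroup.eq.1 h)⟩⟩
  have hpr : IsPreprimitive K (K ⧸ M) := by
    rw [← isCoatom_stabilizer_iff_preprimitive K ((1 : K) : K ⧸ M), stabilizer_quotient]
    exact hM
  have hfib : ∀ α : K ⧸ M, (π ⁻¹' {α}).ncard = (π ⁻¹' {π a}).ncard := by
    intro α
    obtain ⟨g, rfl⟩ := hpr.toIsPretransitive.exists_smul_eq (π a) α
    rw [← Set.ncard_image_of_injective (π ⁻¹' {π a}) (MulAction.injective g)]
    congr 1
    ext u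
    constructor
    · intro hu
      refine ⟨g⁻¹ • u, ?_, smul_inv_smul g u⟩
      show π (g⁻¹ • u) = π a
      rw [he, show π u = g • π a from hu, inv_smul_smul]
    · rintro ⟨v, hv, rfl⟩
      show π (g • v) = g • π a
      rw [he, show π v = π a from hv]
  have hS : ∀ S : Set (K ⧸ M), (π ⁻¹' S).ncard = (π ⁻¹' {π a}).ncard * S.ncard := by
    intro S
    induction S, S.toFinite using Set.Finite.induction_on with
    | empty => simp
    | @insert α S hα hS ih =>
      rw [Set.ncard_insert_of_notMem hα, mul_add, mul_one, ← ih, ← hfib α, Set.insert_eq,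
        Set.preimage_union, Set.ncard_union_eq, add_comm]
      exact (Set.disjoint_singleton_left.2 hα).preimage π
  refine ⟨K ⧸ M, inferInstance, inferInstance, π, (π ⁻¹' {π a}).ncard, hpr, Finite.one_lt_card_iff_nontrivial.2 hnt,
    he, (Set.ncard_pos (Set.toFinite _)).2 ⟨a, rfl⟩, hS, fun h1 => ?_⟩
  have hM' : stabilizer K a = M := by
    refine le_antisymm hle fun g hg => ?_
    obtain ⟨c, hc⟩ := Set.ncard_eq_one.1 h1
    have e1 : g • a ∈ π ⁻¹' {π a} := by
      show π (g • a) = π a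
      rw [he]
      show ((g * r a : K) : K ⧸ M) = ((r a : K) : K ⧸ M)
      rw [QuotientGroup.eq]
      have : r a ∈ M := hle (hr a)
      exact M.mul_mem (M.inv_mem (M.mul_mem hg this)) this
    have e2 : a ∈ π ⁻¹' {π a} := rfl
    rw [hc] at e1 e2
    exact e1.trans e2.symm
  rw [← isCoatom_stabilizer_iff_preprimitive K a, hM']
  exact hM

theorem qt : QT.{u} := by
  intro p K _ _ x Θ _ _ s ht h2
  obtain ⟨A, _, _, π, β, hA, hA2, he, hβ, hS, h1⟩ := q0 K Θ ht h2
  have hc : Nat.card Θ = β * Nat.card A := by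
    have := hS Set.univ
    rwa [Set.preimage_univ, Set.ncard_univ, Set.ncard_univ] at this
  have hsub : fixedBy Θ x ⊆ π ⁻¹' fixedBy A x := fun u hu =>
    (he x u).symm.trans (congrArg π hu)
  have hle : fx x Θ ≤ β * fx x A := by
    rw [fx_eq, fx_eq, ← hS]; exact Set.ncard_le_ncard hsub
  have c1 := card_eq (Δ := Θ) s.hp s.ord
  have c2 := card_eq (Δ := A) s.hp s.ord
  rw [c1, c2, mul_add, mul_left_comm] at hc
  have hl : β * lx p x A ≤ lx p x Θ := Nat.le_of_mul_le_mul_left (by omega) s.hp.pos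
  obtain ⟨ε, hε⟩ := Nat.exists_eq_add_of_le hl
  have hf : fx x Θ + p * ε = β * fx x A := by rw [hε, mul_add] at hc; omega
  refine ⟨A, inferInstance, inferInstance, π, β, ε, hA, hA2, he, hβ,
    by rw [c1, c2, mul_add, mul_left_comm]; exact hc, hf, hε, fun h0 u hu => ?_, h1⟩
  have : fixedBy Θ x = π ⁻¹' fixedBy A x :=
    Set.eq_of_subset_of_ncard_le hsub (by rw [hS, ← fx_eq, ← fx_eq, ← hf, h0]; omega)
  exact (this ▸ hu : u ∈ fixedBy Θ x)

end H1.FP
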