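/-
Coprime action lemmas (Goldschmidt / Flavell type).
-/
import Cfsg.Agent.H1.Conn

set_option autoImplicit false
set_option linter.unusedSectionVars false

open Cfsg Subgroup
open scoped Pointwise commutatorElement
namespace H1
open H19

universe u

variable {G : Type u} [Group G] [Finite G] {p q : ℕ} {A B D E H K L M N P U V X Y Z : Subgroup G}
  {a b x : G}

/-- a `q'`-group centralizing `O_q(K)` of a solvable group of characteristic `q` centralizes it -/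
theorem cents_of_cents_Oc (hs : Sol K) (h0 : Oc {q}ᶜ K = ⊥) (hD : PiG {q}ᶜ D) (hn : D ≤ N(K))
    (h : D ≤ C(Oc {q} K)) : D ≤ C(K) := by
  refine cents_of_stable (cop_of_pg hD (Oc_pi _ K)).symm h ?_
  rw [← Fit_eq_Oc h0] at h ⊢
  refine le_trans (le_inf (commg_le_left hn) (commg_eq_bot.1 (three_subgroup ?_ ?_))) (cent_Fit_le hs)
  · rw [commg_eq_bot.2 h, commutator_bot_left]
  · exact H19.eq_bot_mono (commutator_mono (commg_le_left (Fit_norm K)) le_rfl)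
      (commg_eq_bot.2 (cents_symm h))

theorem cents_of_norm_cent (hs : Sol K) (h0 : Oc {q}ᶜ K = ⊥) (hZ : PG q Z) (hD : PiG {q}ᶜ D)
    (nZ : Z ≤ N(K)) (nD : D ≤ N(K)) (hc : D ≤ C(Z)) (h : K ⊓ C(Z) ≤ N(D)) : D ≤ C(K) := by
  refine cents_of_cents_Oc hs h0 hD nD (PxQ (Oc_pi _ K) hZ hD (cents_symm hc) (norms_Oc _ nZ)
    (norms_Oc _ nD) ?_)
  refine cents_of_norms_disjoint (norms_inf (norms_Oc _ nD) (norms_cent (norms_of_cents hc)))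
    ((inf_le_inf_right _ (Oc_le _ _)).trans h) ?_
  exact disjoint_iff.1 (disjoint_of_coprime_natCard
    (cop_of_pg hD ((Oc_pi _ K).of_le inf_le_left)).symm)

theorem fla_core (hP : PG p P) (hH : PiG {p}ᶜ H) (nP : P ≤ N(H)) (hs : Sol ⁅H, P⁆)
    (h0 : Oc {q}ᶜ H = ⊥) (hZ : PG q Z) (hZH : Z ≤ H) (hZP : Z ≤ C(P)) :
    (Oc {q}ᶜ (H ⊓ C(Z)) ⊓ Oc {q}ᶜ (H ⊓ C(P))) ⊔ ⁅Oc {q}ᶜ (H ⊓ C(Z)), P⁆ = ⊥ := by
  have hK : ⁅H, P⁆ ⊴ H := ⟨commg_le_left nP, commg_norml _ _⟩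
  have k0 : Oc {q}ᶜ ⁅H, P⁆ = ⊥ := H19.eq_bot_mono (Oc_le_Oc hK) h0
  have d1 : Oc {q}ᶜ (H ⊓ C(Z)) ≤ H := (Oc_le _ _).trans inf_le_left
  have hD : Oc {q}ᶜ (H ⊓ C(Z)) ≤ C(⁅H, P⁆) := cents_of_norm_cent hs k0 hZ (Oc_pi _ _)
    (hZH.trans hK.norm) (d1.trans hK.norm) ((Oc_le _ _).trans inf_le_right)
    ((inf_le_inf_right _ hK.le).trans (Oc_norm _ _))
  have nD : P ≤ N(Oc {q}ᶜ (H ⊓ C(Z))) :=
    norms_Oc _ (norms_inf nP (norms_cent (norms_of_cents (cents_symm hZP))))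
  rw [eq_bot_iff, sup_le_iff]
  constructor
  · rw [← h0]
    refine (inf_le_inf_right _ hD).trans (le_Oc ⟨inf_le_right.trans ((Oc_le _ _).trans inf_le_left), ?_⟩
      ((Oc_pi _ _).of_le inf_le_right))
    refine (commg_sup_cent nP (cop_of_pg hH hP) (Or.inl hP.sol)).ge.trans (sup_le
      (norms_of_cents (cents_symm inf_le_left)) (norms_inf ?_ (Oc_norm _ _)))
    exact norms_cent (inf_le_left.trans hK.norm)
  · rw [← k0]
    have h1 : ⁅Oc {q}ᶜ (H ⊓ C(Z)), P⁆ ≤ Oc {q}ᶜ (H ⊓ C(Z)) := commg_le_left nD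
    exact le_Oc ⟨commutator_mono d1 le_rfl, norms_of_cents (cents_symm (h1.trans hD))⟩
      ((Oc_pi _ _).of_le h1)

theorem fla_lemma (hP : PG p P) (hH : PiG {p}ᶜ H) (nP : P ≤ N(H)) (hs : Sol ⁅H, P⁆)
    (hZ : PG q Z) (hZH : Z ≤ H) (hZP : Z ≤ C(P)) :
    (Oc {q}ᶜ (H ⊓ C(Z)) ⊓ Oc {q}ᶜ (H ⊓ C(P))) ⊔ ⁅Oc {q}ᶜ (H ⊓ C(Z)), P⁆ ≤ Oc {q}ᶜ H := by
  have nH := Oc_norm {q}ᶜ H
  have nP' := norms_Oc {q}ᶜ nP
  have hle := Oc_le {q}ᶜ H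
  have := fla_core (q := q) (hP.quo (Oc {q}ᶜ H)) (hH.quo _) (quo_norms nP)
    (by rw [← quo_comm nH nP']; exact sol_quo hs _) (Oc_quo_Oc _ _) (hZ.quo _) (quo_mono _ hZH)
    (quo_cents hZP)
  rw [quo_inf_cent' (hZH.trans nH) hle (cop_of_pg (Oc_pi _ _) hZ) (Or.inl hZ.sol),
    quo_inf_cent' nP' hle (cop_of_pg (hH.of_le hle) hP) (Or.inl hP.sol), sup_eq_bot_iff] at this
  have d1 : Oc {q}ᶜ (H ⊓ C(Z)) ≤ N(Oc {q}ᶜ H) := ((Oc_le _ _).trans inf_le_left).trans nH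
  refine sup_le ((quo_eq_bot_iff (inf_le_left.trans d1)).1 (H19.eq_bot_mono (le_inf
    ((quo_mono _ inf_le_left).trans quo_Oc_le) ((quo_mono _ inf_le_right).trans quo_Oc_le)) this.1)) ?_
  rw [← quo_eq_bot_iff (commg_le_of_le d1 nP'), quo_comm d1 nP']
  exact H19.eq_bot_mono (commutator_mono quo_Oc_le le_rfl) this.2

end H1
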