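import Cfsg.Agent.H15.MK
import Mathlib.LinearAlgebra.Trace
import Mathlib.LinearAlgebra.Complex.Module

/-! A complex representation of `M₂₄` in which `2A` has a `-1`-space of dimension 8 has degree at least 23. -/

set_option autoImplicit false
set_option maxRecDepth 100000

namespace H1.RB
open Cfsg H15 Module LinearMap Finset

noncomputable def el (c : ℕ) : M24 := open Classical in if h : P c ∈ M24 then ⟨P c, h⟩ else 1
def Gd (c : ℕ) : Prop := ∃ σ : M24, Rep σ.1 c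

theorem el_eq {σ : M24} {c : ℕ} (h : Rep σ.1 c) : el c = σ := by
  rw [el, dif_pos (h.P_eq ▸ σ.2)]; exact Subtype.ext h.P_eq
theorem Gd.rep {c : ℕ} (h : Gd c) : Rep (el c).1 c := let ⟨_, r⟩ := h; (el_eq r).symm ▸ r
theorem gd_of {c : ℕ} (h : isM c = true) : Gd c := ⟨⟨_, isM_mem h⟩, isM_rep h⟩

noncomputable def LL : List (ℕ × ℕ) → List ℕ :=
  List.rec [pid] fun a _ ih => Nat.rec [] (fun e acc => ih.map (pmul (ppow a.1 e)) ++ acc) a.2
theorem LL_succ (a n Γ) : LL ((a, n + 1) :: Γ) = (LL Γ).map (pmul (ppow a n)) ++ LL ((a, n) :: Γ) := rfl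
noncomputable def ok : List (ℕ × ℕ) → Bool :=
  List.rec true fun a Γ ih => band ih (band (isM a.1) (band (anyL (peq (ppow a.1 a.2)) (LL Γ))
    (allL (fun b => anyL (fun c => peq (pmul b.1 a.1) (pmul a.1 c)) (LL Γ)) Γ)))
noncomputable def lab (c : ℕ) : ℕ := force c fun c => force (Bool.rec 0 1 (allTo (fun i => !Nat.beq (ap c i) i) 24)) fun k =>
  Bool.rec (Bool.rec (Bool.rec 5 (3 + k) (cb1 c)) (1 + k) (sq1 c)) 0 (is1 c)
def rp (l : ℕ) : ℕ := [pid, cT1, cT2, cX1, cX2].getD l 0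

variable {V : Type*} [AddCommGroup V] [Module ℂ V] {τ : M24 → End ℂ V}

def Fx (τ : M24 → End ℂ V) (Γ : List (ℕ × ℕ)) : Submodule ℂ V where
  carrier := {v | τ 1 v = v ∧ ∀ a ∈ Γ, τ (el a.1) v = v}
  zero_mem' := by simp
  add_mem' := fun h k => ⟨by rw [map_add, h.1, k.1], fun a m => by rw [map_add, h.2 a m, k.2 a m]⟩
  smul_mem' := fun _ _ h => ⟨by rw [map_smul, h.1], fun a m => by rw [map_smul, h.2 a m]⟩

variable (hτ : ∀ a b, τ (a * b) = τ a * τ b)
include hτ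

attribute [local irreducible] pmul ppow in
theorem step : ∀ Γ, ok Γ = true → (∀ a ∈ Γ, Gd a.1) ∧ (∀ c ∈ LL Γ, Gd c ∧ ∀ w ∈ Fx τ Γ, τ (el c) w = w) ∧
    ∀ v, ((LL Γ).map fun c => τ (el c)).sum v ∈ Fx τ Γ
  | [], _ => by
    have e : el pid = 1 := el_eq Rep.one
    refine ⟨nofun, fun c h => ?_, fun v => ⟨?_, nofun⟩⟩
    · obtain rfl := List.mem_singleton.1 h
      exact ⟨⟨1, Rep.one⟩, fun w k => e ▸ k.1⟩
    · simp [LL, e, ← End.mul_apply, ← hτ]
  | (a, p) :: Γ, h => by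
    simp only [ok, band_iff, anyL_iff, allL_iff] at h
    obtain ⟨h0, h1, ⟨c, c1, c2⟩, h3⟩ := h
    obtain ⟨i0, i1, i2⟩ := step Γ h0
    have ga := (gd_of h1).rep
    have ap : ∀ {x y} v, τ (x * y) v = τ x (τ y v) := fun v => by rw [hτ]; rfl
    have pr : ∀ w ∈ Fx τ Γ, τ (el a) w ∈ Fx τ Γ := fun w k => ⟨by rw [← ap, one_mul], fun b m => by
      obtain ⟨c, c1, c2⟩ := h3 b m
      rw [← ap, show el b.1 * el a = el a * el c from
        Subtype.ext ((((i0 b m).rep.mul ga).eq_iff (ga.mul (i1 c c1).1.rep)).2 c2), ap, (i1 c c1).2 w k]⟩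
    have pp : ∀ e, ∀ w ∈ Fx τ Γ, τ (el a ^ e) w ∈ Fx τ Γ := fun e w k => by
      induction e with
      | zero => rw [pow_zero, k.1]; exact k
      | succ e ih => rw [pow_succ', ap]; exact pr _ ih
    have key : ∀ n : ℕ, (∀ c ∈ LL ((a, n) :: Γ), ∃ e, ∃ x ∈ LL Γ, Gd c ∧ el c = el a ^ e * el x) ∧ ∀ v,
        ((LL ((a, n) :: Γ)).map fun c => τ (el c)).sum v =
          ∑ e ∈ range n, τ (el a ^ e) (((LL Γ).map fun c => τ (el c)).sum v) := fun n => by
      have r : ∀ e, ∀ x ∈ LL Γ, Rep (el a ^ e * el x).1 (pmul (ppow a e) x) := fun e x m =>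
        (ga.pow e).mul (i1 x m).1.rep
      induction n with
      | zero => exact ⟨fun _ m => absurd m List.not_mem_nil, fun v => by simp [LL]⟩
      | succ n ih =>
        rw [LL_succ]
        refine ⟨fun c m => (List.mem_append.1 m).elim (fun m => ?_) (ih.1 c), fun v => ?_⟩
        · obtain ⟨x, m, e⟩ := List.mem_map.1 m
          have := e ▸ r n x m
          exact ⟨n, x, m, ⟨_, this⟩, el_eq this⟩
        · rw [List.map_append, List.sum_append, LinearMap.add_apply, ih.2, sum_range_succ, add_comm, ← End.mul_apply,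
            ← List.sum_map_mul_left, List.map_map, List.map_congr_left (f := (fun c => τ (el c)) ∘ pmul (ppow a n))
              fun x m => (congrArg τ (el_eq (r n x m))).trans (hτ _ _)]
    refine ⟨List.forall_mem_cons.2 ⟨gd_of h1, i0⟩, fun c m => ?_, fun v => ?_⟩
    · obtain ⟨e, x, m, g, k⟩ := (key p).1 c m
      refine ⟨g, fun w ⟨w1, w2⟩ => ?_⟩
      rw [k, ap, (i1 x m).2 w ⟨w1, fun b m => w2 b (.tail _ m)⟩]
      induction e with
      | zero => exact w1
      | succ e ih => clear k ih; induction e with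
        | zero => simpa using w2 _ (.head _)
        | succ e ih => rw [pow_succ, ap, w2 _ (.head _), ih]
    · rw [(key p).2]
      have m := Submodule.sum_mem _ fun e (_ : e ∈ range p) => pp e _ (i2 v)
      refine ⟨m.1, List.forall_mem_cons.2 ⟨?_, m.2⟩⟩
      have := sum_range_succ' (fun e => τ (el a ^ e) (((LL Γ).map fun c => τ (el c)).sum v)) p
      rw [sum_range_succ, show el a ^ p = el c from Subtype.ext (((ga.pow p).eq_iff (i1 c c1).1.rep).2 c2),
        (i1 c c1).2 _ (i2 v), pow_zero, (i2 v).1, add_left_inj] at this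
      rw [map_sum, this]
      simp only [← ap, pow_succ']

theorem cls_tr {σ π : M24} {r : ℕ} (h : isM r = true) (e : π.1 * σ = P r * π) : trace ℂ V (τ σ) = trace ℂ V (τ (el r)) := by
  rw [el_eq (σ := ⟨_, isM_mem h⟩) (isM_rep h), show σ = π⁻¹ * (⟨_, isM_mem h⟩ * π) from
    eq_inv_mul_of_mul_eq (Subtype.ext e), hτ, trace_mul_comm, ← hτ, mul_inv_cancel_right]

theorem lab_tr {c : ℕ} (g : Gd c) (h : lab c < 5) : trace ℂ V (τ (el c)) = trace ℂ V (τ (el (rp (lab c)))) := by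
  have r := g.rep
  have f : (fixS (el c).1).card = 0 ↔ allTo (fun i => !Nat.beq (ap c i) i) 24 = true := by
    rw [← fpf_iff, allTo_iff]
    refine ⟨fun H i hi => ?_, fun H p => ?_⟩
    · simpa [r.app hi, pt_eq_iff (r.lt hi) hi, ← Bool.not_eq_true] using H (pt i)
    · obtain ⟨i, hi, rfl⟩ := exists_pt p
      simpa [r.app hi, pt_eq_iff (r.lt hi) hi, ← Bool.not_eq_true] using H i hi
  simp only [lab, force_eq] at h ⊢
  cases e1 : is1 c
  · have n1 : (el c).1 ≠ 1 := fun e => by simp [(is1_iff r).1 e] at e1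
    cases e2 : sq1 c
    · cases e3 : cb1 c
      · simp [e1, e2, e3] at h
      rcases three_cases (el c).2 (orderOf_eq_prime (by rw [pow_three']; exact (cb1_iff r).2 e3) n1) with
        ⟨k, π, m, e⟩ | ⟨k, π, m, e⟩
      · rw [Bool.eq_false_iff.2 (mt f.2 (by omega))]; exact cls_tr hτ (π := ⟨π, m⟩) isM_X1 e
      · rw [f.1 k]; exact cls_tr hτ (π := ⟨π, m⟩) isM_X2 e
    rcases inv_cases (el c).2 (orderOf_eq_prime (by rw [pow_two]; exact (sq1_iff r).2 e2) n1) with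
      ⟨k, -, π, m, e⟩ | ⟨k, π, m, e⟩
    · rw [Bool.eq_false_iff.2 (mt f.2 (by omega))]; exact cls_tr hτ (π := ⟨π, m⟩) isM_T1 e
    · rw [f.1 k]; exact cls_tr hτ (π := ⟨π, m⟩) isM_T2 e
  · rw [show el c = 1 from Subtype.ext ((is1_iff r).2 e1)]; exact congrArg _ (congrArg _ (el_eq Rep.one).symm)

variable [FiniteDimensional ℂ V]

theorem fixK {Γ : List (ℕ × ℕ)} {n : List ℕ} (h : ok Γ = true ∧ (∀ l ∈ (LL Γ).map lab, l < 5) ∧
    (List.range 5).map (((LL Γ).map lab).count ·) = n ∧ (LL Γ).length = n.sum ∧ 0 < n.sum) :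
    (n.sum : ℂ) * finrank ℂ (Fx τ Γ) = ∑ l ∈ range 5, n.getD l 0 * trace ℂ V (τ (el (rp l))) := by
  obtain ⟨h0, h1, rfl, h3, h4⟩ := h
  obtain ⟨-, i1, i2⟩ := step hτ Γ h0
  rw [← h3] at h4 ⊢
  have n0 : ((LL Γ).length : ℂ) ≠ 0 := by exact_mod_cast h4.ne'
  have := (show IsProj (Fx τ Γ) (((LL Γ).length : ℂ)⁻¹ • ((LL Γ).map fun c => τ (el c)).sum) from
    ⟨fun v => Submodule.smul_mem _ _ (i2 v), fun v m => by
      rw [LinearMap.smul_apply, ← evalAddMonoidHom_apply, map_list_sum, List.map_map,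
        List.map_congr_left (g := fun _ => v) fun c k => by exact (i1 c k).2 v m]
      simp [← Nat.cast_smul_eq_nsmul ℂ, smul_smul, n0]⟩).trace
  rw [← this, map_smul, smul_eq_mul, mul_inv_cancel_left₀ n0, map_list_sum, List.map_map,
    List.map_congr_left (f := _ ∘ _) (g := (fun l => trace ℂ V (τ (el (rp l)))) ∘ lab) fun c k =>
      lab_tr hτ (i1 c k).1 (h1 _ (List.mem_map_of_mem k)), ← List.map_map]
  generalize (LL Γ).map lab = L at h1
  trans ∑ l ∈ range 5, L.count l * trace ℂ V (τ (el (rp l)))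
  · induction L with
    | nil => simp
    | cons a L ih =>
      have := h1 a (.head _)
      simp [ih fun l m => h1 l (.tail _ m), List.count_cons, add_mul, sum_add_distrib, add_comm, this]
  · simp [sum_range_succ, List.range_succ]

def gT : List (ℕ × ℕ) := [(0xdab499dc97c54c5b60692044016e3, 2), (0x75ab49982a7dd2c5c1a74486428222, 2), (0xbd17661a2a23933ac1a7448af18820, 2), (0xbae957b6289ba44b1cd0524ac18820, 2), (0xbb1f3a4232ab916218ed4a8ab18820, 2), (0x1ae957a04d99604b255231dccbc401, 2)]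
def gH : List (ℕ × ℕ) := [(0xba5b27d2289baac32ad03aca408062, 2), (0xbae4d8563343a8cb28cf3a4a410c01, 2), (0xba64d4562f83a87312d362caa18820, 2), (0xb99b28523343aaa4b16f258a718820, 2), (0x71a4d7d4a89de8c4a9703da2418820, 2), (0x8adb2452ef816acb28d33a5c418820, 2)]
def x3 : ℕ × ℕ := (0x8dab27b5d385e874a8c822cac18402, 3)

theorem m24 (e : ℕ) (h1 : trace ℂ V (τ 1) = e) (h2 : trace ℂ V (τ (el cT1)) = e - 16) : 23 ≤ e := by
  have k0 := fixK hτ (Γ := []) (n := [1, 0, 0, 0, 0]) (by decide +kernel)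
  have k1 := fixK hτ (Γ := [(0x1ae957a04d99604b255231dccbc401, 2)]) (n := [1, 0, 1, 0, 0]) (by decide +kernel)
  have k2 := fixK hτ (Γ := gT) (n := [1, 21, 42, 0, 0]) (by decide +kernel)
  have k3 := fixK hτ (Γ := (0x544a10552f74282192d362e5731da8, 3) :: gT) (n := [1, 21, 42, 0, 128]) (by decide +kernel)
  have k4 := fixK hτ (Γ := gH) (n := [1, 45, 18, 0, 0]) (by decide +kernel)
  have k5 := fixK hτ (Γ := x3 :: gH) (n := [1, 45, 18, 128, 0]) (by decide +kernel)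
  have k6 := fixK hτ (Γ := [(0x72ab29b6f07c68160ce8010a2b1969, 3), (0x80cae6de72a3e2b058554850651c8c, 3), x3])
    (n := [1, 0, 0, 14, 12]) (by decide +kernel)
  have k7 := fixK hτ (Γ := [(0x8d6c69a6ef839676aa48650a418440, 2), x3]) (n := [1, 3, 0, 2, 0]) (by decide +kernel)
  have mo : ∀ a Γ, finrank ℂ (Fx τ (a :: Γ)) ≤ finrank ℂ (Fx τ Γ) := fun a Γ =>
    Submodule.finrank_mono fun v h => ⟨h.1, fun b m => h.2 b (.tail _ m)⟩
  have l1 := mo (0x1ae957a04d99604b255231dccbc401, 2) []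
  have l3 := mo (0x544a10552f74282192d362e5731da8, 3) gT
  have l5 := mo x3 gH
  generalize finrank ℂ (Fx τ _) = f at k0 l1
  generalize finrank ℂ (Fx τ _) = f1 at k1 l1
  generalize finrank ℂ (Fx τ gT) = f2 at k2 l3
  generalize finrank ℂ (Fx τ _) = f3 at k3 l3
  generalize finrank ℂ (Fx τ gH) = f4 at k4 l5
  generalize finrank ℂ (Fx τ _) = f5 at k5 l5
  generalize finrank ℂ (Fx τ _) = f6 at k6
  generalize finrank ℂ (Fx τ _) = f7 at k7
  simp [sum_range_succ, rp, el_eq (σ := 1) Rep.one, h1, h2] at k0 k1 k2 k3 k4 k5 k6 k7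
  have e1 : (64 * f2 + 336 + 20 * e : ℂ) = 84 * f1 := by linear_combination k2 - 42 * k1
  have e2 : (64 * f4 + 720 : ℂ) = 28 * e + 36 * f1 := by linear_combination k4 - 18 * k1
  have e3 : (27 * f6 + 7 * f4 + 6 * f2 : ℂ) = e + 21 * f5 + 18 * f3 := by
    linear_combination k6 - 7 / 64 * (k5 - k4) - 6 / 64 * (k3 - k2)
  have e4 : (6 * f7 + 48 + f4 : ℂ) = 4 * e + 3 * f5 := by linear_combination k7 - 1 / 64 * (k5 - k4)
  norm_cast at e1 e2 e3 e4 k0
  by_contra! n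
  subst k0
  obtain ⟨b, rfl⟩ := Nat.exists_eq_add_of_le l1
  obtain rfl : b = 12 := by clear e2 e3 e4; omega
  obtain ⟨rfl, rfl, rfl⟩ | ⟨rfl, rfl, rfl⟩ : f1 = 9 ∧ f2 = 0 ∧ f4 = 3 ∨ f1 = 10 ∧ f2 = 1 ∧ f4 = 4 := by
    clear e3 e4; omega
  all_goals interval_cases f3 <;> interval_cases f5 <;> omega

end H1.RB
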