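import Cfsg.Agent.H0.ES4
import Mathlib.LinearAlgebra.Trace
import Mathlib.LinearAlgebra.Complex.Module

/-! Weight projectors for subgroups of extraspecial 2-groups. -/

set_option autoImplicit false
set_option linter.unusedSectionVars false

namespace H1.RB
open H19 H0 Finset Module LinearMap
open Subgroup hiding mem_top
open scoped Classical commutatorElement

variable {G A : Type*} [Group G] [Fintype G] [Ring A] [Algebra ℂ A] {ρ : G →* A} {Q S : Subgroup G} {z s u w x y g : G}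
  {p : A}

noncomputable def lm (u x : G) : ℂ := if x * u = u * x then 1 else -1
noncomputable def pj (ρ : G →* A) (S : Subgroup G) (u : G) : A := (#S : ℂ)⁻¹ • ∑ x with x ∈ S, lm u x • ρ x
def Mu (S : Subgroup G) (u : G) : Prop := ∀ x ∈ S, ∀ y ∈ S, lm u (x * y) = lm u x * lm u y

theorem lm_sq (u x : G) : lm u x * lm u x = 1 := by unfold lm; split_ifs <;> simp
theorem lm_comm (u x : G) : lm u x = lm x u := by simp only [lm, eq_comm]
theorem lm_pos (h : x * u = u * x) : lm u x = 1 := if_pos h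
theorem lm_neg (h : x * u ≠ u * x) : lm u x = -1 := if_neg h
theorem lm_cj (g u x : G) : lm (g * u * g⁻¹) (g * x * g⁻¹) = lm u x := by simp only [lm, conj_mul, mul_left_inj, mul_right_inj]
theorem card_fil (S : Subgroup G) : (univ.filter (· ∈ S)).card = #S := by
  rw [Nat.card_eq_fintype_card, Fintype.card_subtype]
theorem card_ne (S : Subgroup G) : (#S : ℂ) ≠ 0 := Nat.cast_ne_zero.2 Nat.card_pos.ne'

theorem lm_mul (E : ES Q z) (hx : x ∈ Q) (hy : y ∈ Q) (hu : u ∈ Q) : lm u (x * y) = lm u x * lm u y := by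
  simp only [lm, ← comm_eq_one, E.comm_mul hx hy hu]
  rcases E.comm x hx u hu with a | a <;> rcases E.comm y hy u hu with b | b <;> simp [a, b, E.z1, E.zz]

theorem mu_of (E : ES Q z) (hS : S ≤ Q) (hu : u ∈ Q) : Mu S u := fun _ a _ b => lm_mul E (hS a) (hS b) hu

theorem Mu.l (m : Mu S u) (hy : y ∈ S) : ρ y * pj ρ S u = lm u y • pj ρ S u := by
  rw [pj, mul_smul_comm, smul_comm (lm u y), mul_sum, smul_sum (r := lm u y)]
  refine congrArg _ (sum_equiv (Equiv.mulLeft y) (fun x => by simp [mul_mem_cancel_left hy]) fun x hx => ?_)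
  rw [Equiv.coe_mulLeft, m y hy x (mem_filter.1 hx).2, smul_smul, ← mul_assoc, lm_sq, one_mul, mul_smul_comm, map_mul]

theorem Mu.r (m : Mu S u) (hy : y ∈ S) : pj ρ S u * ρ y = lm u y • pj ρ S u := by
  rw [pj, smul_mul_assoc, smul_comm (lm u y), sum_mul, smul_sum (r := lm u y)]
  refine congrArg _ (sum_equiv (Equiv.mulRight y) (fun x => by simp [mul_mem_cancel_right hy]) fun x hx => ?_)
  rw [Equiv.coe_mulRight, m x (mem_filter.1 hx).2 y hy, smul_smul, mul_left_comm, lm_sq, mul_one, smul_mul_assoc, map_mul]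

theorem pj_l (h : ∀ y ∈ S, ρ y * p = lm u y • p) : pj ρ S u * p = p := by
  rw [pj, smul_mul_assoc, sum_mul, sum_congr rfl (g := fun _ => p) fun x hx => by
    rw [smul_mul_assoc, h x (mem_filter.1 hx).2, smul_smul, lm_sq, one_smul], sum_const, card_fil,
    ← Nat.cast_smul_eq_nsmul ℂ, smul_smul, inv_mul_cancel₀ (card_ne S), one_smul]

theorem pj_cm (h : ∀ y ∈ S, ρ y * p = p * ρ y) : pj ρ S u * p = p * pj ρ S u := by
  rw [pj, smul_mul_assoc, mul_smul_comm, sum_mul, mul_sum]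
  exact congrArg _ (sum_congr rfl fun x hx => by rw [smul_mul_assoc, mul_smul_comm, h x (mem_filter.1 hx).2])

theorem Mu.idem (m : Mu S u) : IsIdempotentElem (pj ρ S u) := pj_l fun _ => m.l

theorem Mu.kill (m : Mu S u) (hy : y ∈ S) (h : ρ y * p = -lm u y • p) : pj ρ S u * p = 0 := by
  have := congrArg (· * p) (m.r (ρ := ρ) hy)
  simp only [mul_assoc, h, mul_smul_comm, smul_mul_assoc, neg_smul, mul_neg, neg_eq_iff_add_eq_zero, ← add_smul] at this
  rw [← one_smul ℂ (_ * p), show (1 : ℂ) = 2⁻¹ * lm u y * (lm u y + lm u y) by linear_combination -lm_sq u y, mul_smul,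
    this, smul_zero]

theorem pj_cj (g : G) (S : Subgroup G) (u : G) : ρ g * pj ρ S u = pj ρ (cj g S) (g * u * g⁻¹) * ρ g := by
  rw [pj, pj, mul_smul_comm, smul_mul_assoc, mul_sum, sum_mul, card_cj]
  refine congrArg _ (sum_equiv (MulAut.conj g).toEquiv (fun x => by simp [conj_mem_cj]) fun x _ => ?_)
  simp [lm_cj, ← map_mul]

theorem pj_congr (h : ∀ y ∈ S, lm u y = lm w y) : pj ρ S u = pj ρ S w :=
  congrArg (HSMul.hSMul _) (sum_congr rfl fun x hx => by rw [h x (mem_filter.1 hx).2])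

theorem pj_mul (h : w ∈ C(S)) : pj ρ S (u * w) = pj ρ S u :=
  pj_congr fun y hy => by simp only [lm, mul_assoc u, ← mem_cent.1 h y hy]; simp only [← mul_assoc, mul_left_inj]

theorem pj_orth (E : ES Q z) (hS : S ≤ Q) (hu : u ∈ Q) (hw : w ∈ Q) (h : u * w ∉ C(S)) : pj ρ S u * pj ρ S w = 0 := by
  obtain ⟨y, hy, n⟩ : ∃ y ∈ S, y * (u * w) ≠ u * w * y := by simpa [mem_cent] using h
  refine (mu_of E hS hu).kill hy (((mu_of E hS hw).l hy).trans (congrArg (· • _) ?_))
  have := lm_neg n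
  rw [lm_comm, lm_mul E hu hw (hS hy), lm_comm y, lm_comm y] at this
  linear_combination lm u y * this - lm w y * lm_sq u y

theorem sum_lm (E : ES Q z) (hx : x ∈ Q) : ∑ u with u ∈ Q, lm u x = if x = 1 ∨ x = z then (#Q : ℂ) else 0 := by
  split_ifs with h
  · rw [sum_congr rfl (g := fun _ => 1) fun u hu => lm_pos (E.zp_comm (E.mem_zp.2 h) (mem_filter.1 hu).2).symm]
    simp [card_fil]
  · obtain ⟨y, hy, n⟩ := E.exists_not_comm hx (mt E.mem_zp.1 h)
    have : ∑ u with u ∈ Q, -lm u x = ∑ u with u ∈ Q, lm u x :=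
      sum_equiv (Equiv.mulLeft y) (fun x => by simp [mul_mem_cancel_left hy]) fun u hu => by
        rw [Equiv.coe_mulLeft, lm_comm (y * u), lm_mul E hy (mem_filter.1 hu).2 hx, lm_neg n.symm, lm_comm x, neg_one_mul]
    rw [sum_neg_distrib] at this
    linear_combination -2⁻¹ * this

theorem sum_pj (E : ES Q z) (hS : S ≤ Q) (hz : z ∈ S) : ∑ u with u ∈ Q, pj ρ S u = ((#S : ℂ)⁻¹ * #Q) • (1 + ρ z) := by
  simp only [pj]
  rw [← smul_sum, sum_comm, mul_smul, ← map_one ρ, ← sum_pair (f := ρ) E.z1.symm, smul_sum (s := {1, z})]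
  refine congrArg _ (Eq.symm (sum_subset_zero_on_sdiff (fun x hx => ?_) (fun x hx => ?_) fun x hx => ?_))
  · simp only [Finset.mem_insert, Finset.mem_singleton] at hx
    rcases hx with rfl | rfl <;> simp [hz]
  · simp only [mem_sdiff, mem_filter, Finset.mem_insert, Finset.mem_singleton] at hx
    rw [← sum_smul, sum_lm E (hS hx.1.2), if_neg hx.2, zero_smul]
  · simp only [Finset.mem_insert, Finset.mem_singleton] at hx
    rw [← sum_smul, sum_lm E (E.zp_le (E.mem_zp.2 hx)), if_pos hx]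

theorem pj_all (E : ES Q z) (hS : S ≤ Q) (hz : z ∈ S) (h : ρ z * p = p) (H : ∀ u ∈ Q, pj ρ S u * p = 0) : p = 0 := by
  have := congrArg (· * p) (sum_pj (ρ := ρ) E hS hz)
  simp only [sum_mul, smul_mul_assoc, add_mul, one_mul, h, ← two_smul ℂ p, smul_smul] at this
  rw [sum_eq_zero fun u hu => H u (mem_filter.1 hu).2] at this
  exact (smul_eq_zero.1 this.symm).resolve_left (by simp)

theorem pj_split (E : ES Q z) (hs : s ∈ Q) (hc : 2 * #(Q ⊓ C[s]) = #Q) (hu : u ∈ Q) :
    pj ρ (Q ⊓ C[s]) u = pj ρ Q u + pj ρ Q (u * s) := by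
  rw [pj, pj, pj, ← smul_add, ← sum_add_distrib, ← hc, Nat.cast_mul, mul_inv, mul_comm, mul_smul, smul_sum (r := ((2 : ℕ) : ℂ)⁻¹)]
  refine congrArg _ (sum_subset_zero_on_sdiff (fun x => by simp +contextual) (fun x hx => ?_) fun x hx => ?_)
  · simp only [mem_sdiff, mem_filter, mem_univ, true_and, Subgroup.mem_inf, mem_cent1] at hx
    rw [lm_comm (u * s), lm_mul E hu hs hx.1, lm_comm x s, lm_neg fun e => hx.2 ⟨hx.1, e⟩, lm_comm x]; simp
  · have := (mem_filter.1 hx).2
    rw [lm_comm (u * s), lm_mul E hu hs this.1, lm_comm x s, lm_pos (mem_cent1.1 this.2), lm_comm x, mul_one,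
      ← two_smul ℂ, smul_smul]; simp

variable {V : Type*} [AddCommGroup V] [Module ℂ V] [FiniteDimensional ℂ V] {a e : End ℂ V}

noncomputable def rk (e : End ℂ V) : ℕ := finrank ℂ (range e)
theorem tr_rk (h : IsIdempotentElem e) : trace ℂ V e = rk e := h.isProj_range.trace
theorem rk_zero (h : rk e = 0) : e = 0 := range_eq_bot.1 (Submodule.finrank_eq_zero.1 h)

theorem rk0 : rk (0 : End ℂ V) = 0 := by rw [rk, LinearMap.range_zero, finrank_bot]

theorem rk_one (h : rk e = 1) (c : a * e = e * a) : ∃ α : ℂ, a * e = α • e := by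
  obtain ⟨v, -, H⟩ := finrank_eq_one_iff'.1 h
  obtain ⟨v, w, rfl⟩ := v
  obtain ⟨α, k⟩ := H ⟨_, a w, rfl⟩
  refine ⟨α, LinearMap.ext fun x => ?_⟩
  obtain ⟨β, l⟩ := H ⟨_, x, rfl⟩
  replace k : α • e w = a (e w) := (congrArg Subtype.val k).trans (congrArg (· w) c).symm
  replace l : β • e w = e x := congrArg Subtype.val l
  rw [End.mul_apply, LinearMap.smul_apply, ← l, map_smul, ← k, smul_comm]

end H1.RB
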