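import Cfsg.Agent.H0.Y.A

/-! The duad elements of `Q ∩ Q'` in a group of Monster type. -/

set_option autoImplicit false
set_option linter.unusedSectionVars false

namespace H1.RB
open Cfsg H15 H19 Subgroup H0 H0.Mo H0.Mo.MT H0.Y
open scoped commutatorElement

def vv (i j : GolayPt) : Lam := ⟨pr i j 4 4, pr_mem i j (.inl rfl) (.inl rfl)⟩
variable {i j k l : GolayPt} {c : Finset GolayPt}
theorem cf_vv : cf (vv i j) k = (if k = i then 4 else 0) + if k = j then 4 else 0 := by simp [vv, cf, pr, Pi.single_apply]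
theorem vv_comm : vv i j = vv j i := Subtype.ext (add_comm _ _)
theorem vv_norm (h : i ≠ j) : sqNorm (cf (vv i j)) = 32 := norm_pr h 4 4
theorem U_vv : lU = vv (pt 23) (pt 0) := by decide +kernel
theorem prm_vv (σ : M24) : prmH σ • vv i j = vv (σ.1 i) (σ.1 j) := Subtype.ext (funext fun k =>
  (cf_prm' σ.2 _ k).trans (by rw [cf_vv]; exact Eq.trans (by simp [Equiv.symm_apply_eq]) cf_vv.symm))

theorem cg_E (i : GolayPt) : Cg (e8 i 1) lE := cong_e8 _ _ (.inl rfl) (.inl rfl)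

theorem sgn_vv (hc : c ∈ cw) : Cg (sgn hc • vv i j + vv i j) ((if i ∈ c then 0 else lE) + if j ∈ c then 0 else lE) := by
  have : sgn hc • vv i j + vv i j = (if i ∈ c then 0 else e8 i 1) + if j ∈ c then 0 else e8 j 1 :=
    Subtype.ext (funext fun k => by
      change cf _ k + cf _ k = cf _ k + cf _ k
      rw [cf_sgn, cf_vv]
      by_cases a : i ∈ c <;> by_cases b : j ∈ c <;> simp only [a, b, if_true, if_false, cf_e8, Pi.single_apply,
        show ∀ k, cf 0 k = 0 from fun _ => rfl] <;> grind)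
  rw [this]
  refine Cg.add ?_ ?_ <;> split_ifs <;> first | exact .refl _ | exact cg_E _

theorem sgn0 (hc : c ∈ cw) (e : i ∈ c ↔ j ∈ c) : Cg (sgn hc • vv i j + vv i j) 0 := by
  refine (sgn_vv hc).trans ?_
  rw [Cg.add_zero, if_congr e rfl rfl]; exact .refl _

theorem sgn1 (hc : c ∈ cw) (e : ¬ (i ∈ c ↔ j ∈ c)) : Cg (sgn hc • vv i j + vv i j) lE := by
  refine (sgn_vv hc).trans ?_
  by_cases a : i ∈ c <;> by_cases b : j ∈ c <;> simp_all [Cg.refl]

theorem vv_inj (h : i ≠ j) (h' : k ≠ l) (e : Cg (vv i j + vv k l) 0 ∨ Cg (vv i j + vv k l) lE) :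
    i = k ∧ j = l ∨ i = l ∧ j = k := by
  rcases e with e | e
  · rcases (Cg.add_zero.1 e).short (by rw [vv_norm h]; decide) (by rw [vv_norm h']; decide) with e | e
    · have a := congrArg (cf · i) e; have b := congrArg (cf · j) e
      simp only [cf_vv] at a b; grind
    · have a : cf _ i = -cf _ i := congrArg (cf · i) e
      simp only [cf_vv] at a; grind
  · obtain ⟨u, e'⟩ := e.symm
    obtain ⟨p, a, -, q⟩ := mem_stdCross.1 (mem_stdCross_of_cong (by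
      rw [show cf (_ + _) = cf _ + cf _ from rfl, sqNorm_add, vv_norm h, vv_norm h',
        orth (vv_norm h) (vv_norm h') (norm_e8 _) e]; rfl) (.inl rfl) e')
    have a : cf _ i + cf _ i = _ := congrArg (cf · i) q
    have b : cf _ j + cf _ j = _ := congrArg (cf · j) q
    simp only [cf_vv, cf_e8, Pi.single_apply] at a b; grind

theorem cnt_odd : 98304 ≤ {v : Lam | sqNorm (cf v) = 32 ∧ ¬ 16 ∣ dotInt (cf v) (cf lE)}.ncard := by
  rw [← show lcount (fun j => j % 2 == 1) 32 = 98304 by decide +kernel, ← leech_count _ (by decide),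
    ← ncard_lat fun x => sqNorm x = (32 : ℕ) ∧ ∀ i, ((x i + 8).toNat % 2 == 1) = true]
  refine Set.ncard_le_ncard (fun v h => ⟨h.1, ?_⟩) ((finite_lat 32).subset fun _ h => h.1)
  have := h.2 (pt 23)
  rw [cf_e8, dotInt_single_right]
  simp only [beq_iff_eq, cf] at this ⊢; omega

variable {G : Type*} [Group G] [Finite G] {Q Q' : Subgroup G} {z s u w t y : G} {f : C[z] →* Spor.Co1}
  {R : G → Lam → Prop} (M : MT Q z f R) (L : LP Q z Q' s) (r : R s lE)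
include M

theorem cnt {n : ℤ} (hn : n < 64) (P : Lam → Prop) :
    {v | sqNorm (cf v) = n ∧ P v}.ncard ≤ {x | ∃ v, sqNorm (cf v) = n ∧ P v ∧ R x v}.ncard := by
  classical
  have hV : {v | sqNorm (cf v) = n ∧ P v}.Finite := (finite_lat n).subset fun _ h => h.1
  rw [Set.ncard_eq_toFinset_card _ hV, Set.ncard_eq_toFinset_card {x | ∃ v, _}]
  refine Nat.le_of_mul_le_mul_right (Finset.card_mul_le_card_mul (fun v x => R x v) (fun v hv => ?_) fun x hx => ?_) two_pos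
  · obtain ⟨x, a⟩ := M.sur v
    rw [Set.Finite.mem_toFinset] at hv
    have k : ∀ {x}, R x v → x ∈ Finset.bipartiteAbove (fun v x => R x v) 
        (Set.toFinite {x | ∃ v, sqNorm (cf v) = n ∧ P v ∧ R x v}).toFinset v := fun a =>
      (Finset.mem_bipartiteAbove _).2 ⟨(Set.Finite.mem_toFinset _).2 ⟨v, hv.1, hv.2, a⟩, a⟩
    exact Finset.one_lt_card.2 ⟨x, k a, x * z, k (M.mulz a (mem_zpowers z)), fun e => M.le.es.z1 (left_eq_mul.1 e)⟩
  · obtain ⟨v, h1, -, a⟩ := (Set.Finite.mem_toFinset _).1 hx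
    refine (Finset.card_le_card (t := {v, -v}) fun w h => ?_).trans Finset.card_le_two
    simp only [Finset.mem_bipartiteBelow, Set.Finite.mem_toFinset, Finset.mem_insert, Finset.mem_singleton] at h ⊢
    exact ((M.uniq h.2 a).2 (.inl rfl)).short (h.1.1.trans_le hn.le) (h1.trans_lt hn)

theorem perf (a : R t lU) : C[z] ⊓ C[t] ≤ ⁅C[z] ⊓ C[t], C[z] ⊓ C[t]⁆ ⊔ Q ⊓ C[t] := fun h hh => by
  have := simple_sCo2
  have li : ∀ g ∈ sCo2, ∃ k ∈ C[z] ⊓ C[t], A f k g := fun g m =>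
    let ⟨k, k1, k2⟩ := mem_img.1 ((M.img_cent a nz_U).2 (by rw [MulAction.mem_stabilizer_iff.1 m]; exact .refl _)); ⟨k, ⟨k2.1, k1⟩, k2⟩
  have pf : sCo2 ≤ ⁅sCo2, sCo2⁆ := by
    rw [← map_subtype_commutator, (Normal.eq_bot_or_eq_top (inferInstance : (commutator sCo2).Normal)).resolve_left
      fun e => ?_, ← MonoidHom.range_eq_map, range_subtype]
    let _ := Group.commGroupOfCenterEqTop ((commutator_eq_bot_iff_center_eq_top _).1 e)
    exact absurd (IsSimpleGroup.prime_card (α := sCo2)) (by rw [card_sCo2]; norm_num)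
  obtain ⟨g, b⟩ := A.tot (f := f) hh.1
  obtain ⟨e, e1, e2⟩ := stab_short (by rw [norm_U]; decide) ((M.img_cent a nz_U).1 (mem_img.2 ⟨h, hh.2, b⟩))
  obtain ⟨k, k1, k2⟩ := mem_img.1 ((commutator_le.2 fun x hx y hy => by
    obtain ⟨p, p1, p2⟩ := li x hx
    obtain ⟨q, q1, q2⟩ := li y hy
    exact mem_img.2 ⟨_, commutator_mem_commutator p1 q1, ((p2.mul q2).mul p2.inv).mul q2.inv⟩ :
      _ ≤ img f ⁅C[z] ⊓ C[t], C[z] ⊓ C[t]⁆) (pf e2))
  simpa using mul_mem_sup k1 (show k⁻¹ * h ∈ Q ⊓ C[t] from ⟨(M.aker (k2.inv.mul b)).2 (by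
    rw [mul_inv_rev, Subgroup.mem_center_iff.1 (inv_mem e1), inv_mul_cancel_right]; exact inv_mem e1),
    C[t].mul_mem (C[t].inv_mem (der_le _ k1).2) hh.2⟩)

include L r

theorem v4 {v : Lam} (a : R u v) : u ∈ zpowers z ⊔ zpowers s ↔ Cg v 0 ∨ Cg v lE := by
  rw [mem_four L.l.es.zz L.r.es.zz L.comm, ← M.rk a, L.l.es.mem_zp, show Cg v lE ↔ Cg lE v from ⟨.symm, .symm⟩,
    M.uniq r a, L.comm, or_assoc]

theorem u_mem (h : i ≠ j) (a : R u (vv i j)) : u ∈ Q ⊓ Q' ∧ A2 z u := by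
  have b := a2_of M L a (vv_norm h)
  refine ⟨⟨M.mem a, memQ' M L (M.mem a) b (a2_of M L (M.cg (M.mul a r)
    (w := ⟨pr i j 4 (-4), pr_mem i j (.inl rfl) (.inr rfl)⟩) (((Cg.refl _).add (cg_E j).symm).trans
      ⟨e8 j 1, Subtype.ext (funext fun k => ?_)⟩)) (norm_pr h 4 (-4)))⟩, b⟩
  change cf _ k + cf _ k - pr _ _ _ _ k = 2 • cf _ k
  simp only [cf_vv, cf_e8, pr, Pi.add_apply, Pi.single_apply]; split_ifs <;> simp

theorem sgn_cm (h : i ≠ j) (a : R u (vv i j)) (hy : y ∈ Q') (hc : c ∈ cw) (b : A f y (sgn hc)) :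
    y * u = u * y ↔ (i ∈ c ↔ j ∈ c) := by
  have m := M.comm b a
  refine ⟨fun e => by_contra fun n => nz_E ((sgn1 hc n).symm.trans ((M.rk m).1 (comm_eq_one.2 e ▸ one_mem _))),
    fun e => by_contra fun n => L.notMem ?_⟩
  exact L.r.es.comm_eq hy (u_mem M L r h a).1.2 n ▸ (M.rk m).2 (sgn0 hc e)

theorem ctr (hu : u ∈ Q') (h : u ∈ C(Q ⊓ Q')) : u ∈ Q := by
  have m : u ∈ Q' ⊓ C[z] := ⟨hu, mem_cent1.2 (mem_cent.1 h z ⟨L.l.es.zQ, L.zQ⟩).symm⟩
  obtain ⟨g, b⟩ := A.tot (f := f) m.2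
  obtain ⟨c, hc, rfl⟩ := (M.img_EE L r).le (mem_img.2 ⟨u, m, b⟩)
  have k : ∀ i, i ∈ c ↔ none ∈ c := fun i => by
    by_cases e : i = none
    · rw [e]
    obtain ⟨x, a⟩ := M.sur (vv i none)
    exact (sgn_cm M L r e a hu hc b).1 (mem_cent.1 h x (u_mem M L r e a).1).symm
  refine (M.aker b).2 ?_
  by_cases e : none ∈ c
  · obtain rfl : c = Finset.univ := Finset.eq_univ_of_forall fun i => (k i).2 e
    exact coN_mem_center
  · obtain rfl : c = ∅ := Finset.eq_empty_of_forall_notMem fun i m => e ((k i).1 m)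
    exact sgn_empty ▸ one_mem _

omit r in
theorem ctr' (hu : u ∈ Q) (h : u ∈ C(Q ⊓ Q')) : u ∈ Q' := by
  obtain ⟨g, rfl, rfl⟩ := L.conj
  obtain ⟨f', M'⟩ := cjM M g
  obtain ⟨k, r⟩ := M'.typ4 L.symm
  exact ctr (M'.twist k) L.symm r hu (inf_comm Q _ ▸ h)

theorem cls (hu : u ∈ Q ⊓ Q') (a : A2 z u) : ∃ i j, i ≠ j ∧ ∀ w, R w (vv i j) → u * w ∈ zpowers z ⊔ zpowers s := by
  obtain ⟨y, -, e⟩ := L.r.es.exists_conj hu.2 fun k => by
    rcases L.r.es.mem_zp.1 k with rfl | rfl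
    exacts [a.2.1 rfl, a.2.2 (isConj_iff.2 ⟨_, L.conj.choose_spec.1⟩)]
  obtain ⟨v, r1, h1⟩ := of_a2 M L hu.1 a
  obtain ⟨w, r2, h2⟩ := of_a2 M L (mul_mem hu.1 L.tQ) (e ▸ a.cj y)
  have c : Cg (v + w) lE := (M.uniq (M.mul r1 r2) r).2 (.inl (by rw [← mul_assoc, a.1, one_mul]))
  obtain ⟨g, rfl, rfl⟩ := std_UU' h1 (x := w) ⟨h2, orth h1 h2 (norm_e8 _) c⟩
  rw [← co_add, show lU + lU' = lE by decide +kernel] at c
  obtain ⟨_, ⟨c, hc, rfl⟩, σ, rfl⟩ := exists_NN (stab_E.1 c)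
  rw [mul_smul, U_vv, prm_vv] at r1
  refine ⟨_, _, σ.1.injective.ne (show pt 23 ≠ pt 0 by decide), fun w b => (v4 M L r (M.mul r1 b)).2 ?_⟩
  exact (em _).imp (sgn0 hc) (sgn1 hc)

end H1.RB
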