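import Cfsg.Agent.H1.RB2
import Cfsg.Agent.H1.RB3

/-! Weight multiplicities in a small complex representation of a group of Monster type. -/

set_option autoImplicit false
set_option linter.unusedSectionVars false

namespace H1.RB
open Cfsg H15 H19 H0 H0.Mo H0.Mo.MT H0.Y Finset Module LinearMap
open Subgroup hiding mem_top
open scoped Classical commutatorElement

variable {G V : Type*} [Group G] [Fintype G] [AddCommGroup V] [Module ℂ V] [FiniteDimensional ℂ V] {ρ : G →* End ℂ V}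
  {Q Q' : Subgroup G} {z s u w t y g h : G} {f : C[z] →* Spor.Co1} {R : G → Lam → Prop} {a b : End ℂ V}

theorem tr_cj (h : ρ g * a = b * ρ g) : trace ℂ V a = trace ℂ V b := by
  rw [← one_mul a, ← map_one ρ, ← inv_mul_cancel g, map_mul ρ, mul_assoc, h, trace_mul_comm, mul_assoc, ← map_mul,
    mul_inv_cancel, map_one, mul_one]

theorem rk_cj (E : ES Q z) (hu : u ∈ Q) (g : G) : rk (pj ρ (cj g Q) (g * u * g⁻¹)) = rk (pj ρ Q u) := by
  have := tr_cj (pj_cj (ρ := ρ) g Q u)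
  rw [tr_rk (mu_of E le_rfl hu).idem, tr_rk (mu_of (E.J g) le_rfl (conj_mem_cj.2 hu)).idem] at this
  exact_mod_cast this.symm

theorem sum_ind {X : Set G} (hX : X ⊆ Q) (c : ℕ) : ∑ u with u ∈ Q, (if u ∈ X then c else 0) = c * X.ncard := by
  rw [← sum_filter, sum_const, filter_filter, Set.ncard_eq_toFinset_card', smul_eq_mul, mul_comm]
  exact congrArg (c * card ·) (Finset.ext fun x => by simpa using @hX x)

variable (M : MT Q z f R) (L : LP Q z Q' s) (r : R s lE)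
include M L r

theorem num (hz : ρ z ≠ 1) (hn : finrank ℂ V < 196883) : rk (pj ρ Q 1) ≤ 298 ∧ (∀ u ∈ Q, A2 z u → rk (pj ρ Q u) = 1) ∧
    ∀ u ∈ Q, pj ρ Q u = 0 ∨ u ∈ zpowers z ∨ A2 z u := by
  have E := M.le.es
  have id : ∀ u ∈ univ.filter (· ∈ Q), trace ℂ V (pj ρ Q u) = rk (pj ρ Q u) := fun u hu =>
    tr_rk (mu_of E le_rfl (mem_filter.1 hu).2).idem
  have h0 := sum_pj (ρ := ρ) E le_rfl E.zQ
  rw [inv_mul_cancel₀ (card_ne Q), one_smul] at h0
  have h1 := congrArg (trace ℂ V) h0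
  have h2 := congrArg (fun a => trace ℂ V (ρ s * a)) h0
  have c1 : ∀ g x, trace ℂ V (ρ (g * x * g⁻¹)) = trace ℂ V (ρ x) := fun g x =>
    (tr_cj (g := g) (by rw [← map_mul, ← map_mul, inv_mul_cancel_right])).symm
  obtain ⟨x, -, e1⟩ := E.exists_conj L.tQ L.notMem
  obtain ⟨g, e2, -⟩ := L.conj
  simp only [mul_add, mul_one, map_add, ← map_mul, ← e1, c1, mul_sum, map_sum] at h2
  rw [sum_congr rfl (g := fun u => lm u s * rk (pj ρ Q u)) fun u hu => by
    rw [(mu_of E le_rfl (mem_filter.1 hu).2).l L.tQ, map_smul, id u hu, smul_eq_mul], ← e2, c1, e2] at h2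
  rw [map_sum, sum_congr rfl id, map_add, trace_one] at h1
  have key : ∑ u with u ∈ Q, (if s * u = u * s then 1 else 3) * rk (pj ρ Q u) = 2 * finrank ℂ V := by
    have : ∑ u with u ∈ Q, (((if s * u = u * s then 1 else 3) * rk (pj ρ Q u) : ℕ) : ℂ) =
        2 * ∑ u with u ∈ Q, (rk (pj ρ Q u) : ℂ) - ∑ u with u ∈ Q, lm u s * rk (pj ρ Q u) := by
      rw [mul_sum, ← sum_sub_distrib]
      exact sum_congr rfl fun u _ => by unfold lm; split_ifs <;> push_cast <;> ring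
    rw [← Nat.cast_sum, h1, h2] at this
    exact Nat.cast_injective (R := ℂ) (this.trans (by push_cast; ring))
  have ty : ∀ {x y v k k'}, ¬ Cg v 0 → R x (k • v) → R y (k' • v) → rk (pj ρ Q y) = rk (pj ρ Q x) := fun n a b => by
    obtain ⟨h, hh, rfl⟩ := M.conj_type a b n
    rw [← rk_cj E (M.mem a) h, cj_of_mem_norm (M.le.norm hh)]
  have big : ∀ X : Set G, X ⊆ Q → 393766 ≤ X.ncard → ∀ u, (∀ x ∈ X, rk (pj ρ Q x) = rk (pj ρ Q u)) → pj ρ Q u = 0 :=
    fun X hX c u H => rk_zero (by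
      have := (sum_ind hX (rk (pj ρ Q u))).ge.trans ((sum_le_sum fun x _ => ?_).trans key.le)
      · by_contra n
        have := Nat.mul_le_mul (Nat.pos_of_ne_zero n) c; omega
      split_ifs with k <;> first | rw [H x k]; omega | omega)
  have cl : ∀ u ∈ Q, pj ρ Q u = 0 ∨ u ∈ zpowers z ∨ A2 z u := fun u hu => by
    obtain ⟨v, a⟩ := M.tot u hu
    rcases std v with c | ⟨k, c | c | c⟩
    · exact .inr (.inl ((M.rk a).2 c))
    · exact .inr (.inr (a2_of M L (M.cg a c) (by rw [co_norm, norm_U])))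
    · refine .inl (big _ ?_ (le_trans ?_ (cnt M (n := 48) (by decide) fun _ => True)) u fun x ⟨v, h, _, b⟩ => ?_)
      · exact fun x ⟨_, _, _, b⟩ => M.mem b
      · simp only [and_true]; exact lat_ncard48.ge.trans' (by decide)
      · obtain ⟨k', rfl⟩ := trans48 h
        exact ty (nz_of norm_V (by decide)) (M.cg a c) b
    · refine .inl (big ({x | x ∈ Q ⊓ C[1] ∧ IsConj z x} \ {z}) (fun x h => h.1.1.1) ?_ u fun x h => ?_)
      · have := M.count L (p := 1) odd_one (one_pow _) (one_pow _) (.one (one_mem _))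
        rw [← M.card_fix (p := 1) odd_one (one_pow _) (one_pow _) (.one (one_mem _)),
          show Q ⊓ C[1] = Q by simp, M.card] at this
        simp only [show ∀ v, v ∈ Mo.Fx 1 from fun v => one_smul _ v, true_and, Nat.cast_ofNat] at this
        erw [lat_ncard32, lat_ncard48] at this
        have := Set.ncard_sdiff_singleton_add_one (s := {x | x ∈ Q ⊓ C[1] ∧ IsConj z x}) (a := z) ⟨by simp [E.zQ], .refl _⟩
        simp only [show Q ⊓ C[1] = Q by simp] at this ⊢; omega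
      · obtain ⟨k', b⟩ := (M.conj_iff L h.1.1.1).1 ⟨h.1.2, h.2⟩
        exact ty nz_E (M.cg a c) b
  obtain ⟨t, rt⟩ := M.sur lU
  have t2 : ∀ {x v}, R x v → sqNorm (cf v) = 32 → rk (pj ρ Q x) = rk (pj ρ Q t) := fun a h => by
    obtain ⟨k, rfl⟩ := trans_min h
    exact ty nz_U (one_smul Co0 lU ▸ rt) a
  have m1 : rk (pj ρ Q t) ≠ 0 := fun e => hz (by
    rw [sum_congr rfl (g := fun u => (rk (pj ρ Q u) : ℂ)) fun u hu => by
      rcases cl u (mem_filter.1 hu).2 with c | c | c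
      · simp [c, rk0]
      · rw [lm_pos (E.zp_comm c L.tQ), one_mul]
      · obtain ⟨v, a, b⟩ := of_a2 M L (mem_filter.1 hu).2 c
        simp [t2 a b, e], h1] at h2
    have := (show IsIdempotentElem ((2⁻¹ : ℂ) • (1 - ρ z)) from by
      simp only [IsIdempotentElem, smul_mul_smul, mul_sub, sub_mul, ← map_mul, E.zz, map_one, mul_one, one_mul]
      module).eq_zero_of_trace_eq_zero (by simp [add_right_cancel h2])
    exact (sub_eq_zero.1 ((smul_eq_zero.1 this).resolve_left (by simp))).symm)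
  have ct : ∀ (P : Lam → Prop) c, c * {v | sqNorm (cf v) = 32 ∧ P v}.ncard ≤
      ∑ u with u ∈ Q, if u ∈ {x | ∃ v, sqNorm (cf v) = 32 ∧ P v ∧ R x v} then c else 0 := fun P c =>
    (Nat.mul_le_mul_left _ (cnt M (by decide) P)).trans (sum_ind (by exact fun x ⟨_, _, _, b⟩ => M.mem b) c).ge
  have l0 := sum_ind (X := (zpowers z : Set G)) E.zp_le (rk (pj ρ Q 1))
  have lb := (add_le_add (add_le_add l0.ge
    (ct (fun _ => True) (rk (pj ρ Q t)))) ((Nat.mul_le_mul_left _ cnt_odd).trans (ct _ (2 * rk (pj ρ Q t))))).trans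
    (show _ ≤ 2 * finrank ℂ V by
      rw [← sum_add_distrib, ← sum_add_distrib, ← key]
      refine sum_le_sum fun u hu => ?_
      by_cases k : u ∈ (zpowers z : Set G)
      · have n : ∀ v, R u v → sqNorm (cf v) ≠ 32 := fun v a b => nz_of b (by decide) ((M.rk a).1 k)
        rw [if_pos k, if_neg fun ⟨v, b, _, a⟩ => n v a b, if_neg fun ⟨v, b, _, a⟩ => n v a b, if_pos (E.zp_comm k L.tQ),
          ← one_mul u, pj_mul (mem_cent.2 fun _ m => E.zp_comm k m)]
        omega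
      rw [if_neg k]
      split_ifs with k1 k2 k3 k3 k2 k3 k3 <;> try omega
      all_goals first
        | obtain ⟨v, b, c, a⟩ := k2; exact absurd ((M.comm_iff L a r).1 k3.symm) c
        | obtain ⟨v, b, c, a⟩ := k2; exact absurd ⟨v, b, trivial, a⟩ k1
        | obtain ⟨v, b, c, a⟩ := k1; rw [t2 a b]; omega)
  simp only [and_true] at lb
  erw [lat_ncard32, show (zpowers z : Set G).ncard = 2 from E.card_zp] at lb
  exact ⟨by omega, fun u hu c => let ⟨_, a, b⟩ := of_a2 M L hu c; (t2 a b).trans (by omega), cl⟩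

omit L r in
theorem fixU (a : R t lU) (h1 : rk (pj ρ Q t) = 1) (hh : h ∈ C[z] ⊓ C[t]) : ρ h * pj ρ Q t = pj ρ Q t := by
  have m := mu_of M.le.es le_rfl (M.mem a)
  have c : ∀ h ∈ C[z] ⊓ C[t], ∃ α : ℂ, ρ h * pj ρ Q t = α • pj ρ Q t := fun h hh => rk_one h1 (by
    rw [pj_cj, cj_of_mem_norm (M.le.norm hh.1), mem_cent1.1 hh.2, mul_inv_cancel_right])
  let F : Subgroup G :=
    { carrier := {h | ρ h * pj ρ Q t = pj ρ Q t}
      one_mem' := by simp
      mul_mem' := fun a b => by rw [Set.mem_ofPred_eq, map_mul, mul_assoc, b, a]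
      inv_mem' := fun a => by
        rw [Set.mem_ofPred_eq, ← a, ← mul_assoc, ← map_mul, inv_mul_cancel, map_one, one_mul]; exact a.symm }
  refine (sup_le (commutator_le.2 fun x hx y hy => ?_) fun x hx => ?_ : _ ≤ F) (perf M a hh)
  · obtain ⟨α, e1⟩ := c x hx
    obtain ⟨β, e2⟩ := c y hy
    obtain ⟨γ, e3⟩ := c _ (inv_mem (mul_mem hy hx))
    have := congrArg (ρ (y * x) * ·) e3
    simp only [← mul_assoc, ← map_mul, mul_inv_cancel, map_one, one_mul] at this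
    change ρ _ * _ = _
    rw [show ⁅x, y⁆ = x * y * (y * x)⁻¹ by group, map_mul, mul_assoc, e3]
    refine Eq.trans ?_ this.symm
    simp only [map_mul, mul_assoc, mul_smul_comm, e1, e2, smul_smul, mul_comm α]
  · exact (m.l hx.1).trans (by rw [lm_pos (mem_cent1.1 hx.2), one_smul])

def Sm (ρ : G →* End ℂ V) (Q : Subgroup G) (z : G) : Prop := rk (pj ρ Q 1) ≤ 298 ∧
  (∀ u ∈ Q, A2 z u → rk (pj ρ Q u) = 1 ∧ ∀ h ∈ C[z] ⊓ C[u], ρ h * pj ρ Q u = pj ρ Q u) ∧
    ∀ u ∈ Q, pj ρ Q u = 0 ∨ u ∈ zpowers z ∨ A2 z u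

omit r in
theorem sm (hz : ρ z ≠ 1) (hn : finrank ℂ V < 196883) : Sm ρ Q z := by
  obtain ⟨k, r⟩ := M.typ4 L
  obtain ⟨a, b, c⟩ := num (M.twist k) L r hz hn
  refine ⟨a, fun u hu m => ⟨b u hu m, fun h hh => ?_⟩, c⟩
  obtain ⟨k, r⟩ := M.typ2 L hu (orderOf_inv2 m.2.1 m.1) m.2.2
  exact fixU (M.twist k) r (b u hu m) hh

omit M r in
theorem wt (S' : Sm ρ Q' s) (hc : 2 * #(Q' ⊓ C[z]) = #Q') (hu : u ∈ Q') (ct : u ∈ C(Q ⊓ Q') → u ∈ Q)
    (hp : ∀ y ∈ Q ⊓ Q', ρ y * a = a) :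
    pj ρ (Q' ⊓ C[z]) u * a = 0 ∨ u ∈ zpowers z ⊔ zpowers s ∨ u ∈ Q ⊓ Q' ∧ A2 s u := by
  by_cases c : u ∈ C(Q ⊓ Q')
  · rw [pj_split L.r.es L.zQ hc hu]
    by_cases n : u ∈ zpowers z ⊔ zpowers s
    · exact .inr (.inl n)
    obtain ⟨x, -, e⟩ := L.l.es.exists_conj (ct c) fun k => n (mem_sup_left k)
    rcases S'.2.2 u hu with k | k | k
    · rcases S'.2.2 _ (mul_mem hu L.zQ) with k' | k' | k'
      · simp [k, k']
      · exact absurd (by simpa using mul_mem (mem_sup_right k') (inv_mem (mem_sup_left (mem_zpowers z)))) n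
      · exact .inr (.inr ⟨⟨ct c, hu⟩, k'.conj (isConj_iff.2 ⟨x, e⟩).symm⟩)
    exacts [absurd (mem_sup_right k) n, .inr (.inr ⟨⟨ct c, hu⟩, k⟩)]
  · obtain ⟨y, hy, n⟩ : ∃ y ∈ Q ⊓ Q', y * u ≠ u * y := by by_contra! H; exact c (mem_cent.2 H)
    exact .inl ((mu_of L.r.es inf_le_left hu).kill ⟨hy.2, L.l.es.le_cent hy.1⟩ (by simp [hp y hy, lm_neg n]))

end H1.RB
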