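import Cfsg.Agent.H1.RB1
import Cfsg.Agent.H1.RB4
import Cfsg.Agent.H15.Co1Inv

/-! A group of Monster type has no complex representation of degree below `196883` that is faithful on `z`. -/

set_option autoImplicit false
set_option linter.unusedSectionVars false

namespace H1.RB
open Cfsg H15 H19 H0 H0.Mo H0.Mo.MT H0.Y Finset Module LinearMap
open Subgroup hiding mem_top
open scoped Classical commutatorElement

variable {G V : Type*} [Group G] [Fintype G] [AddCommGroup V] [Module ℂ V] [FiniteDimensional ℂ V] {ρ : G →* End ℂ V}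
  {Q Q' K : Subgroup G} {z s u w x y h : G} {f : C[z] →* Spor.Co1} {R : G → Lam → Prop} {a b c q : End ℂ V}
  {i j k l : GolayPt} {σ : M24}

theorem tri (q0 : IsIdempotentElem q) (a2 : a * q = q * a) (b2 : b * q = q * b) (c2 : c * q = q * c)
    (ha : IsIdempotentElem a ∧ a * q ≠ 0) (hb : IsIdempotentElem b ∧ b * q ≠ 0) (hc : IsIdempotentElem c ∧ c * q ≠ 0)
    (o : a * b = 0 ∧ b * a = 0 ∧ a * c = 0 ∧ c * a = 0 ∧ b * c = 0 ∧ c * b = 0) : 3 ≤ rk q := by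
  obtain ⟨⟨a1, a3⟩, ⟨b1, b3⟩, c1, c3⟩ := And.intro ha (And.intro hb hc)
  have := tr_rk (((show IsIdempotentElem (a + b + c) by
    simp [IsIdempotentElem, mul_add, add_mul, o, a1.eq, b1.eq, c1.eq]).one_sub).mul_of_commute
      ((Commute.one_left q).sub_left ((show Commute a q from a2).add_left b2 |>.add_left c2)) q0)
  simp only [sub_mul, add_mul, one_mul, map_sub, map_add, tr_rk q0, tr_rk (a1.mul_of_commute a2 q0),
    tr_rk (b1.mul_of_commute b2 q0), tr_rk (c1.mul_of_commute c2 q0), sub_eq_iff_eq_add] at this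
  norm_cast at this
  have := mt rk_zero a3; have := mt rk_zero b3; have := mt rk_zero c3
  omega

noncomputable def U (M : MT Q z f R) (i j : GolayPt) : G := (M.sur (vv i j)).choose
def DD : Finset (ℕ × ℕ) := (range 24 ×ˢ range 24).filter fun p => p.1 < p.2
theorem DD_ne {p : ℕ × ℕ} (h : p ∈ DD) : p.1 < 24 ∧ p.2 < 24 ∧ p.1 < p.2 ∧ pt p.1 ≠ pt p.2 := by
  simp only [DD, mem_filter, mem_product, mem_range] at h
  exact ⟨h.1.1, h.1.2, h.2, mt (pt_eq_iff h.1.1 h.1.2).1 h.2.ne⟩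

variable (M : MT Q z f R) (L : LP Q z Q' s) (r : R s lE) (S : Sm ρ Q z) (S' : Sm ρ Q' s)
include M

theorem rU (i j : GolayPt) : R (U M i j) (vv i j) := (M.sur _).choose_spec
theorem U_comm : U M i j = U M j i := congrArg (fun v => (M.sur v).choose) vv_comm

theorem cjU (hK : h ∈ N(K)) (hz : K ≤ C[z]) (e : A f h (prmH σ)) :
    ρ h * pj ρ K (U M i j) = pj ρ K (U M (σ.1 i) (σ.1 j)) * ρ h := by
  rw [pj_cj, cj_of_mem_norm hK]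
  rcases (M.uniq (rU M _ _) (prm_vv σ ▸ M.act e (rU M i j))).1 (.refl _) with e | e <;> rw [e]
  rw [pj_mul (le_cent1_iff.1 hz)]

theorem cE (hh : h ∈ C[z]) : ρ h * pj ρ Q 1 = pj ρ Q 1 * ρ h := by
  rw [pj_cj, cj_of_mem_norm (M.le.norm hh), mul_one, mul_inv_cancel]
theorem qE (hx : x ∈ Q) : ρ x * pj ρ Q 1 = pj ρ Q 1 := by
  rw [(mu_of M.le.es le_rfl (one_mem _)).l hx, lm_pos (by simp), one_smul]
theorem same {g : Co0} (e : A f h g) (e' : A f x g) : ρ x * pj ρ Q 1 = ρ h * pj ρ Q 1 := by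
  rw [← mul_inv_cancel_left h x, map_mul, mul_assoc, qE M ((M.aker (e.inv.mul e')).2 (by simp [one_mem]))]
theorem cF : pj ρ (Q' ⊓ C[z]) u * pj ρ Q 1 = pj ρ Q 1 * pj ρ (Q' ⊓ C[z]) u := pj_cm fun _ m => cE M m.2

include L r

theorem lf (σ : M24) : ∃ h ∈ C[z] ⊓ C[s], A f h (prmH σ) :=
  let ⟨h, a, b⟩ := mem_img.1 ((M.img_NN L r).ge (prmH_mem σ)); ⟨h, ⟨b.1, a⟩, b⟩

theorem nV (n : i ≠ j) : U M i j ∉ zpowers z ⊔ zpowers s := fun e => by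
  rcases (v4 M L r (rU M i j)).1 e with e | e
  · exact nz_of (vv_norm n) (by decide) e
  · have : sqNorm (cf lE) = 64 := norm_e8 (pt 23)
    rcases e.symm.short this.le (by rw [vv_norm n]; decide) with e | e <;> rw [e] at this
    · exact absurd ((vv_norm n).symm.trans this) (by decide)
    · exact absurd (((sqNorm_neg _).trans (vv_norm n)).symm.trans this) (by decide)

theorem ortU {Q₀ : Subgroup G} (E : ES Q₀ x) (h0 : Q ⊓ Q' ≤ Q₀) (H : Q₀ ⊓ C(Q₀ ⊓ K) = zpowers z ⊔ zpowers s) (n : i ≠ j)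
    (n' : k ≠ l) (e : ¬ (i = k ∧ j = l ∨ i = l ∧ j = k)) : pj ρ (Q₀ ⊓ K) (U M i j) * pj ρ (Q₀ ⊓ K) (U M k l) = 0 :=
  have a := h0 (u_mem M L r n (rU M i j)).1
  have b := h0 (u_mem M L r n' (rU M k l)).1
  pj_orth E inf_le_left a b fun c => e (vv_inj n n' ((v4 M L r (M.mul (rU M i j) (rU M k l))).1 (H.le ⟨mul_mem a b, c⟩)))

theorem wtU (H : zpowers z ⊔ zpowers s ≤ C(K)) (e : u ∈ zpowers z ⊔ zpowers s ∨ u ∈ Q ⊓ Q' ∧ A2 z u) :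
    pj ρ K u = pj ρ K 1 ∨ ∃ i j, i ≠ j ∧ pj ρ K u = pj ρ K (U M i j) := by
  refine e.imp (fun e => by rw [← one_mul u, pj_mul (H e)]) fun e => ?_
  obtain ⟨i, j, n, H'⟩ := cls M L r e.1 e.2
  exact ⟨i, j, n, by rw [← pj_mul (H (H' _ (rU M i j))), ← mul_assoc, e.2.1, one_mul]⟩

theorem cu (hh : h ∈ C[z] ⊓ C[s]) (e : A f h (prmH σ)) (e1 : σ.1 i = i) (e2 : σ.1 j = j) :
    ρ h * pj ρ (Q' ⊓ C[z]) (U M i j) = pj ρ (Q' ⊓ C[z]) (U M i j) * ρ h := by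
  rw [cjU M (L.symm.cent_norm_P ⟨hh.2, hh.1⟩) inf_le_right e, e1, e2]
theorem cx (x : G) (m : x ∈ Q ⊓ C[s]) : ρ x * pj ρ (Q' ⊓ C[z]) (U M i j) = pj ρ (Q' ⊓ C[z]) (U M i j) * ρ x :=
  cu M L r (σ := 1) ⟨M.le.es.le_cent m.1, m.2⟩ (map_one prmH ▸ M.aQ m.1) rfl rfl

omit M L r in
theorem ex3 (n : k ≠ l) (k0 : k ≠ pt 0) (k1 : k ≠ pt 1) : ∃ m, ∀ x ∈ [pt 2, pt 3, pt 4], x ≠ m ∧
    ∃ σ ∈ M24, σ (pt 0) = pt 0 ∧ σ (pt 1) = pt 1 ∧ σ k = x ∧ σ l = m := by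
  have d : ∀ x ∈ [pt 2, pt 3, pt 4], pt 0 ≠ x ∧ pt 1 ≠ x ∧ x ≠ pt 5 := by decide
  by_cases c : l = pt 0 ∨ l = pt 1
  · refine ⟨l, fun x hx => ⟨c.elim (· ▸ (d x hx).1.symm) (· ▸ (d x hx).2.1.symm), ?_⟩⟩
    obtain ⟨σ, m, e0, e1, e2⟩ := m24_trans3 (show pt 0 ≠ pt 1 by decide) k0.symm k1.symm (a' := pt 0) (b' := pt 1) (c' := x)
      (by decide) (d x hx).1 (d x hx).2.1
    exact ⟨σ, m, e0, e1, e2, by rcases c with rfl | rfl <;> assumption⟩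
  · exact ⟨pt 5, fun x hx => ⟨(d x hx).2.2, m24_trans4 (by decide) k0.symm (fun e => c (.inl e.symm)) k1.symm
      (fun e => c (.inr e.symm)) n (by decide) (d x hx).1 (by decide) (d x hx).2.1 (by decide) (d x hx).2.2⟩⟩

theorem nz3 (n : k ≠ l) (e : pj ρ (Q ⊓ C[s]) (U M k l) * pj ρ (Q' ⊓ C[z]) (U M (pt 0) (pt 1)) ≠ 0) (k0 : k ≠ pt 0)
    (k1 : k ≠ pt 1) : 3 ≤ rk (pj ρ (Q' ⊓ C[z]) (U M (pt 0) (pt 1))) := by
  have E := M.le.es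
  obtain ⟨m, H⟩ := ex3 n k0 k1
  have o : ∀ x ∈ [pt 2, pt 3, pt 4], ∀ y ∈ [pt 2, pt 3, pt 4], x ≠ y →
      pj ρ (Q ⊓ C[s]) (U M x m) * pj ρ (Q ⊓ C[s]) (U M y m) = 0 := fun x hx y hy n =>
    ortU M L r E inf_le_left (E.cent_four L.tQ) (H x hx).1 (H y hy).1 fun c => c.elim (n ·.1) ((H x hx).1 ·.1)
  have t : ∀ x ∈ [pt 2, pt 3, pt 4], IsIdempotentElem (pj ρ (Q ⊓ C[s]) (U M x m)) ∧
      pj ρ (Q ⊓ C[s]) (U M x m) * pj ρ (Q' ⊓ C[z]) (U M (pt 0) (pt 1)) ≠ 0 := fun x hx => by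
    obtain ⟨n, σ, m, e0, e1, rfl, rfl⟩ := H x hx
    obtain ⟨h, hh, b⟩ := lf M L r ⟨σ, m⟩
    refine ⟨(mu_of E inf_le_left (M.mem (rU M _ _))).idem, fun c => e ?_⟩
    rw [← one_mul (_ * _), ← map_one ρ, ← inv_mul_cancel h, map_mul, mul_assoc, ← mul_assoc (ρ h),
      cjU M (L.cent_norm_P hh) (inf_le_left.trans E.le_cent) b, mul_assoc, cu M L r hh b e0 e1, ← mul_assoc _ _ (ρ h), c]
    simp
  have m2 : pt 2 ∈ [pt 2, pt 3, pt 4] := .head _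
  have m3 : pt 3 ∈ [pt 2, pt 3, pt 4] := .tail _ (.head _)
  have m4 : pt 4 ∈ [pt 2, pt 3, pt 4] := .tail _ (.tail _ (.head _))
  have d : pt 2 ≠ pt 3 ∧ pt 2 ≠ pt 4 ∧ pt 3 ≠ pt 4 := by decide
  exact tri (mu_of L.r.es inf_le_left (u_mem M L r (by decide) (rU M _ _)).1.2).idem (pj_cm (cx M L r)) (pj_cm (cx M L r))
    (pj_cm (cx M L r)) (t _ m2) (t _ m3) (t _ m4)
    ⟨o _ m2 _ m3 d.1, o _ m3 _ m2 d.1.symm, o _ m2 _ m4 d.2.1, o _ m4 _ m2 d.2.1.symm, o _ m3 _ m4 d.2.2, o _ m4 _ m3 d.2.2.symm⟩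

omit r in
theorem r2 (S' : Sm ρ Q' s) (hu : u ∈ Q ⊓ Q') (a2 : A2 z u) : rk (pj ρ (Q' ⊓ C[z]) u) = 2 := by
  have E := M.le.es
  have E' := L.r.es
  have zs : IsConj z s := isConj_iff.2 ⟨_, L.conj.choose_spec.1⟩
  have hz := mul_mem hu.2 L.zQ
  obtain ⟨x, -, ex⟩ := E.exists_conj hu.1 fun e => (E.mem_zp.1 e).elim a2.2.1 fun e => a2.2.2 (e ▸ .refl _)
  refine Nat.cast_injective (R := ℂ) ?_
  rw [← tr_rk (mu_of E' inf_le_left hu.2).idem, pj_split E' L.zQ L.symm.card_P hu.2, map_add,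
    tr_rk (mu_of E' le_rfl hu.2).idem, tr_rk (mu_of E' le_rfl hz).idem, (S'.2.1 u hu.2 (a2.base zs)).1,
    (S'.2.1 _ hz (ex ▸ (a2.base zs).cj x)).1]
  norm_num

omit r in
theorem gu (hu : u ∈ Q ⊓ Q') (a2 : u * u = 1) (cx : ∀ x ∈ Q ⊓ C[s], ρ x * pj ρ (Q' ⊓ C[z]) u = pj ρ (Q' ⊓ C[z]) u * ρ x)
    (g1 : pj ρ (Q ⊓ C[s]) 1 * pj ρ (Q' ⊓ C[z]) u = 0) : pj ρ (Q ⊓ C[s]) u * pj ρ (Q' ⊓ C[z]) u = 0 := by
  have E := M.le.es
  have E' := L.r.es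
  have hz := mul_mem hu.2 L.zQ
  have sp := pj_split (ρ := ρ) E' L.zQ L.symm.card_P hu.2
  have i1 := (mu_of E' le_rfl hu.2).idem (ρ := ρ)
  have i2 := (mu_of E' le_rfl hz).idem (ρ := ρ)
  have iF := (mu_of E' inf_le_left hu.2).idem (ρ := ρ) (S := Q' ⊓ C[z])
  have n : z ∉ C(Q') := L.r.cent_eq ▸ L.symm.notMem
  have o1 := pj_orth (ρ := ρ) E' le_rfl hu.2 hz (by rwa [← mul_assoc, a2, one_mul])
  have o2 := pj_orth (ρ := ρ) E' le_rfl hz hu.2 (by rwa [E.cent u hu.1, mul_assoc, a2, mul_one])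
  have J : ∀ x ∈ Q ⊓ C[s], ρ x * (pj ρ Q' u - pj ρ Q' (u * z)) = lm u x • ((pj ρ Q' u - pj ρ Q' (u * z)) * ρ x) :=
    fun x m => by
      rw [mul_sub, pj_cj, pj_cj, cj_of_mem_norm (L.r.norm m.2), ← conj_mul, E.cent x m.1, mul_inv_cancel_right, ← sub_mul]
      by_cases c : x * u = u * x
      · rw [lm_pos c, c, mul_inv_cancel_right, one_smul]
      · rw [lm_neg c, E.conj_eq m.1 hu.1 c, mul_assoc, E.zz, mul_one, neg_one_smul, ← neg_mul, neg_sub]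
  have e1 : pj ρ (Q' ⊓ C[z]) u * (pj ρ Q' u - pj ρ Q' (u * z)) = pj ρ Q' u - pj ρ Q' (u * z) := by
    rw [sp, mul_sub, add_mul, add_mul, o1, o2, i1.eq, i2.eq, add_zero, zero_add]
  have e2 : (pj ρ Q' u - pj ρ Q' (u * z)) * (pj ρ Q' u - pj ρ Q' (u * z)) = pj ρ (Q' ⊓ C[z]) u := by
    rw [sp, mul_sub, sub_mul, sub_mul, o1, o2, i1.eq, i2.eq, sub_zero, zero_sub, sub_neg_eq_add]
  generalize pj ρ Q' u - pj ρ Q' (u * z) = D at *
  have q := pj_l (ρ := ρ) (S := Q ⊓ C[s]) (u := 1) (p := D * (pj ρ (Q ⊓ C[s]) u * pj ρ (Q' ⊓ C[z]) u)) fun x m => by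
    rw [← mul_assoc, J x m, smul_mul_assoc, mul_assoc, ← mul_assoc (ρ x), (mu_of E inf_le_left hu.1).l m,
      smul_mul_assoc, mul_smul_comm, smul_smul, lm_sq, lm_pos (by simp)]
  have c := pj_cm (u := u) cx
  generalize pj ρ (Q ⊓ C[s]) u = a at *
  generalize pj ρ (Q ⊓ C[s]) 1 = b at *
  generalize pj ρ (Q' ⊓ C[z]) u = F at *
  have : D * (a * F) = 0 := by rw [← q, ← e1, ← mul_assoc, ← mul_assoc, ← mul_assoc, g1]; simp
  rw [← iF.eq, ← mul_assoc, c, mul_assoc, ← congrArg (· * (a * F)) e2, mul_assoc, this, mul_zero]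

include S S'

theorem rpos : pj ρ (Q' ⊓ C[z]) (U M (pt 0) (pt 1)) * pj ρ Q 1 ≠ 0 := fun h0 => by
  have E := M.le.es
  have E' := L.r.es
  have zs : IsConj z s := isConj_iff.2 ⟨_, L.conj.choose_spec.1⟩
  obtain ⟨hu, a2⟩ := u_mem M L r (show pt 0 ≠ pt 1 by decide) (rU M _ _)
  have nz := fun {k l} => nz3 (ρ := ρ) (k := k) (l := l) M L r
  have U1 : U M (pt 1) (pt 0) = U M (pt 0) (pt 1) := U_comm M
  have r2 := r2 M L S' hu a2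
  have g1 : pj ρ (Q ⊓ C[s]) 1 * pj ρ (Q' ⊓ C[z]) (U M (pt 0) (pt 1)) = 0 := by
    rw [pj_split E L.tQ L.card_P (one_mem _), one_mul,
      ((S.2.2 s L.tQ).resolve_right fun c => c.elim L.notMem fun c => c.2.2 zs), add_zero, ← cF M, h0]
  have gu := gu M L hu a2.1 (cx M L r) g1
  obtain ⟨w, hw, n⟩ : ∃ w ∈ Q, pj ρ (Q ⊓ C[s]) w * pj ρ (Q' ⊓ C[z]) (U M (pt 0) (pt 1)) ≠ 0 := by
    by_contra! H
    rw [pj_all E inf_le_left ⟨E.zQ, mem_cent1.2 L.comm⟩ (by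
      rw [(mu_of E' inf_le_left hu.2).l ⟨L.zQ, mem_cent1_self z⟩, lm_pos (E.cent _ hu.1).symm, one_smul]) H, rk0] at r2
    omega
  have W := wt (a := pj ρ (Q' ⊓ C[z]) (U M (pt 0) (pt 1))) L.symm S L.card_P hw
    (fun c => ctr' M L hw (inf_comm Q Q' ▸ c)) fun y m => by
      rw [(mu_of E' inf_le_left hu.2).l ⟨m.1, E.le_cent m.2⟩, lm_pos (mul_comm_of_comm L.abelem_E.1 ⟨m.2, m.1⟩ hu),
        one_smul]
  rcases wtU (ρ := ρ) M L r ((E.cent_four L.tQ).ge.trans inf_le_right) ((W.resolve_left n).imp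
    (fun c => by rwa [sup_comm]) fun c => ⟨⟨c.1.2, c.1.1⟩, c.2⟩) with e | ⟨k, l, m, e⟩
  · exact n (e ▸ g1)
  rw [e] at n
  by_cases c : k = pt 0 ∨ k = pt 1
  · have := nz m.symm (U_comm M ▸ n) (by rintro rfl; rw [c.resolve_left m, U1] at n; exact n gu)
      (by rintro rfl; rw [c.resolve_right m] at n; exact n gu)
    omega
  · have := nz m n (fun e => c (.inl e)) fun e => c (.inr e)
    omega

end H1.RB
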