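import Cfsg.Agent.H1.RB5

/-! The degree bound `196883`. -/

set_option autoImplicit false
set_option linter.unusedSectionVars false

namespace H1.RB
open Cfsg H15 H19 H0 H0.Mo H0.Mo.MT H0.Y Finset Module LinearMap
open Subgroup hiding mem_top
open scoped Classical

variable {G V : Type*} [Group G] [Fintype G] [AddCommGroup V] [Module ℂ V] [FiniteDimensional ℂ V] {ρ : G →* End ℂ V}
  {Q Q' : Subgroup G} {z s u x h : G} {f : C[z] →* Spor.Co1} {R : G → Lam → Prop} {i j : GolayPt} {σ : M24}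

noncomputable def T (ρ : G →* End ℂ V) (Q Q' : Subgroup G) (z u : G) : End ℂ V := pj ρ (Q' ⊓ C[z]) u * pj ρ Q 1

theorem sumD {t : ℕ × ℕ → ℂ} {c : ℂ} (g : ℕ × ℕ → ℤ) {n : ℤ} (e : ∑ p ∈ DD, g p = n) (h : ∀ p ∈ DD, t p = g p * c) :
    ∑ p ∈ DD, t p = n * c := by
  rw [sum_congr rfl h, ← sum_mul, ← e, Int.cast_sum]

theorem cjT1 (hc : S 8536111 ∈ cw) : ∃ k : Co0, pc1 (k * sgn hc * k⁻¹) = pc1 (prmH (el cT1)) := by
  have e : Co1I.h 4 = prmH (el cT1) := by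
    rw [Co1I.mo1 Co1I.k3.2.2.2.1, S_zero, mo_eq (isM_mem isM_T1) cw_empty,
      el_eq (σ := ⟨_, isM_mem isM_T1⟩) (isM_rep isM_T1)]; rfl
  have a := Co1I.tO
  have b := Co1I.cw0 Co1I.k4.2.1
  rw [mo_eq (one_mem _) hc] at a
  refine ⟨(Co1I.h 9)⁻¹ * Co1I.h 8, ?_⟩
  rw [← e, ← inv_mul_cancel_left (pc1 (Co1I.h 9)) (pc1 (Co1I.h 4)), b, map_mul, map_mul, map_inv, map_mul, map_inv,
    mul_assoc _ (pc1 (Co1I.h 8)), sgn, a]
  group

variable (M : MT Q z f R) (L : LP Q z Q' s) (r : R s lE) (S : Sm ρ Q z) (S' : Sm ρ Q' s)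
include M

theorem exD (n : i ≠ j) : ∃ p ∈ DD, U M i j = U M (pt p.1) (pt p.2) := by
  rcases lt_or_gt_of_ne (mt ix_inj n) with e | e
  · exact ⟨(ix i, ix j), by simp [DD, ix_lt, e], by rw [pt_ix, pt_ix]⟩
  · exact ⟨(ix j, ix i), by simp [DD, ix_lt, e], by rw [pt_ix, pt_ix, U_comm]⟩
theorem sameT {g : Co0} (e : A f h g) (e' : A f x g) : ρ x * T ρ Q Q' z u = ρ h * T ρ Q Q' z u := by
  rw [T, cF M, ← mul_assoc, same M e e', mul_assoc]

include L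

theorem iT (hu : u ∈ Q') : IsIdempotentElem (T ρ Q Q' z u) :=
  (mu_of L.r.es inf_le_left hu).idem.mul_of_commute (cF M) (mu_of M.le.es le_rfl (one_mem _)).idem
theorem c4 : Q' ⊓ C(Q' ⊓ C[z]) = zpowers z ⊔ zpowers s := (L.r.es.cent_four L.zQ).trans (sup_comm _ _)
theorem cT (hh : h ∈ C[z] ⊓ C[s]) : ρ h * T ρ Q Q' z 1 = T ρ Q Q' z 1 * ρ h := by
  rw [T, ← mul_assoc, pj_cj, cj_of_mem_norm (L.symm.cent_norm_P ⟨hh.2, hh.1⟩), mul_one, mul_inv_cancel, mul_assoc,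
    cE M hh.1, mul_assoc]
theorem cjT (hh : h ∈ C[z] ⊓ C[s]) (e : A f h (prmH σ)) :
    ρ h * T ρ Q Q' z (U M i j) = T ρ Q Q' z (U M (σ.1 i) (σ.1 j)) * ρ h := by
  rw [T, ← mul_assoc, cjU M (L.symm.cent_norm_P ⟨hh.2, hh.1⟩) inf_le_right e, mul_assoc, cE M hh.1, T, mul_assoc]

include r

theorem uQ (n : i ≠ j) : U M i j ∈ Q' := (u_mem M L r n (rU M i j)).1.2

theorem trT (n : i ≠ j) : trace ℂ V (T ρ Q Q' z (U M i j)) = rk (T ρ Q Q' z (U M (pt 0) (pt 1))) := by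
  obtain ⟨σ, m, rfl, rfl⟩ := m24_trans2 (show pt 0 ≠ pt 1 by decide) n
  obtain ⟨h, hh, e⟩ := lf M L r ⟨σ, m⟩
  exact (tr_cj (cjT M L hh e)).symm.trans (tr_rk (iT M L (uQ M L r (by decide))))

theorem movT (hh : h ∈ C[z] ⊓ C[s]) (e : A f h (prmH σ)) (n : i ≠ j)
    (c : ¬ (i = σ.1 i ∧ j = σ.1 j ∨ i = σ.1 j ∧ j = σ.1 i)) : trace ℂ V (ρ h * T ρ Q Q' z (U M i j)) = 0 := by
  rw [← (iT M L (uQ M L r n)).eq, ← mul_assoc, cjT M L hh e, mul_assoc, trace_mul_comm, mul_assoc, T, T, mul_assoc,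
    ← mul_assoc (pj ρ Q 1), ← cF M, ← mul_assoc (pj ρ _ _), ← mul_assoc (pj ρ _ _),
    ortU M L r L.r.es inf_le_right (c4 M L) n (σ.1.injective.ne n) c]
  simp

include S'

theorem fixT (hh : h ∈ C[z] ⊓ C[s]) (e : A f h (prmH σ)) (n : i ≠ j) (c : vv (σ.1 i) (σ.1 j) = vv i j) :
    ρ h * T ρ Q Q' z (U M i j) = T ρ Q Q' z (U M i j) := by
  have E := M.le.es
  have zs : IsConj z s := isConj_iff.2 ⟨_, L.conj.choose_spec.1⟩
  obtain ⟨hu, a2⟩ := u_mem M L r n (rU M i j)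
  obtain ⟨x, hx, m⟩ : ∃ x ∈ Q ⊓ C[s], x * U M i j ≠ U M i j * x := by
    by_contra! H; exact nV M L r n ((E.cent_four L.tQ).le ⟨hu.1, mem_cent.2 H⟩)
  have ex := E.conj_eq hx.1 hu.1 m
  have k : ∀ h ∈ C[z] ⊓ C[s], h * U M i j * h⁻¹ = U M i j →
      ρ h * pj ρ (Q' ⊓ C[z]) (U M i j) = pj ρ (Q' ⊓ C[z]) (U M i j) := fun h hh e => by
    have c := mul_inv_eq_iff_eq_mul.1 e
    rw [pj_split L.r.es L.zQ L.symm.card_P hu.2, mul_add, (S'.2.1 _ hu.2 (a2.base zs)).2 h ⟨hh.2, mem_cent1.2 c⟩,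
      (S'.2.1 _ (mul_mem hu.2 L.zQ) (ex ▸ (a2.base zs).cj x)).2 h ⟨hh.2, mem_cent1.2 (by
        rw [← mul_assoc, c, mul_assoc, mem_cent1.1 hh.1, mul_assoc])⟩]
  have a := M.act e (rU M i j)
  rw [prm_vv, c] at a
  rcases (M.uniq (rU M i j) a).1 (.refl _) with e' | e'
  · rw [T, ← mul_assoc, k h hh e']
  · have := congrArg (· * pj ρ Q 1) (k (h * x) (mul_mem hh ⟨E.le_cent hx.1, hx.2⟩) (by
      rw [mul_inv_rev, ← mul_assoc, mul_assoc h x, mul_assoc h, ex, ← conj_mul, e', mem_cent1.1 hh.1,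
        mul_inv_cancel_right, mul_assoc, E.zz, mul_one]))
    rwa [map_mul, mul_assoc (ρ h), cx M L r x hx, mul_assoc, mul_assoc, qE M hx.1] at this

theorem dec (g : End ℂ V) : trace ℂ V (g * pj ρ Q 1) =
    trace ℂ V (g * T ρ Q Q' z 1) + ∑ p ∈ DD, trace ℂ V (g * T ρ Q Q' z (U M (pt p.1) (pt p.2))) := by
  have E' := L.r.es
  have o1 : ∀ p ∈ DD, U M (pt p.1) (pt p.2) ∉ C(Q' ⊓ C[z]) := fun p hp c =>
    nV M L r (DD_ne hp).2.2.2 ((c4 M L).le ⟨uQ M L r (DD_ne hp).2.2.2, c⟩)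
  have := pj_all (ρ := ρ) E' inf_le_left ⟨E'.zQ, mem_cent1.2 L.comm.symm⟩ (p := pj ρ Q 1 * (1 - pj ρ (Q' ⊓ C[z]) 1 -
      ∑ p ∈ DD, pj ρ (Q' ⊓ C[z]) (U M (pt p.1) (pt p.2)))) (by rw [← mul_assoc, qE M L.tQ]) fun u hu => by
    rcases wt L S' L.symm.card_P hu (ctr M L r hu) (a := pj ρ Q 1) (fun y m => qE M m.1) with e | e
    · rw [← mul_assoc, e, zero_mul]
    rw [← mul_assoc, cF M, mul_assoc, mul_sub (pj ρ _ u), mul_sub (pj ρ _ u), mul_one, mul_sum]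
    rcases wtU (ρ := ρ) M L r ((c4 M L).ge.trans inf_le_right) (e.imp_right fun c =>
      ⟨c.1, c.2.base (isConj_iff.2 ⟨_, L.symm.conj.choose_spec.1⟩)⟩) with e | ⟨i, j, n, e⟩
    · rw [e, (mu_of E' inf_le_left (one_mem _)).idem.eq, sum_eq_zero fun p hp => pj_orth E' inf_le_left (one_mem _)
        (uQ M L r (DD_ne hp).2.2.2) (by rw [one_mul]; exact o1 p hp)]
      simp
    · obtain ⟨p, hp, e'⟩ := exD M n
      have d := DD_ne hp
      rw [e, e', pj_orth E' inf_le_left (uQ M L r d.2.2.2) (one_mem _) (by rw [mul_one]; exact o1 p hp),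
        sum_eq_single_of_mem p hp fun q hq n => have d' := DD_ne hq
          ortU M L r E' inf_le_right (c4 M L) d.2.2.2 d'.2.2.2 (by
            rw [pt_eq_iff d.1 d'.1, pt_eq_iff d.2.1 d'.2.1, pt_eq_iff d.1 d'.2.1, pt_eq_iff d.2.1 d'.1]
            exact fun c => c.elim (fun c => n (Prod.ext c.1 c.2).symm) (by omega)),
        (mu_of E' inf_le_left (uQ M L r d.2.2.2)).idem.eq]
      simp
  generalize DD = D at this ⊢
  rw [mul_sub, mul_sub, mul_one, mul_sum, sub_sub, sub_eq_zero] at this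
  rw [← map_sum, ← map_add, ← mul_sum, ← mul_add]
  exact congrArg (fun x => trace ℂ V (g * x)) (this.trans (by simp only [T, cF M]))

include S

theorem core : False := by
  choose l l1 l2 using lf M L r
  have hc : H15.S 8536111 ∈ cw := S_mem_cw (by decide +kernel)
  obtain ⟨y, hy, ay⟩ := mem_img.1 ((M.img_EE L r).ge ⟨_, hc, rfl⟩)
  obtain ⟨k, ek⟩ := cjT1 hc
  obtain ⟨g, ag⟩ := M.asur k
  have i1 := iT (ρ := ρ) M L (one_mem _)
  have ly : ∀ u ∈ Q', ρ y * T ρ Q Q' z u = lm u y • T ρ Q Q' z u := fun u hu => by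
    rw [T, ← mul_assoc, (mu_of L.r.es inf_le_left hu).l hy, smul_mul_assoc]
  have t1 := dec M L r S' 1
  have t2 := dec M L r S' (ρ y)
  have t3 := dec M L r S' (ρ (l (el cT1)))
  have rp := (gd_of isM_T1).rep
  rw [one_mul, one_mul, tr_rk (mu_of M.le.es le_rfl (one_mem _)).idem, tr_rk i1, sumD (fun _ => 1) (n := 276)
    (by decide +kernel) fun p hp => by rw [one_mul, trT M L r (DD_ne hp).2.2.2, Int.cast_one, one_mul]] at t1
  rw [ly _ (one_mem _), lm_pos (by simp), one_smul, tr_rk i1, sumD (n := 20)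
    (fun p => if (8536111).testBit p.1 = (8536111).testBit p.2 then 1 else -1) (by decide +kernel) fun p hp => by
      have d := DD_ne hp
      rw [ly _ (uQ M L r d.2.2.2), map_smul, trT M L r d.2.2.2, lm, smul_eq_mul, Int.cast_ite, Int.cast_one, Int.cast_neg,
        Int.cast_one, if_congr ((sgn_cm M L r d.2.2.2 (rU M _ _) hy.1 hc ay).trans (by
          rw [pt_mem_S d.1, pt_mem_S d.2.1, ← Bool.eq_iff_iff])) rfl rfl],
    tr_cj (g := g) (b := ρ (g * y * g⁻¹) * pj ρ Q 1) (by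
      rw [mul_assoc (ρ _), ← cE M ag.1, ← mul_assoc, ← mul_assoc, ← map_mul, ← map_mul, inv_mul_cancel_right]),
    same M (l2 (el cT1)) ⟨_, ((ag.mul ay).mul ag.inv).2.trans ek⟩, t3, sumD (n := 36)
    (fun p => if p.1 = ap cT1 p.1 ∧ p.2 = ap cT1 p.2 ∨ p.1 = ap cT1 p.2 ∧ p.2 = ap cT1 p.1 then 1 else 0)
    (by decide +kernel) fun p hp => by
      have d := DD_ne hp
      split_ifs with c
      · rw [fixT M L r S' (l1 _) (l2 _) d.2.2.2 (by
          rw [rp.app d.1, rp.app d.2.1]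
          exact c.elim (fun c => by rw [← c.1, ← c.2]) fun c => by rw [← c.1, ← c.2, vv_comm]),
          trT M L r d.2.2.2, Int.cast_one, one_mul]
      · rw [movT M L r (l1 _) (l2 _) d.2.2.2 (by
          rwa [rp.app d.1, rp.app d.2.1, pt_eq_iff d.1 (rp.lt d.1), pt_eq_iff d.2.1 (rp.lt d.2.1),
            pt_eq_iff d.1 (rp.lt d.2.1), pt_eq_iff d.2.1 (rp.lt d.1)]), Int.cast_zero, zero_mul]] at t2
  have r1 := mt rk_zero (rpos M L r S S')
  have := S.1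
  norm_cast at t1
  have r2 : rk (T ρ Q Q' z (U M (pt 0) (pt 1))) = 1 := by unfold T at *; omega
  have := m24 (τ := fun σ => ρ (l σ) * T ρ Q Q' z 1) (fun a b => by
      rw [sameT M ((l2 a).mul (l2 b)) (map_mul prmH a b ▸ l2 _), mul_assoc, ← mul_assoc _ (ρ _), ← cT M L (l1 b),
        mul_assoc, i1.eq, map_mul, mul_assoc]) _
    (by rw [sameT M (.one (one_mem _)) (map_one prmH ▸ l2 1), map_one, one_mul, tr_rk i1])
    (by rw [r2] at t2; push_cast at t2; linear_combination t2)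
  omega

omit r S S' in
theorem deg (hz : ρ z ≠ 1) : 196883 ≤ finrank ℂ V := by
  by_contra! hn
  obtain ⟨k, r⟩ := M.typ4 L
  obtain ⟨g, rfl, rfl⟩ := L.conj
  obtain ⟨f', M'⟩ := cjM M g
  refine core (M.twist k) L r (sm M L hz hn) (sm M' L.symm (fun c => hz ?_) hn)
  rw [← inv_mul_cancel_left g z, ← inv_mul_cancel_right (g * z) g, map_mul, map_mul, c, one_mul, ← map_mul,
    inv_mul_cancel, map_one]

omit r S S' in
theorem gl {n : ℕ} (π : G →* GL (Fin n) ℂ) (hπ : Function.Injective π) : 196883 ≤ n := by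
  have := deg (ρ := (Matrix.toLinAlgEquiv' (R := ℂ) (n := Fin n)).toMonoidHom.comp ((Units.coeHom _).comp π)) M L
    fun c => M.le.es.z1 (hπ (Units.ext ((Matrix.toLinAlgEquiv'.injective (c.trans (map_one _).symm)).trans
      (by rw [map_one]; rfl))))
  simpa using this

end H1.RB
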