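import Cfsg.Agent.H21.BR3

/-! Interface for simple groups with fewer than `p ^ 2` Sylow `p`-subgroups (notes/SN.md). -/

open Cfsg
open H5 H7 H8 H21

namespace H1.SN

open Subgroup Finset
open scoped ComplexConjugate MatrixGroups Pointwise

universe u

local notation "𝐍" x:max => normalizer (SetLike.coe (zpowers x))
local notation "𝐂" x:max => centralizer ({x} : Set _)

/-- `G ≅ PSL(2, q)` -/
def L2 (G : Type u) [Group G] (q : ℕ) : Prop :=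
  ∃ (F : Type) (_ : Field F) (_ : Fintype F), Fintype.card F = q ∧ Nonempty (G ≃* PSL(2, F))

/-- `G ≅ PSL(3, 3)` -/
def L33 (G : Type u) [Group G] : Prop :=
  ∃ (F : Type) (_ : Field F) (_ : Fintype F), Fintype.card F = 3 ∧ Nonempty (G ≃* PSL(3, F))

/-- the outcome -/
def Out (G : Type u) [Group G] (p : ℕ) : Prop :=
  3 < p ∧ (L2 G p ∨ (p = 13 ∧ Nat.card (Sylow p G) = 144 ∧ L33 G) ∨
    ((∃ k : ℕ, p = 2 ^ k + 1) ∧ L2 G (p - 1)) ∨ ((∃ k : ℕ, p + 1 = 2 ^ k) ∧ L2 G (p + 1)))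

/-- The principal block of a simple group with `n p + 1 < p ^ 2` Sylow subgroups of order `p`.
`v = u + 1`, `A = u p + 1 = v (p - m)`, `N = n p + 1 = (p - m) (p + v)`,
`D = (m + 1) p - 1 = m (p + v)`. -/
structure Dat (G : Type u) [Group G] [Finite G] [DecidableEq (IrrCharacter G)] where
  M : Ideal AlgInt
  p : ℕ
  x : G
  δ : ℤ
  ζ : (zpowers x →* ℂˣ) → IrrCharacter G
  a : IrrCharacter G → ℤ
  Y : Finset (IrrCharacter G)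
  n : ℕ
  u : ℕ
  m : ℕ
  j : ℕ
  pd : PD M p x δ ζ a Y
  simple : IsSimpleGroup G
  perf : commutator G = ⊤
  hN : (𝐍 x).index = n * p + 1
  np : n < p
  upos : 0 < u
  mv : m * (u + 1) + 1 = p
  nm : n + m = p + u
  pos : ∀ χ, a χ = 1 → χ = irrOne G ∨ charDegree χ.1 = u * p + 1 ∨ charDegree χ.1 = n * p + 1
  neg : ∀ χ, a χ = -1 → charDegree χ.1 + 1 = p ∨ charDegree χ.1 + 1 = (m + 1) * p
  exc : ∀ η ∈ Y, (charDegree η.1 : ℤ) = p * j + δ * aq x ∧ sP x η.1 = p * j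
  cas : δ = 1 ∧ (j = 0 ∨ #Y * j = m) ∨ δ = -1 ∧ (#Y * j = u + 1 ∨ #Y * j = n + 1)

namespace Dat

variable {G : Type u} [Group G] [Finite G] [DecidableEq (IrrCharacter G)] (D : Dat G)

/-- the order of the automizer -/
noncomputable abbrev e : ℕ := aq D.x
/-- the number of exceptional characters -/
abbrev t : ℕ := #D.Y
noncomputable def nA : ℕ := #{χ | D.a χ = 1 ∧ charDegree χ.1 = D.u * D.p + 1}
noncomputable def nN : ℕ := #{χ | D.a χ = 1 ∧ charDegree χ.1 = D.n * D.p + 1}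
noncomputable def nC : ℕ := #{χ | D.a χ = -1 ∧ charDegree χ.1 + 1 = D.p}
noncomputable def nD : ℕ := #{χ | D.a χ = -1 ∧ charDegree χ.1 + 1 = (D.m + 1) * D.p}
/-- `⟨x⟩` is self-centralizing -/
abbrev K1 : Prop := SCent D.p D.x

end Dat

/-- the final theorem (glue, helper1) -/
def MAIN : Prop := ∀ (S : Type u) [Group S] [Finite S] [IsSimpleGroup S] (p : ℕ),
  ¬ IsMulCommutative S → p.Prime → p ∣ Nat.card S → Nat.card (Sylow p S) < p ^ 2 → Out S p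

/-- the data exist -/
def EX : Prop := ∀ (S : Type u) [Group S] [Finite S] [IsSimpleGroup S]
  [DecidableEq (IrrCharacter S)] (p : ℕ), ¬ IsMulCommutative S → p.Prime → p ∣ Nat.card S →
  Nat.card (Sylow p S) < p ^ 2 → Out S p ∨ ∃ D : Dat S, D.p = p

/-- counting -/
def BA : Prop := ∀ (G : Type u) [Group G] [Finite G] [DecidableEq (IrrCharacter G)] (D : Dat G),
  1 + D.nA + D.nN + D.nC + D.nD = D.e ∧
  D.δ * D.j = D.nA * D.u + D.nN * D.n - D.nC - D.nD * (D.m + 1) ∧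
  (D.nA ≠ 0 → D.u + 1 ∣ D.e) ∧ (D.nD ≠ 0 → D.m ∣ D.e) ∧ (D.nC ≠ 0 → D.t ∣ D.n * D.p + 1)

/-! ### Geometry -/

/-- the conjugates of `L` -/
def lines {G : Type u} [Group G] (L : Subgroup G) : Set (Subgroup G) :=
  {H | ∃ g : G, H = MulAut.conj g • L}

/-- points: Sylow subgroups, lines: conjugates of `L` -/
structure LS {G : Type u} [Group G] (p : ℕ) (L : Subgroup G) (w : ℕ) : Prop where
  two : 2 ≤ w
  three : 3 * w ≤ p + 1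
  uniq : ∀ H ∈ lines L, ∀ K ∈ lines L, ∀ Q R : Sylow p G, Q ≠ R → (Q : Subgroup G) ≤ H →
    (R : Subgroup G) ≤ H → (Q : Subgroup G) ≤ K → (R : Subgroup G) ≤ K → H = K
  pts : ∀ H ∈ lines L, {Q : Sylow p G | (Q : Subgroup G) ≤ H}.ncard = p + 1
  thru : ∀ Q : Sylow p G, {H | H ∈ lines L ∧ (Q : Subgroup G) ≤ H}.ncard = w
  meet : ∀ H ∈ lines L, ∀ K ∈ lines L, ∃ Q : Sylow p G, (Q : Subgroup G) ≤ H ∧ (Q : Subgroup G) ≤ K
  off : ∀ Q : Sylow p G, {H | H ∈ lines L ∧ ¬ (Q : Subgroup G) ≤ H}.ncard = p * (w - 1)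

def GEO1 : Prop := ∀ (G : Type u) [Group G] [Finite G] [IsSimpleGroup G] (p : ℕ) (x y : G),
  commutator G = ⊤ → p.Prime → orderOf x = p → ¬ p ∣ (zpowers x).index → (𝐍 x).index < p ^ 2 →
  y ≠ 1 → y ∈ 𝐂 x → ¬ 𝐂 y ≤ 𝐍 x → ∃ (L : Subgroup G) (w : ℕ), L ≤ 𝐂 y ∧ LS p L w

def GEO2 : Prop := ∀ (G : Type u) [Group G] [Finite G] [IsSimpleGroup G] (p r : ℕ) (x y : G)
  (L : Subgroup G) (w : ℕ), p.Prime → orderOf x = p → ¬ p ∣ (zpowers x).index → r.Prime → r ≠ p →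
  orderOf y = r → L ≤ 𝐂 y → ¬ LS p L w

/-! ### The self-centralizing property -/

def PY : Prop := ∀ (G : Type u) [Group G] [Finite G] (M : Ideal AlgInt) (p : ℕ) (x y : G)
  (χ : IrrCharacter G), IsPModular p M → orderOf x = p → ¬ p ∣ (zpowers x).index →
  χ ∈ principalBlock M G → y ∈ 𝐂 x → ¬ p ∣ orderOf y →
  ∀ u : zpowers x, u ≠ 1 → χ.1 (y * u) = χ.1 u

open Classical in
/-- the sum of `ν` over the conjugates of `w` in `⟨x⟩` -/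
noncomputable def cs {G : Type u} [Group G] [Finite G] (x : G) (ν : zpowers x →* ℂˣ)
    (w : zpowers x) : ℂ :=
  ∑ k ∈ univ.filter fun k : zpowers x => IsConj (w : G) (k : G), (ν k : ℂ)

def SEC : Prop := ∀ (G : Type u) [Group G] [Finite G] (R : Ideal AlgInt) (p r : ℕ) (x y : G)
  (χ : IrrCharacter G), p.Prime → orderOf x = p → ¬ p ∣ (zpowers x).index → IsPModular r R →
  r ≠ p → orderOf y = r → y ∈ 𝐂 x → 𝐂 y ≤ 𝐍 x → ∀ w : zpowers x, w ≠ 1 → ∃ c : kk R,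
  ∀ ν : zpowers x →* ℂˣ, ∑ u : zpowers x, χ.1 (y * u) * conj (ν u : ℂ) ≠ 0 → red R (cs x ν w) = c

def KV : Prop := ∀ (G : Type u) [Group G] [Finite G] [DecidableEq (IrrCharacter G)] (D : Dat G)
  (r : ℕ) (y : G), r.Prime → r ≠ D.p → orderOf y = r → y ∈ 𝐂 D.x →
  (2 ≤ D.t → ∀ χ, D.a χ ≠ 0 → χ.1 y = D.a χ) ∧
  (D.t = 1 → (∀ χ, D.a χ ≠ 0 → χ.1 y = D.a χ ∨ χ.1 y = D.a χ * (1 - D.p)) ∧
    ∀ η ∈ D.Y, η.1 y = -D.δ ∨ η.1 y = -D.δ * (1 - D.p))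

def SCN : Prop := ∀ (G : Type u) [Group G] [Finite G] [DecidableEq (IrrCharacter G)] (D : Dat G),
  ¬ (D.δ = 1 ∧ D.j = 0 ∧ 2 ≤ D.t) → D.K1

def LP : Prop := ∀ (G : Type u) [Group G] [Finite G] [DecidableEq (IrrCharacter G)] (D : Dat G),
  D.δ = 1 → D.j = 0 → 2 ≤ D.t → L2 G D.p

/-! ### Induced linear characters of the normalizer -/

noncomputable instance fintypeLin {G : Type u} [Group G] [Finite G] (x : G) :
    Fintype (𝐍 x →* ℂˣ) := Fintype.ofFinite _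

noncomputable instance fintypeNorm {G : Type u} [Group G] [Finite G] (x : G) :
    Fintype (𝐍 x) := Fintype.ofFinite _

open Classical in
/-- `l χ μ` is the multiplicity of `χ` in the character induced from `μ` -/
structure IK {G : Type u} [Group G] [Finite G] [DecidableEq (IrrCharacter G)] (D : Dat G)
    (l : IrrCharacter G → (𝐍 D.x →* ℂˣ) → ℕ) : Prop where
  card : Fintype.card (𝐍 D.x →* ℂˣ) = D.e
  triv : ∀ (μ : 𝐍 D.x →* ℂˣ) (y : 𝐍 D.x), (y : G) ∈ zpowers D.x → μ y = 1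
  inner : ∀ χ μ, (Nat.card (𝐍 D.x) * l χ μ : ℂ) = ∑ y : 𝐍 D.x, χ.1 y * conj (μ y : ℂ)
  sum : ∀ χ, (D.p * ∑ μ, l χ μ : ℂ) = sP D.x χ.1
  sumA : ∀ χ k, D.a χ = 1 → charDegree χ.1 = k * D.p + 1 → ∑ μ, l χ μ = k + 1
  sumD : ∀ χ k, D.a χ = -1 → charDegree χ.1 + 1 = (k + 1) * D.p → ∑ μ, l χ μ = k
  sumY : ∀ η ∈ D.Y, ∑ μ, l η μ = D.j
  deg : ∀ μ, ∑ χ, l χ μ * charDegree χ.1 = D.n * D.p + 1
  rel : ∀ μ, ∀ η ∈ D.Y, (∑ χ, D.a χ * l χ μ) - D.δ * l η μ = 1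
  one : ∀ μ, l (irrOne G) μ = if μ = 1 then 1 else 0
  val : ∀ χ (y : 𝐍 D.x), (y : G) ∉ zpowers D.x → χ.1 y = ∑ μ, l χ μ * (μ y : ℂ)
  ind : ∀ μ g, Nat.card (𝐍 D.x) * ∑ χ, l χ μ * χ.1 g =
    ∑ᶠ k : G, if h : k⁻¹ * g * k ∈ 𝐍 D.x then (μ ⟨_, h⟩ : ℂ) else 0
  dvd : ∀ χ, χ ∉ D.Y → D.a χ = 0 → D.p ∣ charDegree χ.1

def IKX : Prop := ∀ (G : Type u) [Group G] [Finite G] [DecidableEq (IrrCharacter G)] (D : Dat G),
  D.K1 → ∃ l, IK D l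

def IB : Prop := ∀ (G : Type u) [Group G] [Finite G] [DecidableEq (IrrCharacter G)] (D : Dat G),
  D.K1 → 2 ≤ D.t → D.nN = 0

def IT : Prop := ∀ (G : Type u) [Group G] [Finite G] [DecidableEq (IrrCharacter G)] (D : Dat G),
  D.K1 → D.t = 1 → D.nC = 0 → ¬ (D.δ = 1 ∧ D.j = 0) →
  D.nN = 0 ∧ ¬ (D.δ = -1 ∧ D.t * D.j = D.n + 1)

def IR : Prop := ∀ (G : Type u) [Group G] [Finite G] [DecidableEq (IrrCharacter G)] (D : Dat G),
  D.K1 → D.nN = 0 → (D.δ = 1 ∧ D.t * D.j = D.m ∨ D.δ = -1 ∧ D.t * D.j = D.u + 1) →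
  (D.e - 1) * ((D.p - D.m) % (D.m + (D.u + 1))) +
    (D.nD * D.m + if D.δ = 1 then D.j else 0) * (D.m + (D.u + 1)) ≤ D.n + (D.e - 1) * (D.p - D.m)

def IN : Prop := ∀ (G : Type u) [Group G] [Finite G] [DecidableEq (IrrCharacter G)] (D : Dat G),
  D.K1 → D.δ = -1 → D.t * D.j = D.n + 1 → D.u + 1 < D.m → D.m = D.u + 2

def EV : Prop := ∀ (G : Type u) [Group G] [Finite G] [DecidableEq (IrrCharacter G)] (D : Dat G),
  D.K1 → Even D.e → Even (D.n * D.p + 1)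

def T1 : Prop := ∀ (G : Type u) [Group G] [Finite G] [DecidableEq (IrrCharacter G)] (D : Dat G),
  D.K1 → D.t = 1 → D.nC = 0 ∧ ¬ (D.δ = 1 ∧ D.j = 0)

/-- the non-exceptional characters are independent on the `p`-regular elements -/
def LI : Prop := ∀ (G : Type u) [Group G] [Finite G] [DecidableEq (IrrCharacter G)] (D : Dat G),
  D.K1 → ∀ c : IrrCharacter G → ℂ, (∀ χ, D.a χ = 0 → c χ = 0) →
  (∀ g, ¬ D.p ∣ orderOf g → ∑ χ, c χ * χ.1 g = 0) → ∀ χ, c χ = 0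

def M2 : Prop := ∀ (G : Type u) [Group G] [Finite G] [DecidableEq (IrrCharacter G)] (D : Dat G),
  D.K1 → D.δ = 1 → D.t * D.j = D.m → D.nN = 0 → D.nD = 0 → 2 * (D.u + 1 + D.u * D.t) < D.p →
  D.nC ≤ D.nA * (D.u - 1)

/-- class multiplication coefficient -/
def CC : Prop := ∀ (G : Type u) [Group G] [Finite G] [DecidableEq (IrrCharacter G)] (D : Dat G),
  D.K1 → ∀ η ∈ D.Y, ∀ y g : G, y ≠ 1 → g ≠ 1 → ¬ D.p ∣ orderOf y → ¬ D.p ∣ orderOf g → ∃ c : ℕ,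
  (D.p * c * Nat.card (𝐂 y) * Nat.card (𝐂 g) : ℂ) = Nat.card G *
    ((∑ χ, D.a χ * χ.1 y * χ.1 g / χ.1 1) - D.δ * η.1 y * η.1 g / η.1 1)

/-- exceptional characters are integral on `p`-regular elements -/
def GI : Prop := ∀ (G : Type u) [Group G] [Finite G] [DecidableEq (IrrCharacter G)] (D : Dat G),
  D.K1 → 2 ≤ D.t → ∀ η ∈ D.Y, ∀ g, ¬ D.p ∣ orderOf g → ∃ k : ℤ, η.1 g = k

/-- the configuration of `PSL(3, 3)` -/
def Dat.CF {G : Type u} [Group G] [Finite G] [DecidableEq (IrrCharacter G)] (D : Dat G) : Prop :=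
  D.K1 ∧ D.δ = 1 ∧ D.j = 1 ∧ D.t = D.m ∧ D.m = D.u + 2 ∧ D.nA = 1 ∧ D.nN = 0 ∧ D.nD = 0 ∧ 2 ≤ D.u

def FA : Prop := ∀ (G : Type u) [Group G] [Finite G] [DecidableEq (IrrCharacter G)] (D : Dat G),
  D.CF → ∀ η ∈ D.Y, (∀ y ∈ 𝐍 D.x, y ∉ zpowers D.x →
    η.1 y = 1 ∧ ∀ χ, χ ≠ irrOne G → D.a χ ≠ 0 → χ.1 y = 0) ∧
  ∀ φ ψ, D.a φ = -1 → D.a ψ = -1 → ∑ᶠ g, φ.1 g * conj (ψ.1 g) * conj (η.1 g) = 0

def FB : Prop := ∀ (G : Type u) [Group G] [Finite G] [DecidableEq (IrrCharacter G)] (D : Dat G),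
  D.CF → ∀ η ∈ D.Y, ∃ (g : G) (K : ℕ), g ≠ 1 ∧ ¬ D.p ∣ orderOf g ∧ η.1 g = -K ∧
    (D.u + 1) ^ 2 ≤ K + 2 * (D.u + 1) + 1 ∧
    K ^ 2 * (D.u + 1) ^ 3 ≤ ((D.u + 1) * D.u - 1) * Nat.card (𝐂 g)

def F1 : Prop := ∀ (G : Type u) [Group G] [Finite G] [DecidableEq (IrrCharacter G)] (D : Dat G),
  D.CF → D.u = 2

def LL : Prop := ∀ (G : Type u) [Group G] [Finite G] [DecidableEq (IrrCharacter G)] (D : Dat G),
  D.K1 → D.δ = 1 → D.j = 1 → D.t = D.m → D.u = 1 → D.nA = 1 → D.nN = 0 → D.nC = 0 → D.nD = 0 →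
  (∃ k : ℕ, D.p + 1 = 2 ^ k) ∧ L2 G (D.p + 1)

/-! ### From simple groups to all groups -/

def PS1 : Prop := ∀ (G : Type u) [Group G] [Finite G] (p : ℕ), p.Prime → IsPSolvable p G →
  Nat.card (Sylow p G) < p ^ 2 → ∃ q k : ℕ, q.Prime ∧ Nat.card (Sylow p G) = q ^ k

def PS2 : Prop := ∀ (G : Type u) [Group G] [Finite G] (p : ℕ), p.Prime → ¬ IsPSolvable p G →
  Nat.card (Sylow p G) < p ^ 2 → ∃ (S : Type u) (_ : Group S) (_ : Finite S), IsSimpleGroup S ∧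
    ¬ IsMulCommutative S ∧ p ∣ Nat.card S ∧ Nat.card (Sylow p S) = Nat.card (Sylow p G)

/-- the Sylow numbers of the groups in the outcome -/
def NV : Prop := ∀ (S : Type u) [Group S] [Finite S] [IsSimpleGroup S] (p : ℕ),
  ¬ IsMulCommutative S → p.Prime →
  (L2 S p → Nat.card (Sylow p S) = p + 1) ∧ (L33 S → Nat.card (Sylow 13 S) < 13 ^ 2) ∧
  (3 < p → L2 S (p - 1) → 2 * Nat.card (Sylow p S) = 2 + (p - 3) * p) ∧
  (3 < p → L2 S (p + 1) → 2 * Nat.card (Sylow p S) = 2 + (p + 3) * p ∨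
    Nat.card (Sylow p S) = p + 1)

end H1.SN
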