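import Mathlib

/-! Arithmetic of the case tree for Sylow numbers below `p ^ 2`. -/

namespace H1.SN

/-- one exceptional character -/
theorem ar_one {u m e a d r q : ℕ} (hu : 0 < u) (hm : u + 1 ≤ m) (he : e + 1 = m * (u + 1))
    (h1 : a + d = m * (u + 1)) (h2 : d * (m + 1) = 1 + a * u)
    (hq : m * u + 1 = (m + (u + 1)) * q + r)
    (hr : e * r + d * m * (m + (u + 1)) ≤ m * u + u + 1 + e * (m * u + 1)) : False := by
  have h3 : d * (m + (u + 1)) = 1 + m * (u + 1) * u := by rw [← h1]; nlinarith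
  have h4 : e * r + m ≤ e + u + 1 := by
    have : d * m * (m + (u + 1)) = m + m * u * (e + 1) := by
      rw [mul_right_comm, h3, he]; ring
    nlinarith
  rcases Nat.lt_or_ge r 2 with h | h
  · interval_cases r
    · have h5 : m + (u + 1) ∣ u := by
        have h6 : d * (m + (u + 1)) + u = (m + (u + 1)) * (q * (u + 1)) := by
          rw [← mul_assoc, ← add_zero (_ * q), ← hq, h3]; ring
        exact (Nat.dvd_add_right (dvd_mul_left _ d)).1 (h6 ▸ dvd_mul_right _ _)
      have := Nat.le_of_dvd hu h5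
      omega
    · obtain rfl : m = u + 1 := by omega
      have h5 : u + 1 ∣ 1 + (u + 1) * (u + 1) * u := h3 ▸ ⟨2 * d, by ring⟩
      have := Nat.le_of_dvd one_pos ((Nat.dvd_add_left ⟨(u + 1) * u, by ring⟩).1 h5)
      omega
  · nlinarith

/-- the exceptional degree is `N / t` -/
theorem ar_N {u m e t j a c d : ℕ} (hu : 0 < u) (hm : u + 1 ≤ m) (ht : 2 ≤ t)
    (he : t * e = m * (u + 1)) (hj : t * j = m * u + u + 2) (h1 : 1 + a + c + d = e)
    (h2 : j + a * u = c + d * (m + 1)) (ha : a ≠ 0 → u + 1 ∣ e) (hd : d ≠ 0 → m ∣ e)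
    (hN : u + 1 < m → m = u + 2) : False := by
  rcases hm.eq_or_lt with rfl | h
  · have h3 : t ∣ t * e + 1 := ⟨j, by rw [he, hj]; ring⟩
    have := Nat.le_of_dvd one_pos ((Nat.dvd_add_right (dvd_mul_right _ _)).1 h3)
    omega
  · obtain rfl := hN h
    obtain rfl : j = e := Nat.eq_of_mul_eq_mul_left (by omega : 0 < t) (by rw [he, hj]; ring)
    have h3 : d * (u + 2) = 1 + a * (u + 1) := by nlinarith
    have hd0 : d ≠ 0 := by rintro rfl; omega
    have ha0 : a ≠ 0 := by
      rintro rfl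
      have := Nat.pos_of_ne_zero hd0
      nlinarith
    have h4 : (u + 2) * (u + 1) ∣ j :=
      Nat.Coprime.mul_dvd_of_dvd_of_dvd (by simp [show u + 2 = u + 1 + 1 from rfl]) (hd hd0) (ha ha0)
    have := Nat.le_of_dvd (by omega) h4
    nlinarith

theorem one_or_lt {t r s : ℕ} (ht : 2 ≤ t) (h : ∃ k, t * k + 1 = t * s + r) : r = 1 ∨ t + 1 ≤ r := by
  obtain ⟨k, h⟩ := h
  have h1 : r % t = 1 := by
    have := congrArg (· % t) h
    simp only [Nat.mul_add_mod] at this
    rw [← this, Nat.mod_eq_of_lt (by omega)]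
  have := Nat.div_add_mod r t
  rcases Nat.eq_zero_or_pos (r / t) with h0 | h0
  · left; rw [h0] at this; omega
  · right; nlinarith

theorem ar_A1 {u m e t j d r q : ℕ} (hm : u + 1 ≤ m) (ht : 2 ≤ t) (hs : t ∣ m)
    (h3 : e + 1 = j * m) (hj : t * j = u + 1) (h5 : d * (m + (u + 1)) + u = j * m * u + j)
    (hq : m * u + 1 = (m + (u + 1)) * q + r) (h6 : e * r ≤ (m + 1) * u) : False := by
  have hj0 : 0 < j := Nat.pos_of_ne_zero (by rintro rfl; omega)
  have hju : 2 * j ≤ u + 1 := hj ▸ Nat.mul_le_mul_right j ht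
  obtain ⟨s, hs⟩ := hs
  rcases one_or_lt (r := r) (s := (s + j) * q) ht
    ⟨s * u, by rw [← mul_assoc, ← hs, hq, ← hj, hs]; ring⟩ with rfl | h7
  · have h8 : m * u = (m + (u + 1)) * q := by omega
    rw [mul_assoc j, h8] at h5
    have h9 : d = j * q := by
      rcases lt_trichotomy d (j * q) with h | h | h
      · have := Nat.mul_le_mul_right (m + (u + 1)) (Nat.succ_le_of_lt h)
        simp only [Nat.succ_eq_add_one] at this
        linarith
      · exact h
      · have := Nat.mul_le_mul_right (m + (u + 1)) (Nat.succ_le_of_lt h)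
        simp only [Nat.succ_eq_add_one] at this
        linarith
    have h10 : u = j := by rw [h9] at h5; linarith
    subst h10
    obtain rfl : u = 1 := by omega
    rcases Nat.eq_zero_or_pos q with rfl | h
    · omega
    · have := Nat.mul_le_mul_left (m + (1 + 1)) h
      omega
  · have h8 : e * (t + 1) ≤ (m + 1) * u := le_trans (Nat.mul_le_mul_left _ h7) h6
    have h9 : (j + 1) * m ≤ (j + 1) * t := by
      have : (e + 1) * t = (u + 1) * m := by rw [h3, ← hj]; ring
      linarith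
    have h10 : m ≤ t := Nat.le_of_mul_le_mul_left h9 (Nat.succ_pos j)
    obtain rfl : j = 1 := by
      by_contra h
      have := Nat.mul_le_mul_left t (show 2 ≤ j by omega)
      omega
    obtain rfl : m = u + 1 := by omega
    have h11 : u + 1 ∣ (u + 1) * u + 2 := ⟨2 * d + 1, by linarith⟩
    have := Nat.le_of_dvd two_pos ((Nat.dvd_add_right (dvd_mul_right _ _)).1 h11)
    obtain rfl : u = 1 := by omega
    omega

/-- the exceptional degree is `A / t` -/
theorem ar_A {u m e t j a c d r q : ℕ} (hu : 0 < u) (hm : u + 1 ≤ m) (ht : 2 ≤ t)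
    (he : t * (e + 1) = m * (u + 1)) (hj : t * j = u + 1) (h1 : a + c + d = e)
    (h2 : j + a * u = c + d * (m + 1)) (ha : a ≠ 0 → u + 1 ∣ e + 1)
    (hc : c ≠ 0 → t ∣ (m * u + u + 1) * (m * (u + 1) + 1) + 1)
    (hq : m * u + 1 = (m + (u + 1)) * q + r)
    (hr : e * r + d * m * (m + (u + 1)) ≤ m * u + u + 1 + e * (m * u + 1)) : False := by
  have hj0 : 0 < j := Nat.pos_of_ne_zero (by rintro rfl; omega)
  have hju : 2 * j ≤ u + 1 := hj ▸ Nat.mul_le_mul_right j ht
  have h3 : e + 1 = j * m := Nat.eq_of_mul_eq_mul_left (by omega : 0 < t) (by rw [he, ← hj]; ring)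
  have h4 : (j + d) * m = a * (u + 1) + 1 + j := by linarith
  have hc' : c ≠ 0 → t ∣ m → False := fun h h' => by
    obtain ⟨s, rfl⟩ := h'
    have h5 : t ∣ t * (s * u * (t * s * (u + 1) + 1) + (u + 1) * (s * (u + 1)) + j) + 1 := by
      convert hc h using 1; linarith
    have := Nat.le_of_dvd one_pos ((Nat.dvd_add_right (dvd_mul_right _ _)).1 h5)
    omega
  rcases Nat.eq_zero_or_pos a with rfl | ha0
  · have h5 : j * (2 * j) ≤ j * m := Nat.mul_le_mul_left _ (by omega)
    have h6 : 0 ≤ d * m := Nat.zero_le _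
    obtain rfl : j = 1 := by nlinarith
    obtain rfl : m = 2 := le_antisymm (by linarith) (by omega)
    exact hc' (by omega) ⟨1, by omega⟩
  have hs : t ∣ m := by
    have h5 := ha ha0.ne'
    rw [h3, ← hj, mul_comm t j] at h5
    exact Nat.dvd_of_mul_dvd_mul_left hj0 h5
  obtain rfl : c = 0 := by_contra fun h => hc' h hs
  have h5 : d * (m + (u + 1)) + u = j * m * u + j := by
    have : (a + d + 1) * u = j * m * u := by rw [← h3, ← h1]; ring
    linarith
  refine ar_A1 hm ht hs h3 hj h5 hq ?_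
  have : d * m * (m + (u + 1)) + m * u = (e + 1) * (m * u) + (e + 1) := by
    rw [h3]; linear_combination m * h5
  linarith

theorem ar_D1 {u e t j d r q : ℕ} (hu : 0 < u) (hm : u + 1 ≤ t * j) (ht : 2 ≤ t) (hs : t ∣ u + 1)
    (he : e + 1 = j * (u + 1)) (h5 : d * (t * j + (u + 1)) + j = e * u)
    (hq : t * j * u + 1 = (t * j + (u + 1)) * q + r) (h6 : e * r ≤ (t * j + 1) * u)
    (ev : Even (e + 1) → Even ((t * j * u + u + 1) * (t * j * (u + 1) + 1) + 1)) : False := by
  have hj0 : 0 < j := Nat.pos_of_ne_zero (by rintro rfl; omega)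
  obtain ⟨s, hs⟩ := hs
  rcases one_or_lt (r := r) (s := (j + s) * q) ht ⟨j * u, by rw [← mul_assoc, hq, hs]; ring⟩
    with rfl | h7
  · have h8 : t * j * u = (t * j + (u + 1)) * q := by omega
    have h9 : t * j + (u + 1) ∣ u + j := by
      have h10 : t * j + (u + 1) ∣ (u + 1) * u :=
        (Nat.dvd_add_right ⟨q, h8⟩).1 ⟨u, by ring⟩
      refine (Nat.dvd_add_right (dvd_mul_left _ d)).1 ?_
      have : d * (t * j + (u + 1)) + (u + j) = j * ((u + 1) * u) := by
        rw [← mul_assoc, ← he]; linarith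
      exact this ▸ h10.mul_left j
    have := Nat.le_of_dvd (by omega) h9
    have := Nat.mul_le_mul_right j ht
    omega
  · have h8 : e * (t + 1) ≤ (t * j + 1) * u := le_trans (Nat.mul_le_mul_left _ h7) h6
    have h9 : j * (u + 1 + t) ≤ 1 * (u + 1 + t) := by
      have : (e + 1) * t = j * (u + 1) * t := by rw [he]
      linarith
    obtain rfl : j = 1 := le_antisymm (Nat.le_of_mul_le_mul_right h9 (by omega)) hj0
    have := Nat.le_of_dvd (Nat.succ_pos u) ⟨s, hs⟩
    obtain rfl : t = u + 1 := by omega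
    obtain rfl : e = u := by omega
    have h10 : 2 * d + 1 = e := by
      refine Nat.eq_of_mul_eq_mul_right (Nat.succ_pos e) ?_
      simp only [Nat.succ_eq_add_one]
      linarith
    have := ev ⟨d + 1, by omega⟩
    subst h10
    simp [parity_simps] at this

/-- the exceptional degree is `D / t` -/
theorem ar_D {u e t j a c d r q : ℕ} (hu : 0 < u) (hm : u + 1 ≤ t * j) (ht : 2 ≤ t)
    (he : e + 1 = j * (u + 1)) (h1 : a + c + d = e)
    (h2 : j + c + d * (t * j + 1) = a * u) (hd : d ≠ 0 → t * j ∣ e + 1)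
    (hc : c ≠ 0 → t ∣ (t * j * u + u + 1) * (t * j * (u + 1) + 1) + 1)
    (hq : t * j * u + 1 = (t * j + (u + 1)) * q + r)
    (hr : e * r + (d * (t * j) + j) * (t * j + (u + 1)) ≤
      t * j * u + u + 1 + e * (t * j * u + 1))
    (ev : Even (e + 1) → Even ((t * j * u + u + 1) * (t * j * (u + 1) + 1) + 1))
    (m2 : d = 0 → 2 * (u + 1 + u * t) < t * j * (u + 1) + 1 → c ≤ a * (u - 1)) :
    d = 0 ∧ j = 1 ∧ a = 1 ∧ (u = 1 ∧ c = 0 ∨ t = u + 2 ∧ 2 ≤ u) := by
  have hj0 : 0 < j := Nat.pos_of_ne_zero (by rintro rfl; omega)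
  have hc' : c ≠ 0 → t ∣ u + 2 := fun h => (Nat.dvd_add_right
    ⟨j * (u * (t * j * (u + 1) + 1) + (u + 1) * (u + 1)), rfl⟩).1 (by convert hc h using 1; ring)
  obtain rfl : d = 0 := by
    by_contra hd0
    have hs : t ∣ u + 1 := by
      have h5 := hd hd0
      rw [he, mul_comm t j] at h5
      exact Nat.dvd_of_mul_dvd_mul_left hj0 h5
    obtain rfl : c = 0 := by
      by_contra h
      have := Nat.le_of_dvd one_pos ((Nat.dvd_add_right hs).1 (hc' h))
      omega
    have h5 : d * (t * j + (u + 1)) + j = e * u := by rw [← h1]; linarith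
    refine ar_D1 hu hm ht hs he h5 hq ?_ ev
    have : (d * (t * j) + j) * (t * j + (u + 1)) = t * j * (e * u) + (e + 1) := by
      rw [he, ← h5]; ring
    linarith
  have h3 : a * (u + 1) + 1 = j * (u + 2) := by linarith
  have h4 : j ≤ a := by
    by_contra h
    have := Nat.mul_le_mul_right (u + 1) (show a + 1 ≤ j by omega)
    linarith
  have h6 : a = j := by
    by_contra h
    obtain ⟨s, rfl⟩ := Nat.exists_eq_add_of_lt (lt_of_le_of_ne h4 (Ne.symm h))
    have h7 : j = (s + 1) * (u + 1) + 1 := by linarith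
    have h9 : u + 2 ≤ j := by have := Nat.zero_le (s * (u + 1)); linarith
    have h8 := m2 rfl (by
      have h10 := Nat.mul_le_mul_right (u + 1) (Nat.mul_le_mul_left t h9)
      have h11 := Nat.mul_le_mul_right (u + 1) ht
      have h12 := Nat.zero_le (t * u * u)
      linarith)
    obtain ⟨w, rfl⟩ : ∃ w, u = w + 1 := ⟨u - 1, by omega⟩
    simp only [add_tsub_cancel_right] at h8
    linarith
  subst h6
  obtain rfl : a = 1 := by linarith
  refine ⟨rfl, rfl, rfl, ?_⟩
  rcases Nat.eq_zero_or_pos c with rfl | hc0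
  · omega
  refine Or.inr ⟨?_, by omega⟩
  have h5 := hc' hc0.ne'
  have h7 := Nat.le_of_dvd (by omega) h5
  by_contra h
  obtain rfl : t = u + 1 := by omega
  have := Nat.le_of_dvd one_pos ((Nat.dvd_add_right dvd_rfl).1 h5)
  omega

end H1.SN
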