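import Cfsg.Agent.H1.SN0

/-! The three final statements from the main theorem. -/

open Cfsg

namespace H1.SN

universe u

theorem fin40 (main : MAIN.{u}) (nv : NV.{u}) {S : Type u} [Group S] [Finite S] [IsSimpleGroup S]
    (hS : ¬ IsMulCommutative S) {p : ℕ} (hp : p.Prime) (hd : p ∣ Nat.card S) :
    Nat.card (Sylow p S) < p ^ 2 ↔ (L2 S p ∨ (p = 13 ∧ L33 S) ∨
      (3 < p ∧ (∃ k : ℕ, p = 2 ^ k + 1) ∧ L2 S (p - 1)) ∨
      (3 < p ∧ (∃ k : ℕ, p + 1 = 2 ^ k) ∧ L2 S (p + 1))) := by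
  obtain ⟨n1, n2, n3, n4⟩ := nv S p hS hp
  have h2 := hp.two_le
  refine ⟨fun h => ?_, ?_⟩
  · obtain ⟨h3, h | h | h | h⟩ := main S p hS hp hd h
    exacts [Or.inl h, Or.inr (Or.inl ⟨h.1, h.2.2⟩), Or.inr (Or.inr (Or.inl ⟨h3, h⟩)),
      Or.inr (Or.inr (Or.inr ⟨h3, h⟩))]
  · rintro (h | ⟨rfl, h⟩ | ⟨h3, -, h⟩ | ⟨h3, -, h⟩)
    · rw [n1 h]; nlinarith
    · exact n2 h
    · have := n3 h3 h
      have := Nat.mul_le_mul_right p (Nat.sub_le p 3)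
      nlinarith
    · rcases n4 h3 h with h | h <;> nlinarith

theorem fin38 (main : MAIN.{u}) (nv : NV.{u}) (ps1 : PS1.{u}) (ps2 : PS2.{u}) {G : Type u} [Group G]
    [Finite G] {p : ℕ} (hp : p.Prime) (hn : Nat.card (Sylow p G) < p ^ 2) :
    (∃ q k : ℕ, q.Prime ∧ Nat.card (Sylow p G) = q ^ k) ∨
    (p = 13 ∧ Nat.card (Sylow p G) = 144) ∨
    (p ≠ 2 ∧ (¬ ∃ k : ℕ, p + 1 = 2 ^ k) ∧ Nat.card (Sylow p G) = 1 + p) ∨
    (3 < p ∧ (∃ k : ℕ, p = 2 ^ k + 1) ∧ 2 * Nat.card (Sylow p G) = 2 + (p - 3) * p) ∨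
    (3 < p ∧ (∃ k : ℕ, p + 1 = 2 ^ k) ∧ 2 * Nat.card (Sylow p G) = 2 + (p + 3) * p) := by
  by_cases h : IsPSolvable p G
  · exact Or.inl (ps1 G p hp h hn)
  obtain ⟨S, _, _, _, hS, hd, e⟩ := ps2 G p hp h hn
  rw [← e] at hn ⊢
  obtain ⟨n1, -, n3, n4⟩ := nv S p hS hp
  obtain ⟨h3, h | h | h | h⟩ := main S p hS hp hd hn
  · by_cases hk : ∃ k : ℕ, p + 1 = 2 ^ k
    · exact Or.inl (hk.elim fun k hk => ⟨2, k, Nat.prime_two, by rw [n1 h, hk]⟩)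
    · exact Or.inr (Or.inr (Or.inl ⟨by omega, hk, by rw [n1 h, add_comm]⟩))
  · exact Or.inr (Or.inl ⟨h.1, h.2.1⟩)
  · exact Or.inr (Or.inr (Or.inr (Or.inl ⟨h3, h.1, n3 h3 h.2⟩)))
  · rcases n4 h3 h.2 with h' | h'
    · exact Or.inr (Or.inr (Or.inr (Or.inr ⟨h3, h.1, h'⟩)))
    · exact Or.inl (h.1.elim fun k hk => ⟨2, k, Nat.prime_two, by rw [h', hk]⟩)

theorem eq_two_of_even {q k n : ℕ} (hq : q.Prime) (h : n = q ^ k) (h2 : 2 ∣ n) : q = 2 :=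
  ((Nat.prime_dvd_prime_iff_eq Nat.prime_two hq).1 (Nat.prime_two.dvd_of_dvd_pow (h ▸ h2))).symm

theorem fin39 (main : MAIN.{u}) (nv : NV.{u}) (ps1 : PS1.{u}) (ps2 : PS2.{u}) {G : Type u} [Group G]
    [Finite G] {p : ℕ} (hp : p.Prime) (h0 : ¬ (3 < p ∧ ∃ k : ℕ, p + 1 = 2 ^ k))
    (hn : Nat.card (Sylow p G) < p ^ 2) :
    IsPSolvable p G ↔ ∃ q k : ℕ, q.Prime ∧ Nat.card (Sylow p G) = q ^ k := by
  refine ⟨fun h => ps1 G p hp h hn, fun ⟨q, k, hq, hk⟩ => by_contra fun h => ?_⟩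
  obtain ⟨S, _, _, _, hS, hd, e⟩ := ps2 G p hp h hn
  rw [← e] at hn hk
  obtain ⟨n1, -, n3, -⟩ := nv S p hS hp
  obtain ⟨h3, h | h | h | h⟩ := main S p hS hp hd hn
  · rw [n1 h] at hk
    have := hp.eq_two_or_odd
    obtain rfl := eq_two_of_even hq hk (by omega)
    exact h0 ⟨h3, k, hk⟩
  · rw [h.2.1] at hk
    obtain rfl := eq_two_of_even hq hk (by norm_num)
    exact absurd (Nat.prime_three.dvd_of_dvd_pow (hk ▸ (by norm_num : 3 ∣ 144))) (by norm_num)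
  · obtain ⟨l, hl⟩ := h.1
    have h4 := n3 h3 h.2
    obtain ⟨l, rfl⟩ : ∃ l', l = l' + 2 := ⟨l - 2, by
      rcases l with _ | _ | l <;> omega⟩
    obtain ⟨s, hs⟩ : ∃ s, 2 ^ l = s + 1 := ⟨2 ^ l - 1, by have := Nat.two_pow_pos l; omega⟩
    have h5 : p = 4 * s + 5 := by rw [hl, pow_add, hs]; ring
    have h6 : Nat.card (Sylow p S) = 2 * (s + 1) * (4 * s + 3) := by
      rw [show p - 3 = 4 * s + 2 by omega] at h4
      have : (4 * s + 2) * p = (4 * s + 2) * (4 * s + 5) := by rw [h5]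
      linarith
    rw [h6] at hk
    obtain rfl := eq_two_of_even hq hk ⟨_, mul_assoc _ _ _⟩
    obtain ⟨i, -, hi⟩ := (Nat.dvd_prime_pow Nat.prime_two).1 (hk ▸ dvd_mul_left (4 * s + 3) _)
    rcases i with _ | i
    · omega
    · rw [pow_succ] at hi; omega
  · exact h0 ⟨h3, h.1⟩

end H1.SN
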