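/-
Shult's analogue of the Z*-theorem.
-/
import Cfsg.Agent.H1.SF0
import Cfsg.Agent.S0035

set_option autoImplicit false
set_option linter.unusedSectionVars false

open Cfsg Subgroup
open scoped Pointwise commutatorElement
namespace H1
open H19

universe u

variable {G : Type u} [Group G] [Finite G] {p : ℕ} {x : G}

theorem syl_le_cent1 (hx : PG p (zpowers x))
    (hU : ∀ g : G, Commute x (g * x * g⁻¹) → g * x * g⁻¹ = x) : ∃ P, Syl p P ⊤ ∧ P ≤ C[x] := by
  obtain ⟨P, hP, h1⟩ := hx.exists_syl (zpowers_le.2 (mem_cent1_self x))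
  refine ⟨P, hP.syl_of_norm_le le_top fun g hg => mem_cent1.2 ?_, hP.le⟩
  have h2 : g * x * g⁻¹ ∈ C[x] := hP.le (conj_mem_of_norm hg.2 (h1 (mem_zpowers x)))
  exact mul_inv_eq_iff_eq_mul.1 (hU g (mem_cent1.1 h2).symm)

theorem le_cent1_of_central_ext (hp : p.Prime) {K : Subgroup G} (hn : x ∈ N(K))
    (hZ : center G ≤ K) (hK : PiN {p}ᶜ ((center G).relIndex K))
    (hb : ∀ H : Subgroup G, (#H).Coprime p → (∀ h ∈ H, x * h * x⁻¹ ∈ H) → ∀ h ∈ H, x * h = h * x) :
    K ≤ C[x] := by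
  have hc : ∀ L : Subgroup G, center G ≤ C(L) := fun L z hz =>
    mem_cent.2 fun h _ => mem_center_iff.1 hz h
  have h1 : Hall {p} (Oc {p} (center G)) K :=
    (nil_Oc_hall (nil_of_ab (comm_iff_le_cent.2 (hc _))) _).of_idx hZ hK
  have h2 : Oc {p} (center G) ≤ C(K) := (Oc_le _ _).trans (hc K)
  obtain ⟨H, hH⟩ := h1.exists_compl (norms_of_cents (cents_symm h2))
  have h3 := hH.hall_right h1
  have h4 : K ≤ N(H) := by
    rw [← hH.sup]
    exact sup_le (norms_of_cents (h2.trans (cent_mono hH.right_le))) le_normalizer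
  have h5 : x ∈ N(H) := by rw [h3.eq_Oc h4]; exact norm_le_norm_Oc _ _ hn
  rw [← hH.sup]
  refine sup_le ((Oc_le _ _).trans ((hc _).trans (cent_zpowers x).le)) fun h hh => mem_cent1.2 ?_
  exact (hb H ((Nat.Prime.coprime_iff_not_dvd hp).2 ((piN_compl_singleton hp).1 h3.pi)).symm
    (fun h hh => conj_mem_of_norm h5 hh) h hh).symm

theorem shult_aux (hp : p.Prime) (n : ℕ) : ∀ (G : Type u) [Group G] [Finite G] (x : G),
    Nat.card G = n → PG p (zpowers x) → (∀ g : G, Commute x (g * x * g⁻¹) → g * x * g⁻¹ = x) →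
    (∀ H : Subgroup G, (#H).Coprime p → (∀ h ∈ H, x * h * x⁻¹ ∈ H) → ∀ h ∈ H, x * h = h * x) →
    x ∈ center G := by
  induction n using Nat.strong_induction_on with
  | _ n ih =>
  intro G _ _ x hn hx hU hb
  by_contra hxZ
  have hZ : center G ≤ C[x] := fun z hz => mem_cent1.2 (mem_center_iff.1 hz x).symm
  have key : ∀ g, g ∉ C[x] → ∀ y ∈ C[x], g⁻¹ * y * g ∈ C[x] → y ∈ center G := fun g hg y h1 h2 => by
    by_contra hy
    have h3 : C[y] ≠ ⊤ := fun e => hy (mem_center_iff.2 fun z => mem_cent1.1 (e ▸ mem_top z))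
    have h4 : g * x * g⁻¹ ∈ C[y] := mem_cent1.2 (by
      have := mem_cent1.1 h2
      calc _ = g * (x * (g⁻¹ * y * g)) * g⁻¹ := by group
        _ = _ := by rw [← this]; group)
    have h5 := ih _ (hn ▸ (card_lt (lt_top_iff_ne_top.2 h3)).trans_eq card_top) C[y]
      ⟨x, mem_cent1_symm.1 h1⟩ rfl
      (by rwa [PG, PiG, Nat.card_zpowers, ← orderOf_coe, ← Nat.card_zpowers])
      (fun a ha => Subtype.ext (hU a (congrArg Subtype.val ha)))
      (fun H hH h6 h hh => Subtype.ext (hb (H.map C[y].subtype)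
        (by rwa [card_map_of_injective (subtype_injective _)])
        (by rintro _ ⟨a, ha, rfl⟩; exact ⟨_, h6 a ha, rfl⟩) h ⟨h, hh, rfl⟩))
    have h6 := congrArg Subtype.val (mem_center_iff.1 h5 ⟨_, h4⟩)
    exact hg (mem_cent1.2 (mul_inv_eq_iff_eq_mul.1 (hU g h6.symm)))
  set f := QuotientGroup.mk' (center G)
  have hf : ∀ g, f g ∈ (C[x]).map f ↔ g ∈ C[x] := fun g => by
    rw [← mem_comap, comap_map_eq, QuotientGroup.ker_mk', sup_eq_left.2 hZ]
  have hF : IsFrobeniusComplement ((C[x]).map f) := by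
    refine ⟨fun e => hxZ ?_, fun e => hxZ (mem_center_iff.2 fun g => mem_cent1.1 ((hf g).1 ?_)),
      fun g hg => eq_bot_iff.2 fun y hy => ?_⟩
    · have := (hf x).2 (mem_cent1_self x)
      rwa [e, mem_bot, QuotientGroup.mk'_apply, QuotientGroup.eq_one_iff] at this
    · rw [e]; exact mem_top _
    · obtain ⟨g, rfl⟩ := QuotientGroup.mk'_surjective _ g
      obtain ⟨y, rfl⟩ := QuotientGroup.mk'_surjective _ y
      have h1 := mem_conj_smul_iff.1 hy.2
      exact mem_bot.2 ((QuotientGroup.eq_one_iff _).2 (key g (fun h => hg ((hf g).2 h)) y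
        ((hf y).1 hy.1) ((hf _).1 (by simpa [f] using h1))))
  obtain ⟨N, -, hN, hc⟩ := Cfsg.Agent.S0035.result _ hF
  obtain ⟨P, hP, h1⟩ := syl_le_cent1 hx hU
  have hZK : center G ≤ N.comap f := fun z hz => by
    rw [mem_comap, show f z = 1 from (QuotientGroup.eq_one_iff _).2 hz]; exact N.one_mem
  have h2 : N.comap f ≤ C[x] := by
    refine le_cent1_of_central_ext hp (by rw [normalizer_eq_top]; exact mem_top x) hZK ?_ hb
    have e : (center G).relIndex (N.comap f) = (C[x]).relIndex ⊤ := by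
      have e0 : center G = (⊥ : Subgroup _).comap f := by
        rw [MonoidHom.comap_bot, QuotientGroup.ker_mk']
      refine (congrArg (fun X => relIndex X (N.comap f)) e0).trans ?_
      rw [relIndex_comap, map_comap_eq_self_of_surjective (QuotientGroup.mk'_surjective _),
        relIndex_bot_left, relIndex_top_right, ← hc.index_eq_card,
        index_map_eq _ (QuotientGroup.mk'_surjective _) (by rwa [QuotientGroup.ker_mk'])]
    rw [e]
    exact PiN.of_not_dvd (hP.not_dvd_relIndex hp h1)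
  refine hF.2.1 ?_
  rw [← hc.sup_eq_top, eq_comm, sup_eq_right]
  intro y hy
  obtain ⟨y, rfl⟩ := QuotientGroup.mk'_surjective _ y
  exact (hf y).2 (h2 hy)

end H1
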