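/-
Maximal 2-locals with cyclic `Z(O₂)` in groups of characteristic 2 type.
-/
import Cfsg.Agent.H1.SF12
import Cfsg.Agent.H10.ZStar3

set_option autoImplicit false
set_option linter.unusedSectionVars false

open Cfsg Subgroup
open scoped Pointwise commutatorElement
namespace H1
open H19

universe u

variable {G : Type u} [Group G] [Finite G] {D L S T : Subgroup G} {z w : G}

theorem maxLocal_norm (h : IsMaximalTwoLocal L) : N(Oc {2} L) = L ∧ Oc {2} L ≠ ⊥ := by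
  obtain ⟨⟨T, h1, h2, rfl⟩, hm⟩ := h
  have h0 : Oc {2} N(T) ≠ ⊥ := fun e => h2 (H19.eq_bot_mono (le_Oc ⟨le_normalizer, le_rfl⟩
    (PiN.of_isPGroup Nat.prime_two h1)) e)
  exact ⟨hm _ ⟨_, (Oc_pi _ _).isPGroup, h0, rfl⟩ (Oc_norm _ _), h0⟩

theorem cent_Oc_le (c : IsCharacteristicTwoType G) (h : IsTwoLocal L) (hz : z ∈ L)
    (hc : z ∈ C(Oc {2} L)) : z ∈ Oc {2} L := by
  obtain ⟨T, h1, h2, rfl⟩ := h
  rw [← pCore_map_eq Nat.prime_two] at hc ⊢
  exact ⟨⟨z, hz⟩, c.2 T h1 h2 (mem_cent.2 fun y hy => Subtype.ext (mem_cent.1 hc _ ⟨y, hy, rfl⟩)), rfl⟩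

theorem invol_eq_of_maxLocal (c : IsCharacteristicTwoType G) (h : IsMaximalTwoLocal L)
    (hc : IsCyclic (center (pCore 2 L))) (z2 : orderOf z = 2) (w2 : orderOf w = 2)
    (hz : z ∈ C(Oc {2} L)) (hw : w ∈ C(Oc {2} L)) : z = w := by
  let f := L.subtype.comp (pCore 2 L).subtype
  have k : ∀ x ∈ C(Oc {2} L), x ∈ (center (pCore 2 L)).map f := fun x hx => by
    have h1 : x ∈ L := (maxLocal_norm h).1 ▸ cent_le_norm _ hx
    have h2 := cent_Oc_le c h.1 h1 hx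
    rw [← pCore_map_eq Nat.prime_two] at h2 hx
    obtain ⟨y, hy, rfl⟩ := h2
    exact ⟨⟨y, hy⟩, mem_center_iff.2 fun a => Subtype.ext (Subtype.ext
      (mem_cent.1 hx _ ⟨a, a.2, rfl⟩)), rfl⟩
  exact H10.invol_unique_of_isCyclic (isCyclic_of_surjective _ (f.subgroupMap_surjective _))
    (k z hz) (k w hw) z2 w2

theorem exists_cent_invol (hS : PG 2 S) (h0 : S ≠ ⊥) : ∃ z ∈ S, z ∈ C(S) ∧ orderOf z = 2 := by
  obtain ⟨X, hX⟩ := (hS.infl C(S)).exists_el1 (hS.center_ne_bot h0)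
  obtain ⟨t, -, t2, rfl⟩ := hX.exists_gen
  exact ⟨t, (hX.le (mem_zpowers t)).1, (hX.le (mem_zpowers t)).2, t2⟩

theorem cent_invol_eq (c : IsCharacteristicTwoType G)
    (h : ∀ M : Subgroup G, IsMaximalTwoLocal M → IsCyclic (center (pCore 2 M))) (D : Subgroup G) :
    ∀ {S T : Subgroup G} {z w : G}, D ≠ ⊥ → Syl 2 S ⊤ → Syl 2 T ⊤ → D ≤ S → D ≤ T →
      orderOf z = 2 → orderOf w = 2 → z ∈ C(S) → w ∈ C(T) → z = w := by
  induction D using WellFoundedGT.induction with | ind D ih =>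
  intro S T z w h0 hS hT dS dT z2 w2 hz hw
  obtain ⟨L, h1, h2, h3⟩ := exists_maximal_ge (P := IsTwoLocal)
    ⟨D, (hS.pi.of_le dS).isPGroup, h0, rfl⟩
  have k : ∀ {S : Subgroup G} {z : G}, Syl 2 S ⊤ → D ≤ S → orderOf z = 2 → z ∈ C(S) →
      z ∈ C(Oc {2} L) := fun {S z} hS dS z2 hz => by
    obtain ⟨R, r1, r2⟩ := (hS.pi.infl N(D)).exists_syl (inf_le_right.trans h1)
    obtain ⟨S', s1, s2⟩ := r1.pi.exists_syl le_top
    refine cent_mono ((Oc_le_hall r1).trans s2) ?_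
    by_cases e : D = S
    · subst e
      rwa [← hS.eq_of_le s1 (((le_inf le_rfl le_normalizer).trans r2).trans s2)]
    have lt := hS.pi.lt_norm (lt_of_le_of_ne dS e)
    obtain ⟨y, -, y1, y2⟩ := exists_cent_invol s1.pi
      (fun e => h0 (H19.eq_bot_mono ((lt.le.trans r2).trans s2) e))
    rwa [ih _ lt (fun e => h0 (H19.eq_bot_mono lt.le e)) hS s1 inf_le_left (r2.trans s2) z2 y2 hz y1]
  exact invol_eq_of_maxLocal c ⟨h2, h3⟩ (h L ⟨h2, h3⟩) z2 w2 (k hS dS z2 hz) (k hT dT w2 hw)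

theorem exists_maxLocal_not_cyc (c : IsCharacteristicTwoType G) (hO : pPrimeCore 2 G = ⊥)
    (hZ : center G = ⊥) :
    ∃ M : Subgroup G, IsMaximalTwoLocal M ∧ ¬ IsCyclic (center (pCore 2 M)) := by
  by_contra! h
  obtain ⟨S⟩ : Nonempty (Sylow 2 G) := inferInstance
  have hS := syl_sylow_top S
  obtain ⟨z, z0, z1, z2⟩ := exists_cent_invol hS.pi
    (hS.sne_bot Nat.prime_two (by rw [card_top]; exact c.1.two_dvd))
  have z3 : z ≠ 1 := by rintro rfl; simp at z2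
  refine z3 (mem_bot.1 (hZ ▸ mem_center_iff.2 fun g => ?_))
  have := H10.zstar_weak S z0 (fun g hg => ?_) g
  · rw [hO, mem_bot, mul_inv_eq_one, mul_inv_eq_iff_eq_mul] at this; exact this
  have o : orderOf (g * z * g⁻¹) = 2 := by
    rw [← z2]; exact (MulAut.conj g).orderOf_eq z
  refine cent_invol_eq c h (zpowers (g * z * g⁻¹)) ?_ (hS.Jtop g) hS ?_ (zpowers_le.2 hg) o z2 ?_ z1
  · intro e; rw [zpowers_eq_bot] at e; simp [e] at o
  · exact zpowers_le.2 (conj_mem_cj.2 z0)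
  · rw [← cj_cent]; exact conj_mem_cj.2 z1

end H1
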